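import Cfsg.Agent.H21.An1
import Cfsg.Agent.H19.Basic
import Cfsg.Agent.H10.Cores

/-! A normal section whose non-identity elements form one conjugacy class. -/

set_option autoImplicit false
set_option linter.unusedSectionVars false

namespace H21

open H17 Cfsg Subgroup
open scoped Classical commutatorElement

universe u

/-- the hypotheses in the quotient by the kernel -/
structure TrQ {Q : Type*} [Group Q] (V : Subgroup Q) (v0 : Q) (p : ℕ) : Prop where
  normal : V.Normal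
  comm : ∀ a b : Q, ⁅a, b⁆ ∈ V
  mem : v0 ∈ V
  ne : v0 ≠ 1
  conj : ∀ v ∈ V, v ≠ 1 → IsConj v0 v
  pow : v0 ^ p = 1
  prime : p.Prime
  odd : p ≠ 2
  cos : ∀ c, c ∉ V → ∀ v ∈ V, IsConj c (c * v)

namespace TrQ

variable {Q : Type*} [Group Q] [Finite Q] {V : Subgroup Q} {v0 : Q} {p : ℕ} (h : TrQ V v0 p)
include h

theorem pow_eq {v : Q} (hv : v ∈ V) : v ^ p = 1 := by
  by_cases h1 : v = 1
  · simp [h1]
  · obtain ⟨c, rfl⟩ := isConj_iff.1 (h.conj v hv h1)
    rw [conj_pow, h.pow]; simp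

theorem isPGroup : IsPGroup p V := fun v => ⟨1, Subtype.ext (by simpa using h.pow_eq v.2)⟩

theorem eq_one_of_sq {v : Q} (hv : v ∈ V) (h2 : v ^ 2 = 1) : v = 1 := by
  have := pow_gcd_eq_one.2 ⟨h2, h.pow_eq hv⟩
  rwa [((Nat.coprime_primes Nat.prime_two h.prime).2 (Ne.symm h.odd)).gcd_eq_one, pow_one] at this

theorem commute_mem {v w : Q} (hv : v ∈ V) (hw : w ∈ V) : Commute v w := by
  haveI := h.normal
  haveI : Fact p.Prime := ⟨h.prime⟩
  haveI : Nontrivial V := ⟨⟨⟨v0, h.mem⟩, 1, fun e => h.ne (congrArg Subtype.val e)⟩⟩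
  haveI := h.isPGroup.center_nontrivial
  obtain ⟨⟨z, hz⟩, hz1⟩ := exists_ne (1 : center V)
  have hz1' : (z : Q) ≠ 1 := fun e => hz1 (Subtype.ext (Subtype.ext e))
  by_cases h1 : v = 1
  · simp [h1]
  obtain ⟨c, hc⟩ := isConj_iff.1 ((h.conj _ z.2 hz1').symm.trans (h.conj v hv h1))
  have h2 : c⁻¹ * w * c ∈ V := by simpa using h.normal.conj_mem w hw c⁻¹
  have h3 : (c⁻¹ * w * c) * z = z * (c⁻¹ * w * c) :=
    congrArg Subtype.val (mem_center_iff.1 hz ⟨_, h2⟩)
  rw [← hc]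
  show c * z * c⁻¹ * w = w * (c * z * c⁻¹)
  calc c * z * c⁻¹ * w = c * (z * (c⁻¹ * w * c)) * c⁻¹ := by group
    _ = c * ((c⁻¹ * w * c) * z) * c⁻¹ := by rw [h3]
    _ = _ := by group

theorem commute_of_commute {c u v : Q} (hu : u ∈ V) (hu1 : u ≠ 1) (hc : Commute c u)
    (hv : v ∈ V) : Commute c v := by
  by_cases h1 : v = 1
  · simp [h1]
  obtain ⟨d, rfl⟩ := isConj_iff.1 ((h.conj u hu hu1).symm.trans (h.conj v hv h1))
  have h2 : Commute (c⁻¹ * d⁻¹ * c * d) u :=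
    h.commute_mem (by simpa [commutatorElement_def] using h.comm c⁻¹ d⁻¹) hu
  have h3 : Commute (d⁻¹ * c * d) u := by
    have := hc.mul_left h2
    simpa [mul_assoc] using this
  show c * (d * u * d⁻¹) = d * u * d⁻¹ * c
  calc c * (d * u * d⁻¹) = d * ((d⁻¹ * c * d) * u) * d⁻¹ := by group
    _ = d * (u * (d⁻¹ * c * d)) * d⁻¹ := by rw [h3.eq]
    _ = _ := by group

theorem index_cent : (centralizer ({v0} : Set Q)).index + 1 = Nat.card V := by
  rw [← card_isConj]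
  have e : {x : Q // IsConj v0 x} ≃ {x : V // x ≠ 1} :=
    { toFun := fun x => ⟨⟨x.1, by
          obtain ⟨c, hc⟩ := isConj_iff.1 x.2
          rw [← hc]; exact h.normal.conj_mem _ h.mem c⟩, fun e => h.ne (by
          have : x.1 = 1 := congrArg Subtype.val e
          have h2 := x.2
          rw [this] at h2
          exact isConj_one_right.1 h2.symm)⟩
      invFun := fun x => ⟨x.1, h.conj _ x.1.2 fun e => x.2 (Subtype.ext e)⟩
      left_inv := fun _ => rfl
      right_inv := fun _ => rfl }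
  rw [Nat.card_congr e]
  letI := Fintype.ofFinite V
  rw [Nat.card_eq_fintype_card, Nat.card_eq_fintype_card, Fintype.card_subtype_compl,
    Fintype.card_subtype_eq]
  have : 0 < Fintype.card V := Fintype.card_pos
  omega

theorem exists_inv : ∃ t : Q, ∀ v ∈ V, t * v * t⁻¹ = v⁻¹ := by
  obtain ⟨t, ht⟩ := isConj_iff.1 (h.conj v0⁻¹ (V.inv_mem h.mem) (inv_ne_one.2 h.ne))
  refine ⟨t, fun v hv => ?_⟩
  by_cases h1 : v = 1
  · simp [h1]
  obtain ⟨d, rfl⟩ := isConj_iff.1 (h.conj v hv h1)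
  have h2 : Commute (t⁻¹ * d⁻¹ * t * d) v0 :=
    h.commute_mem (by simpa [commutatorElement_def] using h.comm t⁻¹ d⁻¹) h.mem
  calc t * (d * v0 * d⁻¹) * t⁻¹
      = d * t * ((t⁻¹ * d⁻¹ * t * d) * v0) * d⁻¹ * t⁻¹ := by group
    _ = d * t * (v0 * (t⁻¹ * d⁻¹ * t * d)) * d⁻¹ * t⁻¹ := by rw [h2.eq]
    _ = d * (t * v0 * t⁻¹) * d⁻¹ := by group
    _ = _ := by rw [ht]; group

theorem commute_cent {c d : Q} (hc : Commute c v0) (hd : Commute d v0) : Commute c d := by
  obtain ⟨t, ht⟩ := h.exists_inv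
  have hc' : ∀ v ∈ V, Commute c v := fun v hv => h.commute_of_commute h.mem h.ne hc hv
  have hd' : ∀ v ∈ V, Commute d v := fun v hv => h.commute_of_commute h.mem h.ne hd hv
  set a := c⁻¹ * t * c * t⁻¹ with ha
  set b := d⁻¹ * t * d * t⁻¹ with hb
  have haV : a ∈ V := by simpa [commutatorElement_def] using h.comm c⁻¹ t
  have hbV : b ∈ V := by simpa [commutatorElement_def] using h.comm d⁻¹ t
  have h1 : t * ⁅c, d⁆ * t⁻¹ = ⁅c * a, d * b⁆ := by
    simp only [ha, hb, commutatorElement_def]; group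
  have h2 : ⁅c * a, d * b⁆ = ⁅c, d⁆ := by
    have e1 : Commute a (d * b) := (hd' a haV).symm.mul_right (h.commute_mem haV hbV)
    have e2 : Commute c b := hc' b hbV
    calc ⁅c * a, d * b⁆ = c * (a * (d * b)) * a⁻¹ * c⁻¹ * b⁻¹ * d⁻¹ := by
          simp only [commutatorElement_def]; group
      _ = c * d * (b * c⁻¹) * b⁻¹ * d⁻¹ := by rw [e1.eq]; group
      _ = _ := by rw [e2.inv_left.symm.eq]; simp only [commutatorElement_def]; group
  rw [h2, ht _ (h.comm c d)] at h1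
  rw [← commutatorElement_eq_one_iff_commute]
  apply h.eq_one_of_sq (h.comm c d)
  rw [pow_two]
  nth_rewrite 1 [← h1]
  exact inv_mul_cancel _

theorem mem_of_commute {c : Q} (hc : Commute c v0) : c ∈ V := by
  by_contra hcV
  have h1 : centralizer ({v0} : Set Q) ≤ centralizer {c} := fun d hd =>
    mem_centralizer_singleton_iff.2
      (h.commute_cent (mem_centralizer_singleton_iff.1 hd) hc)
  have h2 := index_antitone h1
  have h3 : Nat.card V ≤ (centralizer ({c} : Set Q)).index := by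
    rw [← card_isConj]
    exact Nat.card_le_card_of_injective
      (fun v : V => (⟨c * v, h.cos c hcV v v.2⟩ : {x : Q // IsConj c x}))
      fun v w e => Subtype.ext (mul_left_cancel (congrArg Subtype.val e))
  have := h.index_cent
  omega

theorem mem_of_commute' {c v : Q} (hv : v ∈ V) (hv1 : v ≠ 1) (hc : Commute c v) : c ∈ V :=
  h.mem_of_commute (h.commute_of_commute hv hv1 hc h.mem)

theorem index_eq : V.index + 1 = Nat.card V := by
  have : centralizer ({v0} : Set Q) = V := by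
    ext c
    rw [mem_centralizer_singleton_iff]
    exact ⟨fun e => h.mem_of_commute e, fun hc => h.commute_mem hc h.mem⟩
  rw [← h.index_cent, this]

theorem inverts {c : Q} (hc : c ∉ V) (h2 : c ^ 2 ∈ V) : c * v0 * c⁻¹ = v0⁻¹ := by
  have hm : c * v0 * c⁻¹ ∈ V := h.normal.conj_mem _ h.mem c
  by_contra hne
  apply hc
  refine h.mem_of_commute' (V.mul_mem h.mem hm) (fun e => hne ?_) ?_
  · exact eq_inv_of_mul_eq_one_right e
  · have e1 := (h.commute_mem h2 h.mem).eq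
    have e2 := (h.commute_mem h.mem hm).eq
    show c * (v0 * (c * v0 * c⁻¹)) = v0 * (c * v0 * c⁻¹) * c
    calc c * (v0 * (c * v0 * c⁻¹)) = (c * v0 * c⁻¹) * (c ^ 2 * v0) * c⁻¹ := by
          rw [pow_two]; group
      _ = (c * v0 * c⁻¹) * v0 * c := by rw [e1, pow_two]; group
      _ = _ := by rw [e2]

theorem exists_two (h4 : 4 ∣ V.index) : ∃ d : Q, (∃ a : ℕ, d ^ 2 ^ a ∈ V) ∧ d ^ 2 ∉ V := by
  haveI := h.normal
  haveI : Fact (Nat.Prime 2) := ⟨Nat.prime_two⟩
  obtain ⟨T, hT⟩ := Sylow.exists_subgroup_card_pow_prime (G := Q ⧸ V) 2 (n := 2)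
    (by rw [← index_eq_card]; simpa using h4)
  by_contra hne
  push Not at hne
  have hsq : ∀ d : Q, (d : Q ⧸ V) ∈ T → d ^ 2 ∈ V := by
    intro d hd
    refine hne d ⟨2, ?_⟩
    rw [← QuotientGroup.eq_one_iff, QuotientGroup.mk_pow, ← hT]
    exact congrArg Subtype.val (pow_card_eq_one' (x := (⟨_, hd⟩ : T)))
  letI := Fintype.ofFinite T
  have h3 : 2 < Fintype.card T := by rw [← Nat.card_eq_fintype_card, hT]; norm_num
  obtain ⟨a, b, c, hab, hac, hbc⟩ := Fintype.two_lt_card_iff.1 h3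
  obtain ⟨x, hx⟩ := QuotientGroup.mk_surjective ((a⁻¹ * b : T) : Q ⧸ V)
  obtain ⟨y, hy⟩ := QuotientGroup.mk_surjective ((a⁻¹ * c : T) : Q ⧸ V)
  have hxV : x ∉ V := by
    intro e
    rw [(QuotientGroup.eq_one_iff x).2 e] at hx
    exact hab (inv_mul_eq_one.1 (Subtype.ext hx.symm))
  have hyV : y ∉ V := by
    intro e
    rw [(QuotientGroup.eq_one_iff y).2 e] at hy
    exact hac (inv_mul_eq_one.1 (Subtype.ext hy.symm))
  have h5 := h.inverts hxV (hsq x (hx ▸ (a⁻¹ * b).2))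
  have h6 := h.inverts hyV (hsq y (hy ▸ (a⁻¹ * c).2))
  have h7 : x⁻¹ * y ∈ V := by
    apply h.mem_of_commute
    show x⁻¹ * y * v0 = v0 * (x⁻¹ * y)
    calc x⁻¹ * y * v0 = x⁻¹ * (y * v0 * y⁻¹) * y := by group
      _ = x⁻¹ * (x * v0 * x⁻¹) * y := by rw [h5, h6]
      _ = _ := by group
  have h8 : (x : Q ⧸ V) = y := QuotientGroup.eq.2 h7
  rw [hx, hy] at h8
  exact hbc (mul_left_cancel (Subtype.ext h8))

theorem exists_good {n : ℕ} (hn : Nat.card V = p ^ n) (h2 : 2 ≤ n) :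
    ∃ r e : ℕ, r.Prime ∧ r ≠ p ∧ (∀ (a : ℕ) (W : Type u) [Group W] [Finite W], IsPGroup p W →
      Nat.card W < p ^ n → ∀ ψ : MulAut W, ψ ^ r ^ a = 1 → ψ ^ e = 1) ∧
      ∃ d : Q, (∃ a : ℕ, d ^ r ^ a ∈ V) ∧ d ^ e ∉ V := by
  haveI := h.normal
  haveI : Fact p.Prime := ⟨h.prime⟩
  have hidx : V.index = p ^ n - 1 := by have := h.index_eq; omega
  have hp3 : 3 ≤ p := by have := h.prime.two_le; have := h.odd; omega
  by_cases hM : n = 2 ∧ ∃ m : ℕ, p + 1 = 2 ^ m
  · obtain ⟨rfl, m, hm⟩ := hM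
    have hm2 : 2 ≤ m := by
      by_contra hlt
      have : m = 0 ∨ m = 1 := by omega
      rcases this with rfl | rfl <;> omega
    have h4 : 4 ∣ p + 1 := by
      rw [hm, show (4 : ℕ) = 2 ^ 2 by norm_num]; exact pow_dvd_pow 2 hm2
    refine ⟨2, 2, Nat.prime_two, Ne.symm h.odd, fun a W _ _ hW hc ψ hψ =>
      good_of_two (by omega) W hW hc ψ hψ, h.exists_two ?_⟩
    rw [hidx, show p ^ 2 - 1 = (p + 1) * (p - 1) by
      have := Nat.sq_sub_sq p 1; simpa using this]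
    exact h4.mul_right _
  · obtain ⟨r, hr⟩ := H25.zsigmondy h.prime.two_le h2 (fun e => h.odd e.1) hM
    haveI : Fact r.Prime := ⟨hr.1⟩
    refine ⟨r, 1, hr.1, ?_, fun a W _ _ hW hc ψ hψ => good_of_ppd hr (by omega) W hW hc ψ hψ, ?_⟩
    · rintro rfl
      have h1 : r ∣ r ^ n := dvd_pow_self r (by omega)
      have h3 := (Nat.dvd_sub_iff_right (Nat.one_le_pow n r h.prime.pos) h1).1 hr.2.1
      exact hr.1.one_lt.ne' (Nat.dvd_one.1 h3)
    · obtain ⟨d, hd⟩ := exists_prime_orderOf_dvd_card' (G := Q ⧸ V) r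
        (by rw [← index_eq_card, hidx]; exact hr.2.1)
      obtain ⟨d, rfl⟩ := QuotientGroup.mk_surjective d
      refine ⟨d, ⟨1, ?_⟩, fun e => ?_⟩
      · rw [← QuotientGroup.eq_one_iff, QuotientGroup.mk_pow, pow_one, ← hd, pow_orderOf_eq_one]
      · rw [pow_one] at e
        rw [(QuotientGroup.eq_one_iff d).2 e, orderOf_one] at hd
        exact hr.1.one_lt.ne hd

end TrQ

end H21
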