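import Cfsg.Agent.H21.An2
import Cfsg.Agent.H1.Basic

/-! The elements of `N \ K` have prime order when they form one class and `p` is odd. -/

set_option autoImplicit false
set_option linter.unusedSectionVars false

namespace H21

open H17 Cfsg Subgroup
open scoped Classical commutatorElement

universe u

/-- the hypotheses in the group -/
structure TrG {G : Type*} [Group G] (N K : Subgroup G) [K.Normal] (g : G) (p : ℕ) : Prop where
  normal : N.Normal
  le : K ≤ N
  comm : ∀ a b : G, ⁅a, b⁆ ∈ N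
  mem : g ∈ N
  notMem : g ∉ K
  conj : ∀ x ∈ N, x ∉ K → IsConj g x
  pelt : H19.IsPElt p g
  pow : g ^ p ∈ K
  prime : p.Prime
  cos : ∀ c, c ∉ N → ∀ v ∈ N, IsConj (c : G ⧸ K) ((c * v : G) : G ⧸ K)

namespace TrG

variable {G : Type u} [Group G] [Finite G] {N K : Subgroup G} [hK : K.Normal] {g : G} {p : ℕ}
  (h : TrG N K g p)
include h

theorem mem_map (x : G) : (x : G ⧸ K) ∈ N.map (QuotientGroup.mk' K) ↔ x ∈ N := by
  constructor
  · rintro ⟨y, hy, hxy⟩
    have : y⁻¹ * x ∈ K := QuotientGroup.eq.1 hxy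
    simpa using N.mul_mem hy (h.le this)
  · intro hx; exact ⟨x, hx, rfl⟩

theorem pow_mem {x : G} (hx : x ∈ N) : x ^ p ∈ K := by
  by_cases hxK : x ∈ K
  · exact K.pow_mem hxK p
  · obtain ⟨c, rfl⟩ := isConj_iff.1 (h.conj x hx hxK)
    rw [conj_pow]; exact hK.conj_mem _ h.pow c

theorem isPElt {x : G} (hx : x ∈ N) (hxK : x ∉ K) : H19.IsPElt p x := by
  haveI : Fact p.Prime := ⟨h.prime⟩
  obtain ⟨c, rfl⟩ := isConj_iff.1 (h.conj x hx hxK)
  exact h.pelt.conj c

theorem toQ (hp : p ≠ 2) : TrQ (N.map (QuotientGroup.mk' K)) (g : G ⧸ K) p where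
  normal := h.normal.map _ (QuotientGroup.mk'_surjective K)
  comm a b := by
    obtain ⟨a, rfl⟩ := QuotientGroup.mk_surjective a
    obtain ⟨b, rfl⟩ := QuotientGroup.mk_surjective b
    exact ⟨⁅a, b⁆, h.comm a b, rfl⟩
  mem := ⟨g, h.mem, rfl⟩
  ne e := h.notMem ((QuotientGroup.eq_one_iff g).1 e)
  conj v hv hv1 := by
    obtain ⟨x, hx, rfl⟩ := hv
    exact (QuotientGroup.mk' K).map_isConj (h.conj x hx fun e =>
      hv1 ((QuotientGroup.eq_one_iff x).2 e))
  pow := by rw [← QuotientGroup.mk_pow, QuotientGroup.eq_one_iff]; exact h.pow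
  prime := h.prime
  odd := hp
  cos c hc v hv := by
    obtain ⟨c, rfl⟩ := QuotientGroup.mk_surjective c
    obtain ⟨x, hx, rfl⟩ := hv
    exact h.cos c (fun e => hc ((h.mem_map c).2 e)) x hx

theorem index_map : (N.map (QuotientGroup.mk' K)).index = N.index :=
  index_map_eq _ (QuotientGroup.mk'_surjective K) (by simpa using h.le)

theorem card_eq : Nat.card N = Nat.card (N.map (QuotientGroup.mk' K)) * Nat.card K := by
  have h1 := N.card_mul_index
  have h2 := K.card_mul_index
  have h3 := (N.map (QuotientGroup.mk' K)).card_mul_index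
  rw [h.index_map, ← index_eq_card] at h3
  have h4 : 0 < N.index := Nat.pos_of_ne_zero index_ne_zero_of_finite
  apply Nat.eq_of_mul_eq_mul_right h4
  rw [h1, ← h2, ← h3]; ring

theorem index_cent : (centralizer ({g} : Set G)).index = Nat.card N - Nat.card K := by
  rw [← card_isConj]
  have e : {x : G | IsConj g x} = (N : Set G) \ K := by
    ext x
    constructor
    · intro hx
      obtain ⟨c, rfl⟩ := isConj_iff.1 hx
      refine ⟨h.normal.conj_mem _ h.mem c, fun e => h.notMem ?_⟩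
      simpa [mul_assoc] using hK.conj_mem _ e c⁻¹
    · intro hx; exact h.conj x hx.1 hx.2
  change Nat.card {x : G | IsConj g x} = Nat.card (N : Set G) - Nat.card (K : Set G)
  rw [e, Nat.card_coe_set_eq, Nat.card_coe_set_eq, Nat.card_coe_set_eq,
    Set.ncard_sdiff (show (K : Set G) ⊆ N from h.le)]

theorem card_cent (hp : p ≠ 2) {x : G} (hx : x ∈ N) (hxK : x ∉ K) :
    Nat.card (centralizer ({x} : Set G)) = Nat.card (N.map (QuotientGroup.mk' K)) := by
  rw [← card_centralizer_of_isConj (h.conj x hx hxK)]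
  have h1 := (centralizer ({g} : Set G)).card_mul_index
  have h2 := (h.toQ hp).index_eq
  have h3 := N.card_mul_index
  rw [h.index_map] at h2
  rw [h.index_cent, h.card_eq, ← h3, h.card_eq, ← h2] at h1
  rw [← h2]
  have h4 : 0 < N.index := Nat.pos_of_ne_zero index_ne_zero_of_finite
  have h5 : 0 < Nat.card K := Nat.card_pos
  have h6 : (N.index + 1) * Nat.card K - Nat.card K = N.index * Nat.card K := by
    rw [add_mul, one_mul, Nat.add_sub_cancel]
  rw [h6] at h1
  apply Nat.eq_of_mul_eq_mul_right (Nat.mul_pos h4 h5)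
  rw [h1]; ring

theorem pow_eq_one (hp : p ≠ 2) : g ^ p = 1 := by
  haveI : Fact p.Prime := ⟨h.prime⟩
  haveI := h.normal
  have hQ := h.toQ hp
  obtain ⟨n, hn⟩ := IsPGroup.iff_card.1 hQ.isPGroup
  have hidx : N.index + 1 = p ^ n := by rw [← hn, ← hQ.index_eq, h.index_map]
  have hn0 : n ≠ 0 := by
    rintro rfl
    have : N.index ≠ 0 := index_ne_zero_of_finite
    simp at hidx; exact this hidx
  by_cases h2 : n = 1
  · subst h2
    have h3 := h.card_cent hp h.mem h.notMem
    rw [hn, pow_one] at h3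
    rw [← h3]
    exact congrArg Subtype.val (pow_card_eq_one'
      (x := (⟨g, mem_centralizer_singleton_iff.2 rfl⟩ : centralizer ({g} : Set G))))
  obtain ⟨r, e, hr, hrp, hgood, d, ⟨a, hda⟩, hde⟩ := hQ.exists_good.{u} hn (by omega)
  haveI : Fact r.Prime := ⟨hr⟩
  obtain ⟨S, hgS⟩ := h.pelt.isPGroup_zpowers.exists_le_sylow
  have hgS' : g ∈ (S : Subgroup G) := hgS (mem_zpowers g)
  have hSN : (S : Subgroup G) ≤ N := by
    apply H1.le_of_coprime_index
    obtain ⟨k, hk⟩ := IsPGroup.iff_card.1 S.isPGroup'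
    rw [hk]
    apply Nat.Coprime.pow_left
    rw [h.prime.coprime_iff_not_dvd]
    intro hd
    have : p ∣ N.index + 1 := hidx ▸ dvd_pow_self p hn0
    exact h.prime.one_lt.ne' (Nat.dvd_one.1 ((Nat.dvd_add_right hd).1 this))
  have hFr := Sylow.normalizer_sup_eq_top' S hSN
  obtain ⟨d, rfl⟩ := QuotientGroup.mk_surjective d
  rw [← QuotientGroup.mk_pow, h.mem_map] at hda hde
  obtain ⟨y, hy, w, hw, rfl⟩ : ∃ y ∈ normalizer ((S : Subgroup G) : Set G), ∃ w ∈ N, y * w = d := by
    have : d ∈ ((normalizer ((S : Subgroup G) : Set G) ⊔ N : Subgroup G) : Set G) := by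
      erw [hFr]; trivial
    rw [mul_normal] at this
    exact this
  have hyw : ∀ k : ℕ, (y * w) ^ k ∈ N ↔ y ^ k ∈ N := by
    intro k
    rw [← QuotientGroup.eq_one_iff, ← QuotientGroup.eq_one_iff, QuotientGroup.mk_pow,
      QuotientGroup.mk_pow, QuotientGroup.mk_mul, (QuotientGroup.eq_one_iff w).2 hw, mul_one]
  rw [hyw] at hda hde
  set ρ := H19.ppart r y with hρ
  have hρN : ρ ∈ normalizer ((S : Subgroup G) : Set G) :=
    H19.isPPart_mem (H19.isPPart_ppart y) hy
  have hρy : (ρ : G ⧸ N) = y := by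
    have h1 := H19.isPPart_map (H19.isPPart_ppart (p := r) y) (QuotientGroup.mk' N)
    have h3 : H19.IsPElt r (y : G ⧸ N) := H19.isPElt_iff.2 ⟨a, by
      rw [← QuotientGroup.mk_pow, QuotientGroup.eq_one_iff]; exact hda⟩
    exact H19.isPPart_unique h1 (H19.isPPart_self h3)
  have hρe : ρ ^ e ∉ N := by
    rw [← QuotientGroup.eq_one_iff, QuotientGroup.mk_pow, hρy, ← QuotientGroup.mk_pow,
      QuotientGroup.eq_one_iff]
    exact hde
  obtain ⟨b, hb⟩ := H19.isPElt_iff.1 (H19.ppart_isPElt (p := r) y)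
  let φ : MulAut (S : Subgroup G) := (S : Subgroup G).normalizerMonoidHom ⟨ρ, hρN⟩
  have hφk : ∀ (k : ℕ) (s : (S : Subgroup G)), (((φ ^ k) s : (S : Subgroup G)) : G) =
      ρ ^ k * s * (ρ ^ k)⁻¹ := by
    intro k s
    rw [← map_pow]; rfl
  have hφb : φ ^ r ^ b = 1 := by
    ext s; rw [hφk, hρ, hb]; simp
  set S0 := K.subgroupOf (S : Subgroup G) with hS0
  have hg0 : (⟨g, hgS'⟩ : (S : Subgroup G)) ∉ S0 := h.notMem
  have hfix := fix_of_small (p := p) (q := p ^ n) (m := r ^ b) (e := e)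
    (Nat.Coprime.pow_left _ ((Nat.coprime_primes hr h.prime).2 hrp)) (hgood b) _
    (S : Subgroup G) rfl S.isPGroup' S0 (fun e => hg0 (e ▸ mem_top _))
    (by
      intro x hx
      rw [← hn, ← h.card_cent hp (hSN x.2) hx]
      exact Nat.card_le_card_of_injective
        (fun c : centralizer ({x} : Set (S : Subgroup G)) =>
          (⟨(c : (S : Subgroup G)), mem_centralizer_singleton_iff.2
            (congrArg Subtype.val (mem_centralizer_singleton_iff.1 c.2))⟩ :
            centralizer ({(x : G)} : Set G)))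
        fun c c' e => Subtype.ext (Subtype.ext (by simpa using e)))
    φ hφb (by
      intro s hs
      have := hφk 1 s
      rw [pow_one, pow_one] at this
      show ((φ s : (S : Subgroup G)) : G) ∈ K
      rw [this]
      exact hK.conj_mem _ hs ρ)
  obtain ⟨x, hx, hxp⟩ := exists_pow_eq_one_of_aut h.prime hp S0
    (by
      intro a b
      show ⁅(a : G), (b : G)⁆ ∈ K
      rw [← QuotientGroup.eq_one_iff]
      exact commutatorElement_eq_one_iff_commute.2
        (hQ.commute_mem ((h.mem_map _).2 (hSN a.2)) ((h.mem_map _).2 (hSN b.2))))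
    (fun a => h.pow_mem (hSN a.2)) (φ ^ e) hfix
    (by
      intro s hs hs'
      apply hρe
      rw [← h.mem_map]
      refine hQ.mem_of_commute' ((h.mem_map _).2 (hSN s.2))
        (fun e => hs ((QuotientGroup.eq_one_iff (s : G)).1 e)) ?_
      have h1 : (s : G)⁻¹ * (((φ ^ e) s : (S : Subgroup G)) : G) ∈ K := hs'
      rw [hφk] at h1
      have h3 : ((s : G) : G ⧸ K) = (ρ ^ e * s * (ρ ^ e)⁻¹ : G) := QuotientGroup.eq.2 h1
      show ((ρ ^ e : G) : G ⧸ K) * ((s : G) : G ⧸ K) = ((s : G) : G ⧸ K) * ((ρ ^ e : G) : G ⧸ K)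
      nth_rewrite 2 [h3]
      simp)
    hg0
  obtain ⟨c, hc⟩ := isConj_iff.1 (h.conj x (hSN x.2) hx).symm
  rw [← hc, conj_pow]
  have : (x : G) ^ p = 1 := congrArg Subtype.val hxp
  rw [this]; simp

end TrG

end H21
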