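import Cfsg.Agent.H21.An3
import Cfsg.Agent.H21.Basic
import Cfsg.Agent.H21.CD1
import Cfsg.Agent.H19.BrChar
import Cfsg.Agent.S0033
import Cfsg.Agent.S0205

/-! An element seen by exactly one non-linear irreducible character. -/

set_option autoImplicit false
set_option linter.unusedSectionVars false

namespace H21

open H17 Cfsg Subgroup
open scoped Classical commutatorElement ComplexConjugate

universe u

variable {G : Type u} [Group G] [Finite G]

theorem exists_irr_not_dvd [Fintype G] {θ : G → ℂ} (h : IsCharacter G θ) {n p : ℕ}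
    (hn : θ 1 = n) (hp : ¬ p ∣ n) :
    ∃ ψ : IrrCharacter G, classInner θ ψ ≠ 0 ∧ ¬ p ∣ charDegree (ψ : G → ℂ) := by
  by_contra hne
  push Not at hne
  choose m hm using fun ψ : IrrCharacter G => h.inner_nat ψ.2.isCharacter
  have h1 := h.isClassFunction.apply_eq_sum 1
  rw [hn] at h1
  have h2 : n = ∑ ψ : IrrCharacter G, m ψ * charDegree (ψ : G → ℂ) := by
    have : (n : ℂ) = ((∑ ψ : IrrCharacter G, m ψ * charDegree (ψ : G → ℂ) : ℕ) : ℂ) := by
      rw [h1]; push_cast
      exact Finset.sum_congr rfl fun ψ _ => by rw [hm, irr_charDegree_cast]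
    exact_mod_cast this
  apply hp
  rw [h2]
  refine Finset.dvd_sum fun ψ _ => ?_
  by_cases h0 : m ψ = 0
  · simp [h0]
  · exact (hne ψ (by rw [hm]; exact_mod_cast h0)).mul_left _

theorem perfect_le_ker {X Y : Type*} [Group X] [Group Y] [Group.IsSolvable Y] {L : Subgroup X}
    (hL : ⁅L, L⁆ = L) (f : X →* Y) : L ≤ f.ker := by
  rw [← Subgroup.map_eq_bot_iff]
  by_contra hne
  have := Group.IsSolvable.commutator_lt_of_ne_bot hne
  rw [← map_commutator, hL] at this
  exact lt_irrefl _ this

theorem not_dvd_card_of_vanish {p : ℕ} [hp : Fact p.Prime] {L : Subgroup G} [L.Normal]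
    (hL : ⁅L, L⁆ = L) {g : G} (hg : H19.IsPElt p g)
    (h : ∀ ψ : IrrCharacter G, ¬ L ≤ charKer (ψ : G → ℂ) → (ψ : G → ℂ) g = 0) :
    ¬ p ∣ Nat.card L := by
  letI := Fintype.ofFinite G
  obtain ⟨P⟩ : Nonempty (Sylow p G) := inferInstance
  set H := L ⊔ (P : Subgroup G) with hH
  letI := Fintype.ofFinite H
  have hHi : ¬ p ∣ H.index := fun e => P.not_dvd_index (e.trans (index_dvd_of_le le_sup_right))
  have hq : IsPGroup p (H ⧸ L.subgroupOf H) := by
    intro x
    obtain ⟨x, rfl⟩ := QuotientGroup.mk_surjective x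
    obtain ⟨l, hl, s, hs, hx⟩ : ∃ l ∈ L, ∃ s ∈ (P : Subgroup G), l * s = x := by
      have : (x : G) ∈ ((L ⊔ (P : Subgroup G) : Subgroup G) : Set G) := x.2
      rw [normal_mul] at this
      exact this
    obtain ⟨k, hk⟩ := P.isPGroup' ⟨s, hs⟩
    refine ⟨k, ?_⟩
    rw [← QuotientGroup.mk_pow, QuotientGroup.eq_one_iff, mem_subgroupOf,
      ← QuotientGroup.eq_one_iff, coe_pow, ← hx, QuotientGroup.mk_pow, QuotientGroup.mk_mul,
      (QuotientGroup.eq_one_iff l).2 hl, one_mul, ← QuotientGroup.mk_pow]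
    have : s ^ p ^ k = 1 := congrArg Subtype.val hk
    rw [this]; rfl
  have hres := not_dvd_card_pResidual (G := H) hp.out (by
    intro θ hθ hθ1
    by_contra hnd
    obtain ⟨ψ, hψ, hψd⟩ := exists_irr_not_dvd (p := p) (n := H.index * charDegree θ)
      hθ.isCharacter.ind (by rw [indFun_one, ← charDegree_cast hθ.isCharacter]; push_cast; rfl)
      (fun e => ((Nat.Prime.dvd_mul hp.out).1 e).elim hHi hnd)
    have hk : L ≤ charKer (ψ : G → ℂ) := by
      by_contra hk
      have := H19.char_nat_modEq (p := p) ψ.2.isCharacter hg (m := 0)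
        (n := charDegree (ψ : G → ℂ)) (by simpa using h ψ hk)
        (by simpa using (irr_charDegree_cast ψ).symm)
      rw [zero_sub, dvd_neg] at this
      exact hψd (by exact_mod_cast this)
    rw [frobenius_reciprocity θ ψ.2.isClassFunction] at hψ
    have hk2 := (ψ.2.isCharacter.restrict H).charKer_le hθ
      (fun e => hψ (classInner_eq_zero_comm.1 e))
    have hk3 : L.subgroupOf H ≤ charKer θ := by
      intro x hx
      apply hk2
      rw [(ψ.2.isCharacter.restrict H).mem_charKer]
      exact apply_eq_of_mem_charKer (hk hx)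
    obtain ⟨η, hη, hθη⟩ := hθ.exists_quotient _ hk3
    have hd : charDegree θ ∣ Nat.card (H ⧸ L.subgroupOf H) :=
      hη.degree_dvd_card (by rw [charDegree_cast hθ.isCharacter, hθη]; rfl)
    obtain ⟨k, hk'⟩ := IsPGroup.iff_card.1 hq
    rw [hk'] at hd
    obtain ⟨j, -, hj⟩ := (Nat.dvd_prime_pow hp.out).1 hd
    rcases j with _ | j
    · exact hθ1 (by simpa using hj)
    · exact hnd (hj ▸ dvd_pow_self p (Nat.succ_ne_zero j)))
  have hL' : ⁅L.subgroupOf H, L.subgroupOf H⁆ = L.subgroupOf H := by
    apply map_injective H.subtype_injective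
    rw [map_commutator, map_subgroupOf_eq_of_le le_sup_left, hL]
  haveI : Group.IsNilpotent (H ⧸ pResidual p H) := H3.isPGroup_quotient_pResidual.isNilpotent
  have hle := perfect_le_ker hL' (QuotientGroup.mk' (pResidual p H))
  rw [QuotientGroup.ker_mk'] at hle
  intro e
  apply hres
  refine e.trans ?_
  rw [← Nat.card_congr (subgroupOfEquivOfLe (le_sup_left : L ≤ H)).toEquiv]
  exact card_dvd_of_le hle

theorem exists_derived_perfect (G : Type*) [Group G] [Finite G] :
    ∃ n, ⁅derivedSeries G n, derivedSeries G n⁆ = derivedSeries G n := by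
  obtain ⟨_, ⟨n, rfl⟩, hmin⟩ := WellFounded.has_min (wellFounded_lt (α := Subgroup G))
    (Set.range (derivedSeries G)) ⟨_, 0, rfl⟩
  refine ⟨n, ?_⟩
  by_contra hne
  exact hmin _ ⟨n + 1, rfl⟩ (lt_of_le_of_ne (derivedSeries_antitone G (Nat.le_succ n)) hne)

theorem eq_bot_of_perfect {L : Subgroup G} (hL : ⁅L, L⁆ = L) [Group.IsSolvable L] : L = ⊥ := by
  have h1 : ⁅(⊤ : Subgroup L), (⊤ : Subgroup L)⁆ = (⊤ : Subgroup L) := by
    apply map_injective L.subtype_injective
    rw [map_commutator, ← MonoidHom.range_eq_map, range_subtype, hL]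
  have := perfect_le_ker h1 (MonoidHom.id L)
  rw [eq_bot_iff]
  intro x hx
  have h2 : (⟨x, hx⟩ : L) = 1 := this (mem_top _)
  exact congrArg Subtype.val h2

theorem TrG.isSolvable {N K : Subgroup G} [hK : K.Normal] {g : G} {p : ℕ} (h : TrG N K g p)
    (hv : ∀ L : Subgroup G, L.Normal → L ≤ K → ⁅L, L⁆ = L → ¬ p ∣ Nat.card L) :
    Group.IsSolvable G := by
  haveI : Fact p.Prime := ⟨h.prime⟩
  haveI := h.normal
  obtain ⟨n, hn⟩ := exists_derived_perfect G
  set L := derivedSeries G n with hL
  haveI : L.Normal := derivedSeries_normal G n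
  haveI : (N.map (QuotientGroup.mk' K)).Normal :=
    h.normal.map _ (QuotientGroup.mk'_surjective K)
  haveI : Group.IsSolvable (G ⧸ K) := by
    refine H1.isSolvable_of_normal_quotient (N.map (QuotientGroup.mk' K)) ?_ ?_
    · have : IsPGroup p (N.map (QuotientGroup.mk' K)) := by
        rintro ⟨_, x, hx, rfl⟩
        refine ⟨1, Subtype.ext ?_⟩
        show ((x : G ⧸ K)) ^ p ^ 1 = 1
        rw [pow_one, ← QuotientGroup.mk_pow, QuotientGroup.eq_one_iff]
        exact h.pow_mem hx
      haveI := this.isNilpotent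
      infer_instance
    · apply Group.isSolvable_of_comm
      intro a b
      obtain ⟨a, rfl⟩ := QuotientGroup.mk_surjective a
      obtain ⟨b, rfl⟩ := QuotientGroup.mk_surjective b
      obtain ⟨a, rfl⟩ := QuotientGroup.mk_surjective a
      obtain ⟨b, rfl⟩ := QuotientGroup.mk_surjective b
      rw [← commutatorElement_eq_one_iff_mul_comm]
      exact (QuotientGroup.eq_one_iff (N := N.map (QuotientGroup.mk' K)) (⁅a, b⁆ : G)).2
        ⟨_, h.comm a b, rfl⟩
  have hLK : L ≤ K := by
    have := perfect_le_ker hn (QuotientGroup.mk' K)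
    rwa [QuotientGroup.ker_mk'] at this
  have hnd := hv L inferInstance hLK hn
  suffices Group.IsSolvable L from ⟨⟨n, eq_bot_of_perfect hn⟩⟩
  by_cases hp2 : p = 2
  · subst hp2
    exact Cfsg.Agent.S0205.result (Nat.odd_iff.2 (by omega))
  have hgp := h.pow_eq_one hp2
  let φ : MulAut L := MulAut.conjNormal g
  have hfpf : MonoidHom.FixedPointFree (φ : L →* L) := by
    intro y hy
    have h1 : g * y * g⁻¹ = y := congrArg Subtype.val hy
    have hc : Commute g y := by
      show g * y = y * g
      calc g * y = g * y * g⁻¹ * g := by group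
        _ = _ := by rw [h1]
    have h2 : H19.IsPElt p (g * y) := h.isPElt (N.mul_mem h.mem (h.le (hLK y.2))) fun e =>
      h.notMem (by simpa using K.mul_mem e (K.inv_mem (hLK y.2)))
    have h3 : H19.IsPElt p (y : G) := by
      have := h.pelt.inv.mul h2 ((Commute.refl g).inv_left.mul_right hc.inv_left)
      simpa using this
    exact Subtype.ext (h3.eq_one fun e => hnd (e.trans (L.orderOf_dvd_natCard y.2)))
  have hφp : φ ^ p = 1 := by rw [← map_pow, hgp, map_one]
  rcases (Nat.dvd_prime h.prime).1 (orderOf_dvd_of_pow_eq_one hφp) with h1 | h1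
  · haveI : Subsingleton L := ⟨fun a b => by
      rw [hfpf a (by rw [orderOf_eq_one_iff.1 h1]; rfl), hfpf b (by rw [orderOf_eq_one_iff.1 h1]; rfl)]⟩
    infer_instance
  · haveI := Cfsg.Agent.S0033.result φ hfpf p h.prime h1
    infer_instance

theorem lin_sum (a b : G) :
    ∑ ψ ∈ Finset.univ.filter (fun ψ : IrrCharacter G => charDegree (ψ : G → ℂ) = 1),
      (ψ : G → ℂ) a * conj ((ψ : G → ℂ) b) =
      if a⁻¹ * b ∈ commutator G then ((commutator G).index : ℂ) else 0 := by
  have h1 : Finset.univ.filter (fun ψ : IrrCharacter G => charDegree (ψ : G → ℂ) = 1) =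
      Finset.univ.filter (fun ψ : IrrCharacter G => commutator G ≤ charKer (ψ : G → ℂ)) :=
    Finset.filter_congr fun ψ _ => by
      rw [charDegree_eq_one_iff ψ.2.isCharacter, ψ.2.one_eq_one_iff]
  rw [h1, sum_irr_ker_eq (commutator G) (fun φ : G → ℂ => φ a * conj (φ b)),
    column_orthogonality]
  have hc : ∀ x y : G ⧸ commutator G, x * y = y * x := fun x y =>
    mul_comm (G := Abelianization G) x y
  have h2 : IsConj (a : G ⧸ commutator G) b ↔ a⁻¹ * b ∈ commutator G := by
    rw [← QuotientGroup.eq, isConj_iff]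
    constructor
    · rintro ⟨c, hc'⟩; rw [← hc', hc c]; simp
    · intro e; exact ⟨1, by simpa using e⟩
  have h3 : centralizer ({(a : G ⧸ commutator G)} : Set (G ⧸ commutator G)) = ⊤ :=
    eq_top_iff.2 fun x _ => mem_centralizer_singleton_iff.2 (hc _ _)
  rw [h3, card_top, ← index_eq_card]
  exact if_congr h2 rfl rfl

/-- the hypotheses -/
structure OneNL (g : G) (χ : IrrCharacter G) : Prop where
  ne : g ≠ 1
  deg : charDegree (χ : G → ℂ) ≠ 1
  val : (χ : G → ℂ) g ≠ 0
  other : ∀ ψ : IrrCharacter G, charDegree (ψ : G → ℂ) ≠ 1 → ψ ≠ χ → (ψ : G → ℂ) g = 0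

namespace OneNL

variable {g : G} {χ : IrrCharacter G} (h : OneNL g χ)
include h

theorem col {x : G} (hx : ¬ IsConj g x) :
    (if g⁻¹ * x ∈ commutator G then ((commutator G).index : ℂ) else 0) +
      (χ : G → ℂ) g * conj ((χ : G → ℂ) x) = 0 := by
  have h1 := column_orthogonality g x
  rw [if_neg hx, ← Finset.sum_filter_add_sum_filter_not Finset.univ
    (fun ψ : IrrCharacter G => charDegree (ψ : G → ℂ) = 1), lin_sum,
    Finset.sum_eq_single_of_mem χ (by simpa using h.deg)] at h1
  · exact h1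
  · intro ψ hψ hne
    rw [h.other ψ (by simpa using hψ) hne, zero_mul]

theorem conj_one : conj ((χ : G → ℂ) 1) = (χ : G → ℂ) 1 := by
  rw [χ.2.isCharacter.conj_apply, inv_one]

theorem mem : g ∈ commutator G := by
  have h1 := h.col (x := 1) fun e => h.ne (isConj_one_right.1 e.symm)
  by_contra hg
  rw [if_neg (by simpa using hg), zero_add, h.conj_one] at h1
  exact mul_ne_zero h.val χ.2.one_ne_zero h1

theorem val_eq : (χ : G → ℂ) g = -(((commutator G).index : ℂ) / (χ : G → ℂ) 1) := by
  have h1 := h.col (x := 1) fun e => h.ne (isConj_one_right.1 e.symm)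
  rw [if_pos (by simpa using h.mem), h.conj_one] at h1
  have := χ.2.one_ne_zero
  field_simp
  linear_combination h1

theorem mem_of_isConj {x : G} (hx : IsConj g x) : x ∈ commutator G := by
  obtain ⟨c, rfl⟩ := isConj_iff.1 hx
  exact Normal.conj_mem inferInstance _ h.mem c

theorem vanish {x : G} (hx : x ∉ commutator G) : (χ : G → ℂ) x = 0 := by
  have h1 := h.col (x := x) fun e => hx (h.mem_of_isConj e)
  rw [if_neg (fun e => hx (by simpa using (commutator G).mul_mem h.mem e)), zero_add] at h1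
  simpa using (mul_eq_zero.1 h1).resolve_left h.val

theorem ker_of {x : G} (hx : x ∈ commutator G) (hc : ¬ IsConj g x) :
    (χ : G → ℂ) x = (χ : G → ℂ) 1 := by
  have h1 := h.col hc
  have h2 := h.col (x := 1) fun e => h.ne (isConj_one_right.1 e.symm)
  rw [if_pos ((commutator G).mul_mem ((commutator G).inv_mem h.mem) hx)] at h1
  rw [if_pos (by simpa using h.mem)] at h2
  have h3 : conj ((χ : G → ℂ) x) = conj ((χ : G → ℂ) 1) :=
    mul_left_cancel₀ h.val (by linear_combination h1 - h2)
  exact (starRingEnd ℂ).injective h3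

theorem ker_le : charKer (χ : G → ℂ) ≤ commutator G := by
  intro x hx
  by_contra hn
  exact χ.2.one_ne_zero ((apply_eq_of_mem_charKer hx).symm.trans (h.vanish hn))

theorem notMem : g ∉ charKer (χ : G → ℂ) := by
  intro e
  have h1 := h.val_eq
  rw [apply_eq_of_mem_charKer e, ← irr_charDegree_cast] at h1
  have h0 : (charDegree (χ : G → ℂ) : ℂ) ≠ 0 := by
    rw [irr_charDegree_cast]; exact χ.2.one_ne_zero
  have h2 : ((charDegree (χ : G → ℂ) * charDegree (χ : G → ℂ) + (commutator G).index : ℕ) : ℂ)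
      = 0 := by
    push_cast
    field_simp at h1
    linear_combination h1
  have h3 : (commutator G).index ≠ 0 := index_ne_zero_of_finite
  have h4 : charDegree (χ : G → ℂ) * charDegree (χ : G → ℂ) + (commutator G).index = 0 := by
    exact_mod_cast h2
  omega

theorem unique (ψ : IrrCharacter G) (hψ : charDegree (ψ : G → ℂ) ≠ 1)
    (hk : ∀ x : G, (χ : G → ℂ) x = (χ : G → ℂ) 1 → (ψ : G → ℂ) x = (ψ : G → ℂ) 1) : ψ = χ := by
  letI := Fintype.ofFinite G
  by_contra hne
  have h1 := irr_inner ψ χ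
  rw [if_neg hne, classInner_def] at h1
  have h2 : ∑ x : G, (ψ : G → ℂ) x * conj ((χ : G → ℂ) x) =
      ∑ x ∈ Finset.univ.filter (fun x : G => (χ : G → ℂ) x = (χ : G → ℂ) 1),
        (ψ : G → ℂ) 1 * (χ : G → ℂ) 1 := by
    rw [Finset.sum_filter]
    refine Finset.sum_congr rfl fun x _ => ?_
    split_ifs with hx
    · rw [hk x hx, hx, h.conj_one]
    · by_cases hN : x ∈ commutator G
      · have : IsConj g x := by
          by_contra hc; exact hx (h.ker_of hN hc)
        rw [← ψ.2.isClassFunction.of_isConj this, h.other ψ hψ hne, zero_mul]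
      · rw [h.vanish hN]; simp
  rw [h2, Finset.sum_const, nsmul_eq_mul] at h1
  refine mul_ne_zero (inv_ne_zero card_ne_zero_complex) (mul_ne_zero ?_
    (mul_ne_zero ψ.2.one_ne_zero χ.2.one_ne_zero)) h1
  exact Nat.cast_ne_zero.2 (Finset.card_ne_zero.2 ⟨1, by simp⟩)

theorem isSolvable : Group.IsSolvable G := by
  set K := charKer (χ : G → ℂ) with hK
  haveI : K.Normal := χ.2.isCharacter.charKer_normal
  have hconj : ∀ x ∈ commutator G, x ∉ K → IsConj g x := fun x hx hxK => by
    by_contra hc; exact hxK (χ.2.mem_charKer.2 (h.ker_of hx hc))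
  have hg1 : orderOf (g : G ⧸ K) ≠ 1 := fun e =>
    h.notMem ((QuotientGroup.eq_one_iff g).1 (orderOf_eq_one_iff.1 e))
  obtain ⟨p, hp, m, hm⟩ := Nat.exists_prime_and_dvd hg1
  haveI : Fact p.Prime := ⟨hp⟩
  have hm0 : 0 < m := Nat.pos_of_ne_zero fun e => by
    rw [e, mul_zero] at hm; exact (orderOf_pos _).ne' hm
  have hy : g ^ m ∉ K := by
    rw [← QuotientGroup.eq_one_iff, QuotientGroup.mk_pow]
    apply pow_ne_one_of_lt_orderOf hm0.ne'
    rw [hm]; have := hp.two_le; nlinarith
  have hyp : (g ^ m) ^ p ∈ K := by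
    rw [← QuotientGroup.eq_one_iff, ← pow_mul, QuotientGroup.mk_pow, mul_comm, ← hm,
      pow_orderOf_eq_one]
  have hyN : g ^ m ∈ commutator G := (commutator G).pow_mem h.mem m
  have hu : ((H19.ppart p (g ^ m) : G) : G ⧸ K) = (g ^ m : G) := by
    have h1 := H19.isPPart_map (H19.isPPart_ppart (p := p) (g ^ m)) (QuotientGroup.mk' K)
    have h3 : H19.IsPElt p ((g ^ m : G) : G ⧸ K) := H19.isPElt_iff.2 ⟨1, by
      rw [pow_one, ← QuotientGroup.mk_pow, QuotientGroup.eq_one_iff]; exact hyp⟩
    exact H19.isPPart_unique h1 (H19.isPPart_self h3)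
  have hpelt : H19.IsPElt p g := by
    obtain ⟨c, hc⟩ := isConj_iff.1 (hconj _ (H19.isPPart_mem (H19.isPPart_ppart (p := p) _) hyN)
      (fun e => hy (by rw [← QuotientGroup.eq_one_iff, ← hu, QuotientGroup.eq_one_iff]; exact e))).symm
    rw [← hc]; exact (H19.ppart_isPElt _).conj c
  have hT : TrG (commutator G) K g p :=
    { normal := inferInstance
      le := h.ker_le
      comm := fun a b => commutator_mem_commutator (mem_top a) (mem_top b)
      mem := h.mem
      notMem := h.notMem
      «conj» := hconj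
      pelt := hpelt
      pow := by
        obtain ⟨c, hc⟩ := isConj_iff.1 (hconj _ hyN hy).symm
        rw [← hc, conj_pow]; exact Normal.conj_mem inferInstance _ hyp c
      prime := hp
      cos := by
        intro c hc v hv
        apply isConj_of_irr_eq
        intro η hη
        by_cases h1 : charDegree (fun x : G => η x) = 1
        · have h2 := hη.inflate.one_eq_one_iff.1
            ((charDegree_eq_one_iff hη.inflate.isCharacter).1 h1) hv
          have h3 := mem_charKer_def.1 h2 c
          exact ((hη.inflate.isClassFunction.apply_mul_comm c v).trans h3).symm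
        · have h2 := h.unique ⟨_, hη.inflate⟩ h1 fun x hx =>
            apply_eq_of_mem_charKer (le_charKer_inflate η (χ.2.mem_charKer.2 hx))
          have h3 : ∀ x : G, η x = (χ : G → ℂ) x := fun x => by rw [← h2]
          rw [h3, h3, h.vanish hc, h.vanish fun e => hc (by
            simpa using (commutator G).mul_mem e ((commutator G).inv_mem hv))] }
  refine hT.isSolvable fun L _ hLK hL => not_dvd_card_of_vanish hL hpelt fun ψ hψ => ?_
  refine h.other ψ (fun e => hψ (hLK.trans (h.ker_le.trans ?_))) fun e => hψ (e ▸ hLK)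
  exact ψ.2.one_eq_one_iff.1 ((charDegree_eq_one_iff ψ.2.isCharacter).1 e)

end OneNL

end H21
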