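/-
The derived subgroup of a group with a normal subgroup with cyclic quotient.
-/
import Cfsg.Agent.H4.Comm
import Cfsg.Agent.H15.Amb
import Cfsg.Agent.H9.Basic

set_option autoImplicit false
set_option linter.unusedSectionVars false
open Cfsg H15
open scoped commutatorElement

namespace H21

variable {G : Type*} [Group G] {V N : Subgroup G} {a : G}

theorem commutator_eq_cyc (hV : IsMulCommutative V) (h : V ⊔ Subgroup.zpowers a = ⊤) :
    commutator G = ⁅V, Subgroup.zpowers a⁆ := by
  refine le_antisymm ?_ (Subgroup.commutator_mono le_top le_top)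
  have h1 := Subgroup.normalizer_commutator_ge_left V (Subgroup.zpowers a)
  have h2 := Subgroup.normalizer_commutator_ge_right V (Subgroup.zpowers a)
  rw [commutator_def, ← h]
  refine H4.commutator_sup_left_le h1 h2 (H4.commutator_sup_right_le h1 h2 ?_ le_rfl)
    (H4.commutator_sup_right_le h1 h2 (Subgroup.commutator_comm _ _).le ?_)
  · rw [le_cent_iff_comm.1 (le_cent_self hV)]; exact bot_le
  · rw [le_cent_iff_comm.1 (le_cent_self inferInstance)]; exact bot_le

theorem card_cent_mul_commutator [V.Normal] (hV : IsMulCommutative V)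
    (h : V ⊔ Subgroup.zpowers a = ⊤) :
    Nat.card ↥(V ⊓ 𝒞(Subgroup.zpowers a)) * Nat.card (commutator G) = Nat.card V := by
  rw [commutator_eq_cyc hV h]
  exact H4.card_centralizer_mul_card_commutator hV (by rw [Subgroup.normalizer_eq_top]; trivial)

theorem card_center_mul_commutator [V.Normal] (hV : IsMulCommutative V)
    (h : V ⊔ Subgroup.zpowers a = ⊤) (hZ : Subgroup.center G ≤ V) :
    Nat.card (Subgroup.center G) * Nat.card (commutator G) = Nat.card V := by
  rw [← card_cent_mul_commutator hV h]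
  congr 3
  refine le_antisymm (le_inf hZ (Subgroup.center_le_centralizer _)) ?_
  rw [← Subgroup.centralizer_univ, ← Subgroup.coe_top, ← h, H4.centralizer_sup]
  exact inf_le_inf_right _ (le_cent_self hV)

theorem card_comm_cyc [N.Normal] (h : N ⊔ Subgroup.zpowers a = ⊤) :
    Nat.card {n : N // a * n * a⁻¹ * (n : G)⁻¹ ∈ ⁅N, N⁆} * Nat.card (commutator G) =
      Nat.card N * Nat.card ↥⁅N, N⁆ := by
  let f := QuotientGroup.mk' ⁅N, N⁆
  have hf : Function.Surjective f := QuotientGroup.mk'_surjective _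
  haveI : (N.map f).Normal := Subgroup.Normal.map inferInstance f hf
  have hle : ⁅N, N⁆ ≤ N := Subgroup.commutator_le_left _ _
  have h1 := card_cent_mul_commutator (V := N.map f) (a := f a) (comm_of_le_cent
    (le_cent_iff_comm.2 (by rw [← Subgroup.map_commutator, Subgroup.map_eq_bot_iff,
      QuotientGroup.ker_mk'])))
    (by rw [← MonoidHom.map_zpowers, ← Subgroup.map_sup, h, Subgroup.map_top_of_surjective f hf])
  have h2 := H1.card_comap_mk' ⁅N, N⁆ (N.map f ⊓ 𝒞(Subgroup.zpowers (f a)))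
  have h3 := H1.card_comap_mk' ⁅N, N⁆ (commutator _)
  have h4 := H1.card_comap_mk' ⁅N, N⁆ (N.map f)
  rw [QuotientGroup.comap_map_mk', sup_eq_right.2 hle] at h4
  rw [commutator_def, ← Subgroup.map_top_of_surjective f hf, ← Subgroup.map_commutator,
    QuotientGroup.comap_map_mk', sup_eq_right.2 (Subgroup.commutator_mono le_top le_top),
    Subgroup.map_commutator, Subgroup.map_top_of_surjective f hf, ← commutator_def,
    ← commutator_def] at h3
  have key : ∀ n ∈ N, a * n * a⁻¹ * n⁻¹ ∈ ⁅N, N⁆ ↔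
      n ∈ (N.map f ⊓ 𝒞(Subgroup.zpowers (f a))).comap f := fun n hn => by
    rw [Subgroup.mem_comap, Subgroup.mem_inf, H4.mem_centralizer_zpowers,
      and_iff_right (Subgroup.mem_map_of_mem f hn), ← QuotientGroup.eq_one_iff,
      ← mul_inv_eq_iff_eq_mul, ← mul_inv_eq_one (b := f n)]
    rfl
  have h5 : (N.map f ⊓ 𝒞(Subgroup.zpowers (f a))).comap f ≤ N :=
    (Subgroup.comap_mono inf_le_left).trans
      (by rw [QuotientGroup.comap_map_mk', sup_eq_right.2 hle])
  have h6 : Nat.card {n : N // a * n * a⁻¹ * (n : G)⁻¹ ∈ ⁅N, N⁆} =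
      Nat.card ((N.map f ⊓ 𝒞(Subgroup.zpowers (f a))).comap f) :=
    Nat.card_congr ⟨fun n => ⟨n.1, (key _ n.1.2).1 n.2⟩,
      fun n => ⟨⟨n.1, h5 n.2⟩, (key _ (h5 n.2)).2 n.2⟩, fun _ => rfl, fun _ => rfl⟩
  rw [h6, h2, h3, h4, ← h1]
  ring

end H21
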