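/-
Groups critical with respect to a set of element orders.
-/
import Mathlib

set_option autoImplicit false
set_option linter.unusedSectionVars false
open Subgroup

namespace H21.Crit

/-- `G` has a normal Sylow `p`-subgroup. -/
def NS (p : ℕ) (G : Type*) [Group G] : Prop :=
  ∃ N : Subgroup G, N.Normal ∧ IsPGroup p N ∧ ∀ x : G, ∃ m : ℕ, m.Coprime p ∧ x ^ m ∈ N

variable {p q : ℕ} {G G' : Type*} [Group G] [Group G']

theorem NS.sub (h : NS p G) (H : Subgroup G) : NS p H := by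
  obtain ⟨N, h1, h2, h3⟩ := h
  exact ⟨N.subgroupOf H, inferInstance, h2.comap_subtype, fun x => h3 x⟩

theorem NS.surj (h : NS p G) (f : G →* G') (hf : Function.Surjective f) : NS p G' := by
  obtain ⟨N, h1, h2, h3⟩ := h
  refine ⟨N.map f, h1.map f hf, h2.map f, fun y => ?_⟩
  obtain ⟨x, rfl⟩ := hf y
  obtain ⟨m, h4, h5⟩ := h3 x
  exact ⟨m, h4, map_pow f x m ▸ mem_map_of_mem f h5⟩

theorem NS.pi {ι : Type*} [Fintype ι] {F : ι → Type*} [∀ i, Group (F i)] (h : ∀ i, NS p (F i)) :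
    NS p (∀ i, F i) := by
  choose N h1 h2 h3 using h
  refine ⟨Subgroup.pi Set.univ N, ⟨fun x hx g i hi => (h1 i).conj_mem _ (hx i hi) (g i)⟩,
    fun x => ?_, fun x => ?_⟩
  · choose k hk using fun i => h2 i ⟨x.1 i, x.2 i trivial⟩
    refine ⟨∑ i, k i, Subtype.ext (funext fun i => ?_)⟩
    obtain ⟨c, hc⟩ := pow_dvd_pow p (Finset.single_le_sum (fun i _ => Nat.zero_le (k i))
      (Finset.mem_univ i))
    have e : x.1 i ^ p ^ k i = 1 := congrArg Subtype.val (hk i)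
    simp [hc, pow_mul, e]
  · choose m h4 h5 using fun i => h3 i (x i)
    refine ⟨∏ i, m i, Nat.Coprime.prod_left fun i _ => h4 i, fun i _ => ?_⟩
    obtain ⟨c, hc⟩ := Finset.dvd_prod_of_mem m (Finset.mem_univ i)
    rw [hc, Pi.pow_apply, pow_mul]
    exact pow_mem (h5 i) c

theorem NS.mul_mem_range (hp : p.Prime) (hq : q.Prime) (hne : p ≠ q) (h1 : NS p G) (h2 : NS q G)
    {x y : G} (hx : orderOf x = p) (hy : orderOf y = q) : orderOf (x * y) = p * q := by
  have key : ∀ {r : ℕ} {z : G} {N : Subgroup G}, orderOf z = r →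
      (∀ x : G, ∃ m : ℕ, m.Coprime r ∧ x ^ m ∈ N) → z ∈ N := fun {r z N} hz h => by
    obtain ⟨m, c, hm⟩ := h z
    obtain ⟨k, hk⟩ := exists_pow_eq_self_of_coprime (x := z) (hz ▸ c)
    exact hk ▸ pow_mem hm k
  obtain ⟨M, a1, a2, a3⟩ := h1
  obtain ⟨N, b1, b2, b3⟩ := h2
  have := Fact.mk hp
  have := Fact.mk hq
  have c := commute_of_normal_of_disjoint M N a1 b1 (IsPGroup.disjoint_of_ne p q hne M N a2 b2)
    x y (key hx a3) (key hy b3)
  rw [c.orderOf_mul_eq_mul_orderOf_of_coprime (by rw [hx, hy]; exact (Nat.coprime_primes hp hq).2 hne),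
    hx, hy]

/-- affine maps whose slope is a `q`-th root of unity -/
def aff (K : Type) [Field K] (q : ℕ) : Subgroup (Equiv.Perm K) where
  carrier := {σ | ∃ a b : K, a ≠ 0 ∧ a ^ q = 1 ∧ ∀ x, σ x = a * x + b}
  one_mem' := ⟨1, 0, one_ne_zero, one_pow q, fun x => by simp⟩
  mul_mem' := by
    rintro σ τ ⟨a, b, h0, h1, hσ⟩ ⟨c, d, k0, k1, hτ⟩
    refine ⟨a * c, a * d + b, mul_ne_zero h0 k0, by rw [mul_pow, h1, k1, one_mul], fun x => ?_⟩
    rw [Equiv.Perm.mul_apply, hτ, hσ]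
    ring
  inv_mem' := by
    rintro σ ⟨a, b, h0, h1, hσ⟩
    refine ⟨a⁻¹, -(a⁻¹ * b), inv_ne_zero h0, by rw [inv_pow, h1, inv_one], fun x => ?_⟩
    rw [Equiv.Perm.inv_eq_iff_eq, hσ]
    field_simp
    ring

theorem exists_frob (hp : p.Prime) (hq : q.Prime) (hne : p ≠ q) :
    ∃ (F : Type) (_ : Group F) (_ : Finite F),
      (∀ n, n ∈ Set.range (orderOf : F → ℕ) ↔ n = 1 ∨ n = p ∨ n = q) ∧ NS p F := by
  have := Fact.mk hp
  have := Fact.mk hq
  let K := GaloisField p (q - 1)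
  have hq1 : q - 1 ≠ 0 := by have := hq.two_le; omega
  obtain ⟨ζ, hζ⟩ : ∃ ζ : Kˣ, orderOf ζ = q := by
    refine exists_prime_orderOf_dvd_card' q ?_
    rw [Nat.card_units, GaloisField.card p _ hq1]
    exact (Nat.modEq_iff_dvd' (Nat.one_le_pow _ _ hp.pos)).1
      (Nat.ModEq.pow_card_sub_one_eq_one hq ((Nat.coprime_primes hp hq).2 hne)).symm
  let φ : aff K q →* K :=
    { toFun := fun σ => σ.1 1 - σ.1 0
      map_one' := by simp
      map_mul' := by
        rintro ⟨σ, a, b, -, -, hσ⟩ ⟨τ, c, d, -, -, hτ⟩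
        change σ (τ 1) - σ (τ 0) = (σ 1 - σ 0) * (τ 1 - τ 0)
        simp only [hσ, hτ]
        ring }
  have h1 : ∀ σ : aff K q, φ σ = 1 → σ ^ p = 1 := by
    rintro ⟨σ, a, b, h0, h1, hσ⟩ h
    have e : a = 1 := by simpa [φ, hσ] using h
    have h2 : ∀ (n : ℕ) x, (σ ^ n) x = x + n * b := fun n => by
      induction n with
      | zero => simp
      | succ n ih => intro x; rw [pow_succ', Equiv.Perm.mul_apply, ih, hσ, e]; push_cast; ring
    exact Subtype.ext (Equiv.ext fun x => by simp [h2])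
  have h2 : ∀ σ : aff K q, φ σ ≠ 1 → σ ^ q = 1 := by
    rintro ⟨σ, a, b, h0, h1, hσ⟩ h
    have e : 1 - a ≠ 0 := fun e => h (by simp [φ, hσ, ← sub_eq_zero.1 e])
    obtain ⟨c, rfl⟩ : ∃ c, (1 - a) * c = b := ⟨_, mul_div_cancel₀ b e⟩
    have h2 : ∀ (n : ℕ) x, (σ ^ n) x = a ^ n * (x - c) + c := fun n => by
      induction n with
      | zero => simp
      | succ n ih => intro x; rw [pow_succ', Equiv.Perm.mul_apply, ih, hσ]; ring
    exact Subtype.ext (Equiv.ext fun x => by simp [h2, h1])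
  have h3 : ∀ σ : aff K q, φ σ ^ q = 1 := by
    rintro ⟨σ, a, b, h0, h1, hσ⟩
    simp [φ, hσ, h1]
  refine ⟨aff K q, inferInstance, inferInstance, fun n => ⟨?_, ?_⟩, φ.toHomUnits.ker, inferInstance,
    fun σ => ⟨1, Subtype.ext ?_⟩, fun σ => ⟨q, (Nat.coprime_primes hq hp).2 hne.symm, ?_⟩⟩
  · rintro ⟨σ, rfl⟩
    by_cases h : φ σ = 1
    · exact ((Nat.dvd_prime hp).1 (orderOf_dvd_of_pow_eq_one (h1 σ h))).imp_right Or.inl
    · exact ((Nat.dvd_prime hq).1 (orderOf_dvd_of_pow_eq_one (h2 σ h))).imp_right Or.inr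
  · rintro (rfl | rfl | rfl)
    · exact ⟨1, orderOf_one⟩
    · refine ⟨⟨Equiv.addRight 1, 1, 1, one_ne_zero, one_pow _, fun x => by simp⟩,
        orderOf_eq_prime (h1 _ (by simp [φ])) fun e => ?_⟩
      simpa using congrArg (fun σ : aff K q => σ.1 0) e
    · have h4 : φ ⟨Equiv.mulLeft₀ ζ ζ.ne_zero, ζ, 0, ζ.ne_zero, by
          rw [← Units.val_pow_eq_pow_val, orderOf_dvd_iff_pow_eq_one.1 hζ.dvd, Units.val_one],
          fun x => by simp⟩ ≠ 1 := fun e => hq.one_lt.ne' (by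
        rw [← hζ, orderOf_eq_one_iff]
        exact Units.ext (by simpa [φ] using e))
      exact ⟨_, orderOf_eq_prime (h2 _ h4) fun e => h4 (e ▸ map_one φ)⟩
  · simpa using h1 σ.1 (congrArg Units.val σ.2)
  · exact Units.ext (by simpa using h3 σ)

variable {s : ℕ} {π : Fin s → Fin 2 → ℕ}

theorem exists_crit (hp : ∀ j i, (π j i).Prime)
    (hinj : ∀ j i j' i', π j i = π j' i' → j = j' ∧ i = i') (a : Fin s → Fin 2) :
    ∃ (X : Type) (_ : Group X) (_ : Fintype X), (∀ j, NS (π j (a j)) X) ∧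
      Set.range (orderOf : X → ℕ) = {m : ℕ | ∃ c : Fin s → ℕ,
        (∀ j, c j = 1 ∨ c j = π j 0 ∨ c j = π j 1) ∧ m = ∏ j, c j} ∧
      ∀ (H : Subgroup X) (N : Subgroup H) [N.Normal], (H ≠ ⊤ ∨ N ≠ ⊥) →
        Set.range (orderOf : (H ⧸ N) → ℕ) ≠ {m : ℕ | ∃ c : Fin s → ℕ,
          (∀ j, c j = 1 ∨ c j = π j 0 ∨ c j = π j 1) ∧ m = ∏ j, c j} := by
  classical
  set Ω := {m : ℕ | ∃ c : Fin s → ℕ, (∀ j, c j = 1 ∨ c j = π j 0 ∨ c j = π j 1) ∧ m = ∏ j, c j}
  have h0 : ∃ n, ∃ (X : Type) (_ : Group X) (_ : Finite X), Nat.card X = n ∧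
      (∀ j, NS (π j (a j)) X) ∧ Set.range (orderOf : X → ℕ) = Ω := by
    have h1 : ∀ j, ∃ (F : Type) (_ : Group F) (_ : Finite F), (∀ n, n ∈ Set.range (orderOf : F → ℕ) ↔
        n = 1 ∨ n = π j 0 ∨ n = π j 1) ∧ NS (π j (a j)) F := fun j => by
      have hne : π j 0 ≠ π j 1 := fun e => absurd (hinj _ _ _ _ e).2 (by decide)
      generalize a j = i
      fin_cases i
      · exact exists_frob (hp j 0) (hp j 1) hne
      · have := exists_frob (hp j 1) (hp j 0) hne.symm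
        simp only [or_comm (a := _ = π j 1)] at this
        exact this
    choose F i1 i2 h1 h2 using h1
    have hc : ∀ {j k : Fin s} {m : ℕ} (i : Fin 2), k ≠ j → (m = 1 ∨ m = π k 0 ∨ m = π k 1) →
        m.Coprime (π j i) := fun {j k m} i hk hm => by
      rcases hm with rfl | rfl | rfl
      · exact Nat.coprime_one_left _
      all_goals exact (Nat.coprime_primes (hp _ _) (hp _ _)).2 fun e => hk (hinj _ _ _ _ e).1
    have ho : ∀ x : ∀ j, F j, orderOf x = ∏ j, orderOf (x j) := fun x => by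
      rw [Pi.orderOf]
      refine Finset.lcm_eq_prod fun j _ k _ hjk => ?_
      rcases (h1 k _).1 ⟨x k, rfl⟩ with e | e | e <;> simp only [Function.onFun, e]
      · exact Nat.coprime_one_right _
      all_goals exact hc _ hjk ((h1 j _).1 ⟨x j, rfl⟩)
    refine ⟨_, ∀ j, F j, inferInstance, inferInstance, rfl, fun j => NS.pi fun k => ?_,
      Set.ext fun m => ⟨?_, ?_⟩⟩
    · by_cases e : k = j
      · exact e ▸ h2 k
      · exact ⟨⊥, inferInstance, IsPGroup.of_bot, fun x =>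
          ⟨_, hc _ e ((h1 k _).1 ⟨x, rfl⟩), pow_orderOf_eq_one x⟩⟩
    · rintro ⟨x, rfl⟩
      exact ⟨_, fun j => (h1 j _).1 ⟨x j, rfl⟩, ho x⟩
    · rintro ⟨c, hc, rfl⟩
      choose x hx using fun j => (h1 j _).2 (hc j)
      exact ⟨x, by simp only [ho, hx]⟩
  obtain ⟨X, _, _, h1, h2, h3⟩ := Nat.find_spec h0
  refine ⟨X, inferInstance, Fintype.ofFinite X, h2, h3, fun H N _ hne e => ?_⟩
  refine Nat.find_min h0 (m := Nat.card (H ⧸ N)) ?_ ⟨H ⧸ N, inferInstance, inferInstance, rfl,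
    fun j => ((h2 j).sub H).surj _ (QuotientGroup.mk'_surjective N), e⟩
  rw [← h1]
  have e1 := H.card_mul_index
  have e2 := N.card_mul_index
  have p1 : 0 < Nat.card N := Nat.card_pos
  have p2 : 0 < H.index := Nat.pos_of_ne_zero index_ne_zero_of_finite
  have p3 : 0 < N.index := Nat.pos_of_ne_zero index_ne_zero_of_finite
  change N.index < _
  rw [← e1, ← e2]
  rcases hne with h | h
  · have := one_lt_index_of_ne_top h
    nlinarith [Nat.mul_le_mul p1 (le_refl (N.index * H.index))]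
  · have := (one_lt_card_iff_ne_bot N).2 h
    nlinarith [Nat.mul_le_mul (le_refl (Nat.card N * N.index)) p2]

theorem not_iso (hp : ∀ j i, (π j i).Prime)
    (hinj : ∀ j i j' i', π j i = π j' i' → j = j' ∧ i = i') {j : Fin s} {i i' : Fin 2} (hne : i ≠ i')
    (h1 : NS (π j i) G) (h2 : NS (π j i') G) : Set.range (orderOf : G → ℕ) ≠
      {m : ℕ | ∃ c : Fin s → ℕ, (∀ j, c j = 1 ∨ c j = π j 0 ∨ c j = π j 1) ∧ m = ∏ j, c j} :=
  fun e => by
  have h3 : ∀ i, π j i ∈ Set.range (orderOf : G → ℕ) := fun i => by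
    rw [e]
    refine ⟨Function.update 1 j (π j i), fun k => ?_, by simp [Finset.prod_update_of_mem]⟩
    by_cases hk : k = j
    · subst hk; fin_cases i <;> simp
    · simp [hk]
  obtain ⟨x, hx⟩ := h3 i
  obtain ⟨y, hy⟩ := h3 i'
  have hne' : π j i ≠ π j i' := fun e => hne (hinj _ _ _ _ e).2
  obtain ⟨c, hc, e'⟩ := e.subset ⟨_, h1.mul_mem_range (hp _ _) (hp _ _) hne' h2 hx hy⟩
  have h4 : ∀ i, π j i ∣ ∏ j, c j → c j = π j i := fun i hd => by
    obtain ⟨k, -, hk⟩ := ((hp j i).prime.dvd_finsetProd_iff _).1 hd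
    rcases hc k with h | h | h <;> rw [h] at hk
    · exact absurd hk (hp j i).not_dvd_one
    all_goals
      have h5 := (Nat.prime_dvd_prime_iff_eq (hp _ _) (hp _ _)).1 hk
      rw [h5, (hinj _ _ _ _ h5).1, h]
  exact hne' ((h4 i (e' ▸ dvd_mul_right _ _)).symm.trans (h4 i' (e' ▸ dvd_mul_left _ _)))

end H21.Crit
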