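import Cfsg.Agent.H21.CD3
import Cfsg.Agent.H21.Glau4
import Cfsg.Agent.H21.GBr
import Cfsg.Agent.H1.Factor

/-! Fully ramified characters: Sylow subgroups and complements in quotients. -/

set_option autoImplicit false
set_option linter.unusedSectionVars false

open H17 Cfsg H15 CF Subgroup

namespace H21

variable {G : Type*} [Group G] [Finite G] {Z K T S : Subgroup G} {θ ξ ψ η : G → ℂ} {p : ℕ}

/-- `θ` is fully ramified in `T`, below `ξ` -/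
def FR (T Z : Subgroup G) (θ ξ : G → ℂ) : Prop :=
  Z ≤ T ∧ θ ∈ Irr Z ∧ ξ ∈ Irr T ∧ ∃ e : ℕ, e ^ 2 = Z.relIndex T ∧ Res (Z : Set G) ξ = (e : ℂ) • θ

theorem FR.eq (h : FR T Z θ ξ) (hψ : ψ ∈ IrrO T Z θ) : ψ = ξ := by
  obtain ⟨h1, h2, h3, e, h4, h5⟩ := h
  have h6 : dot T (Ind T Z θ) ξ = e := by
    rw [dot_Ind_left' h1 _ (irr_cf h3), h5, dot_natCast_smul_right, dot_irr_self h2, mul_one]
  have h7 := ((Ind_irr_char h1 h2).sub_smul_irr h3).eq_zero_of_one (by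
    have := congrFun h5 1
    rw [Res_one] at this
    rw [Pi.sub_apply, Pi.smul_apply, h6, Ind_one h1, this, ← h4]
    simp [sq, mul_assoc])
  have h8 := ((mem_over' h1).1 hψ).2
  rw [sub_eq_zero.1 h7, dot_smul_left] at h8
  exact (irr_eq_of_dot_ne h3 (mem_over.1 hψ).1 (right_ne_zero_of_mul h8)).symm

theorem FR.mem (h : FR T Z θ ξ) : ξ ∈ IrrO T Z θ := by
  obtain ⟨ψ, hψ⟩ := over_nonempty h.1 h.2.1
  exact h.eq hψ ▸ hψ

theorem FR.le_stab (h : FR T Z θ ξ) (hn : T ≤ 𝒩(Z)) : T ≤ stab θ := by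
  obtain ⟨h1, h2, h3, e, h4, h5⟩ := h
  have : (e : ℂ) ≠ 0 := fun h => relIndex_ne Z T (by rw [← h4, Nat.cast_pow, h, zero_pow two_ne_zero])
  refine fun g hg => mem_stab.2 (smul_right_injective _ this ?_)
  simp only [← map_smul, ← h5]
  exact le_stab_Res hn (irr_cf h3) hg

theorem FR.deg (h : FR T Z θ ξ) : charDegree ξ ^ 2 = Z.relIndex T * charDegree θ ^ 2 := by
  obtain ⟨h1, h2, h3, e, h4, h5⟩ := h
  have := congrFun h5 1
  rw [Res_one, Pi.smul_apply, ← deg_cast h3, ← deg_cast h2, smul_eq_mul] at this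
  rw [← h4, ← mul_pow]
  congr 1
  exact_mod_cast this

theorem FR.dvd (h : FR T Z θ ξ) (hST : S ≤ T) (hZ : Z ≤ S) (hη : η ∈ IrrO S Z θ) :
    charDegree ξ ∣ S.relIndex T * charDegree η := by
  have h1 := mem_over.1 hη
  have := congrFun (Ind_eq_sum_over hST (irr_char h1.1)) 1
  rw [Ind_one hST, Finset.sum_apply, ← deg_cast h1.1] at this
  choose! m hm0 hm using fun ψ (hψ : ψ ∈ IrrO T S η) => over_pos hST (irr_char h1.1) hψ
  rw [Finset.sum_congr rfl (g := fun ψ => (charDegree ξ : ℂ) * m ψ) fun ψ hψ => by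
    have h2 := mem_over.1 hψ
    rw [Pi.smul_apply, hm ψ hψ, h.eq (mem_over.2 ⟨h2.1, dot_ne_trans hZ hST (irr_char h2.1) h1.1 (irr_char h.2.1)
      h2.2 h1.2⟩), deg_cast h.2.2.1, smul_eq_mul, mul_comm], ← Finset.mul_sum] at this
  exact ⟨_, by exact_mod_cast this⟩

theorem res_over (hZ : Z ≤ S) (hn : S ≤ 𝒩(Z)) (hθ : θ ∈ Irr Z) (hs : S ≤ stab θ) (hη : η ∈ IrrO S Z θ) :
    ∃ e : ℕ, e ^ 2 ≤ Z.relIndex S ∧ e ∣ Z.relIndex S ∧ Res (Z : Set G) η = (e : ℂ) • θ ∧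
      charDegree η = e * charDegree θ := by
  obtain ⟨e, h1, h2⟩ := clifford_dot_dvd hZ hn hθ hη
  have h3 := mem_over.1 hη
  have h4 := clifford hZ hn h3.1 hθ h3.2
  rw [orb_of_le_stab hs, Finset.sum_singleton, h1] at h4
  have h5 : charDegree η = e * charDegree θ := by
    have := congrFun h4 1
    rw [Res_one, Pi.smul_apply, ← deg_cast h3.1, ← deg_cast hθ, smul_eq_mul] at this
    exact_mod_cast this
  refine ⟨e, ?_, h2, h4, h5⟩
  have := (Ind_irr_char hZ hθ).smul_irr_degree_le h3.1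
  rw [dot_Ind_left hZ _ (irr_cf h3.1), dot_symm_nat h1, Ind_one hZ, ← deg_cast h3.1, ← deg_cast hθ, h5] at this
  have h6 : e * (e * charDegree θ) ≤ Z.relIndex S * charDegree θ := by exact_mod_cast this
  exact Nat.le_of_mul_le_mul_right (by rwa [sq, mul_assoc]) (deg_pos hθ)

theorem FR.syl [hp : Fact p.Prime] (h : FR T Z θ ξ) (hn : T ≤ 𝒩(Z)) (hS : Syl(p, S, T))
    (hη : η ∈ IrrO (Z ⊔ S) Z θ) : FR (Z ⊔ S) Z θ η := by
  have h0 : Z ⊔ S ≤ T := sup_le h.1 hS.le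
  obtain ⟨f, h1, -, h2, h3⟩ := res_over le_sup_left (h0.trans hn) h.2.1 (h0.trans (h.le_stab hn)) hη
  refine ⟨le_sup_left, h.2.1, (mem_over.1 hη).1, f, h1.antisymm ?_, h2⟩
  have h4 := pow_dvd_pow_of_dvd (h.dvd h0 le_sup_left hη) 2
  rw [h.deg, h3, ← relIndex_mul_relIndex Z (Z ⊔ S) T le_sup_left h0, mul_pow, mul_pow, ← mul_assoc,
    Nat.mul_dvd_mul_iff_right (pow_pos (deg_pos h.2.1) 2)] at h4
  obtain ⟨a, ha⟩ := IsPGroup.iff_card.1 hS.isPGroup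
  have h5 : Z.relIndex (Z ⊔ S) ∣ p ^ a := by
    rw [← ha, sup_comm]; exact relIndex_sup_dvd' (hS.le.trans hn)
  have h6 : (Z.relIndex (Z ⊔ S)).Coprime ((Z ⊔ S).relIndex T ^ 2) :=
    (((Nat.Prime.coprime_iff_not_dvd hp.out).2 fun e => hS.idx_of_le le_sup_right p hp.out e rfl).pow a 2).coprime_dvd_left h5
  refine Nat.le_of_dvd (pow_pos (Nat.pos_of_ne_zero ?_) 2) (h6.dvd_of_dvd_mul_left ((dvd_mul_right _ _).trans h4))
  rintro rfl
  exact (deg_pos (mem_over.1 hη).1).ne' (by rw [h3, zero_mul])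

theorem FR.mem_orb (h : FR T Z θ ξ) (hZ : Z ≤ K) (hK : K ≤ T) (hn : T ≤ 𝒩(K)) (hη : η ∈ IrrO K Z θ)
    (hψ : ψ ∈ IrrO K Z θ) : ψ ∈ orb T η := by
  have h1 : ∀ η ∈ IrrO K Z θ, dot K ξ η ≠ 0 := fun η hη => by
    obtain ⟨ζ, h2, h3⟩ := exists_over hK (mem_over.1 hη).1
    rwa [← h.eq (mem_over.2 ⟨h2, dot_ne_trans hZ hK (irr_char h2) (mem_over.1 hη).1 (irr_char h.2.1) h3
      (mem_over.1 hη).2⟩)]
  exact clifford_mem_orb hK hn h.2.2.1 (mem_over.1 hη).1 (mem_over.1 hψ).1 (h1 η hη) (h1 ψ hψ)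

section
variable [hp : Fact p.Prime] [Z.Normal] [K.Normal] (h : FR ⊤ Z θ ξ) (hZ : Z ≤ K) (hS : Syl(p, S, ⊤))
include h hZ hS

theorem FR.norm_aux : Z ⊔ S ≤ 𝒩(Z ⊔ S ⊓ K) :=
  sup_le (le_sup_left.trans (le_norm_self _)) (le_norm_sup (le_top.trans (top_le_norm Z))
    (le_norm_inf (le_norm_self S) (le_top.trans (top_le_norm K))))

theorem FR.ded : Z ⊔ S ⊓ K = (Z ⊔ S) ⊓ K :=
  (H1.sup_inf_assoc_of_le_normalizer hZ (Or.inr (le_top.trans (top_le_norm Z)))).symm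

theorem FR.idx_aux : (Z ⊔ S ⊓ K).relIndex (Z ⊔ S) = K.relIndex S := by
  rw [h.ded hZ hS, inf_relIndex_left, ← relIndex_sup_left (Z ⊔ S), ← sup_assoc, sup_eq_left.2 hZ, relIndex_sup_left]

theorem FR.compl (hη : η ∈ IrrO (Z ⊔ S ⊓ K) Z θ) (hs : (Z ⊔ S) ⊓ stab η ≤ Z ⊔ S ⊓ K) :
    ∃ C : Subgroup G, K ≤ C ∧ C.index = K.relIndex S := by
  set P := Z ⊔ S ⊓ K
  have hR : Syl(p, S ⊓ K, K) := hS.inf_normal le_top (le_top.trans (top_le_norm K))
  have hPS : P ≤ Z ⊔ S := sup_le_sup_left inf_le_left _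
  have hPK : P ≤ K := sup_le hZ inf_le_right
  have h1 : 𝒩(P) ⊔ K = ⊤ := top_le_iff.1 ((hR.frattini le_top (top_le_norm K)).ge.trans (sup_le le_sup_right
    (le_sup_left.trans' (le_norm_sup (le_top.trans (top_le_norm Z)) inf_le_right))))
  obtain ⟨ζ, hζ⟩ := over_nonempty (le_sup_left : Z ≤ Z ⊔ S) h.2.1
  have h2 : orb 𝒩(P) η = orb (Z ⊔ S) η := Finset.Subset.antisymm (fun ψ hψ => by
    obtain ⟨g, hg, rfl⟩ := CF.mem_orb.1 hψ
    exact (h.syl (top_le_norm Z) hS hζ).mem_orb le_sup_left hPS (h.norm_aux hZ hS) hη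
      (cfj_mem_over hg (top_le_norm Z trivial) (h.le_stab (top_le_norm Z) trivial) hη)) fun ψ hψ => by
    obtain ⟨g, hg, rfl⟩ := CF.mem_orb.1 hψ
    exact cfj_mem_orb _ (h.norm_aux hZ hS hg)
  have hPs : P ≤ stab η := CF.le_stab (irr_cf (mem_over.1 hη).1)
  have h3 : (𝒩(P) ⊓ stab η).relIndex 𝒩(P) = K.relIndex S := by
    rw [inf_relIndex_left, ← card_orb, h2, card_orb, ← inf_relIndex_left,
      hs.antisymm (le_inf hPS hPs), h.idx_aux hZ hS]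
  set T := 𝒩(P) ⊓ stab η
  have h4 : T ⊓ K = 𝒩(P) ⊓ K := by
    refine (inf_le_inf_right _ inf_le_left).antisymm (le_inf (relIndex_eq_one.1 ?_) inf_le_right)
    obtain ⟨a, ha⟩ := IsPGroup.iff_card.1 hS.isPGroup
    refine Nat.eq_one_of_dvd_coprimes (((Nat.Prime.coprime_iff_not_dvd hp.out).2
      ((hR.of_le (le_inf (le_sup_right.trans (le_norm_self P)) inf_le_right) inf_le_right).not_dvd_idx hp.out
        rfl)).pow_left a) ?_ (relIndex_dvd_of_le_left _ (le_sup_right.trans (le_inf (le_norm_self P) hPs)))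
    rw [← relIndex_sup_of_le_norm (inf_le_left.trans (le_norm_inf (le_norm_self _) (le_top.trans (top_le_norm K)))),
      ← ha]
    exact (relIndex_dvd_of_le_of_le le_sup_left (sup_le inf_le_left inf_le_left)).trans (h3 ▸ relIndex_dvd_card K S)
  refine ⟨T ⊔ K, le_sup_right, ?_⟩
  have h5 := H1.card_sup_mul_card_inf_normal T K
  have h6 := H1.card_sup_mul_card_inf_normal 𝒩(P) K
  rw [h1, card_top, ← (T ⊔ K).index_mul_card, ← h4, mul_assoc, h5, ← card_mul_relIndex (inf_le_left : T ≤ _), h3,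
    ← mul_assoc, mul_comm (Nat.card T)] at h6
  exact Nat.eq_of_mul_eq_mul_right Nat.card_pos (Nat.eq_of_mul_eq_mul_right Nat.card_pos h6)

theorem FR.compl_of_cyclic (hC : IsCyclic (S.map (QuotientGroup.mk' K))) :
    ∃ C : Subgroup G, K ≤ C ∧ C.index = K.relIndex S := by
  obtain ⟨η, hη⟩ := over_nonempty (le_sup_left : Z ≤ Z ⊔ S ⊓ K) h.2.1
  refine h.compl hZ hS hη ?_
  have hn := h.norm_aux hZ hS
  have hd := h.ded hZ hS
  set P := Z ⊔ S ⊓ K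
  set T := (Z ⊔ S) ⊓ stab η with hT
  have hPS : P ≤ Z ⊔ S := sup_le_sup_left inf_le_left _
  have h1 := (mem_over.1 hη).1
  have hPT : P ≤ T := le_inf hPS (CF.le_stab (irr_cf h1))
  have h2 : T.map (QuotientGroup.mk' K) ≤ S.map (QuotientGroup.mk' K) := (map_mono inf_le_left).trans (by
    rw [Subgroup.map_sup, (map_eq_bot_iff Z).2 (by rwa [QuotientGroup.ker_mk']), bot_sup_eq])
  obtain ⟨⟨_, t, ht, rfl⟩, h3⟩ := (Subgroup.isCyclic_of_le h2).exists_generator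
  obtain ⟨ω, h4, h5⟩ := exists_ext_cyclic hPT (inf_le_left.trans hn) h1 inf_le_right (C := zpowers t) inferInstance
    ((sup_le hPT (zpowers_le.2 ht)).antisymm fun x hx => by
      obtain ⟨n, h6⟩ := mem_zpowers_iff.1 (h3 ⟨_, x, hx, rfl⟩)
      have h6 : (t ^ n)⁻¹ * x ∈ K := QuotientGroup.eq.1 (congrArg Subtype.val h6)
      rw [← mul_inv_cancel_left (t ^ n) x]
      exact mul_mem (mem_sup_right (zpow_mem_zpowers t n)) (mem_sup_left (hd ▸
        ⟨(mul_mem (inv_mem (zpow_mem ht n)) hx).1, h6⟩)))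
  obtain ⟨ζ, hζ⟩ := over_nonempty (le_sup_left : Z ≤ Z ⊔ S) h.2.1
  have h6 : ∀ β ∈ IrrQ T P, β * ω ∈ IrrO T P η := fun β hβ =>
    h5 ▸ (gall1_mem hPT (inf_le_left.trans hn) (irr_char h4) (h5 ▸ h1)).2 ⟨β, hβ, rfl⟩
  have h7 : ∀ β ∈ IrrQ T P, Ind (Z ⊔ S) T (β * ω) = ζ := fun β hβ => by
    have := mem_over.1 (Ind_mem_over hPS hn h1 hT (h6 β hβ))
    exact (h.syl (top_le_norm Z) hS hζ).eq (mem_over.2 ⟨this.1, dot_ne_trans le_sup_left hPS (irr_char this.1) h1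
      (irr_char h.2.1) this.2 (mem_over.1 hη).2⟩)
  refine fun x hx => mem_of_forall_IrrQ hPT (inf_le_left.trans hn) fun β hβ => ?_
  rw [gall1_inj hPT (inf_le_left.trans hn) (irr_char h4) (h5 ▸ h1) hβ (one_mem_IrrQ hPT)
    (Ind_injOn_over hPS hn h1 hT (h6 β hβ) (h6 _ (one_mem_IrrQ hPT)) ((h7 β hβ).trans (h7 _ (one_mem_IrrQ hPT)).symm)),
    one_of_mem hx, one_one]

theorem FR.compl_of_Ind (hψ : ψ ∈ Irr K) (e : Ind ⊤ K ψ = ξ) :
    ∃ C : Subgroup G, K ≤ C ∧ C.index = K.relIndex S := by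
  obtain ⟨η, hη⟩ := over_nonempty (le_sup_left : Z ≤ Z ⊔ S ⊓ K) h.2.1
  refine h.compl hZ hS hη ?_
  have hn := h.norm_aux hZ hS
  have hi := h.idx_aux hZ hS
  set P := Z ⊔ S ⊓ K
  have hPS : P ≤ Z ⊔ S := sup_le_sup_left inf_le_left _
  have hPK : P ≤ K := sup_le hZ inf_le_right
  have h1 := (mem_over.1 hη).1
  have hs := h.le_stab (top_le_norm Z)
  have hZn : ∀ X : Subgroup G, X ≤ 𝒩(Z) := fun X => le_top.trans (top_le_norm Z)
  obtain ⟨ζ, hζ⟩ := over_nonempty (le_sup_left : Z ≤ Z ⊔ S) h.2.1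
  have hF := h.syl (top_le_norm Z) hS hζ
  have h2 : ψ ∈ IrrO K Z θ := by
    obtain ⟨φ, h2, h3⟩ := exists_under hZ hψ
    have := dot_ne_trans hZ le_top (irr_char h.2.2.1) hψ (irr_char h2) (by
      rw [← dot_Ind_right le_top _ (irr_cf h.2.2.1), e, dot_irr_self h.2.2.1]; exact one_ne_zero) h3
    obtain ⟨f, -, h4⟩ := h.2.2.2
    rw [← dot_Res_left, h4, dot_smul_left] at this
    exact mem_over.2 ⟨hψ, irr_eq_of_dot_ne h.2.1 h2 (right_ne_zero_of_mul this) ▸ h3⟩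
  obtain ⟨f, -, -, h3, h4⟩ := res_over hZ (hZn K) h.2.1 (le_top.trans hs) h2
  obtain ⟨g, -, h5, -, h6⟩ := res_over le_sup_left (hZn P) h.2.1 (le_top.trans hs) hη
  have h7 : charDegree η ∣ charDegree ψ := by
    obtain ⟨m, hm, e'⟩ := ((irr_char hψ).Res hPK).exists_coeff
    have := congrFun e' 1
    rw [Res_one, Finset.sum_apply, Finset.sum_congr rfl (g := fun φ => (charDegree η : ℂ) * m φ) fun φ hφ => by
      rw [Pi.smul_apply, smul_eq_mul, mul_comm]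
      by_cases h8 : m φ = 0
      · simp [h8]
      obtain ⟨φ', h9, h10⟩ := exists_under (le_sup_left : Z ≤ P) hφ
      have := dot_ne_trans le_sup_left hPK (irr_char hψ) hφ (irr_char h9) (by
        rw [← dot_Res_left, hm φ hφ]; exact_mod_cast h8) h10
      rw [← dot_Res_left, h3, dot_smul_left] at this
      rw [orb_one_apply (hF.mem_orb le_sup_left hPS hn hη (mem_over.2 ⟨hφ,
        irr_eq_of_dot_ne h.2.1 h9 (right_ne_zero_of_mul this) ▸ h10⟩)), deg_cast h1], ← Finset.mul_sum,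
      ← deg_cast hψ] at this
    exact ⟨_, by exact_mod_cast this⟩
  have h8 : charDegree ξ = K.index * charDegree ψ := by
    have := congrFun e 1
    rw [Ind_one le_top, ← deg_cast hψ, ← deg_cast h.2.2.1, relIndex_top_right] at this
    exact_mod_cast this.symm
  have h9 := pow_dvd_pow_of_dvd (mul_dvd_mul (relIndex_dvd_index_of_normal K S) h7) 2
  rw [← h8, h.deg, h6, ← mul_assoc, mul_pow, Nat.mul_dvd_mul_iff_right (pow_pos (deg_pos h.2.1) 2),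
    ← relIndex_mul_relIndex Z (Z ⊔ S) ⊤ le_sup_left le_top] at h9
  obtain ⟨a, ha⟩ := IsPGroup.iff_card.1 hS.isPGroup
  have h10 : Z.relIndex P ∣ p ^ a := by
    rw [← ha]
    refine (relIndex_dvd_of_le_right hPS (hZn _)).trans ?_
    rw [sup_comm]; exact relIndex_sup_dvd' (hZn _)
  have h11 := ((Nat.Prime.coprime_iff_not_dvd hp.out).2 fun e =>
    hS.idx_of_le (le_sup_right : S ≤ Z ⊔ S) p hp.out e rfl).pow_left a
  have h12 := Nat.le_of_dvd (CF.relIndex_pos _ _) (((h11.coprime_dvd_left (ha ▸ relIndex_dvd_card K S)).mul_left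
    (h11.coprime_dvd_left (h5.trans h10))).pow_left 2 |>.dvd_of_dvd_mul_right h9)
  have h13 : K.relIndex S * charDegree η ≤ charDegree ζ := by
    refine (Nat.pow_le_pow_iff_left two_ne_zero).1 ?_
    rw [hF.deg, h6, ← mul_assoc, mul_pow]
    exact Nat.mul_le_mul_right _ h12
  obtain ⟨ω, h14, h15⟩ := exists_over hPS h1
  have h16 : dot (Z ⊔ S) (Ind (Z ⊔ S) P η) ω ≠ 0 := ((mem_over' hPS).1 (mem_over.2 ⟨h14, h15⟩)).2
  have h17 := hF.eq (mem_over.2 ⟨h14, dot_ne_trans le_sup_left hPS (irr_char h14) h1 (irr_char h.2.1) h15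
    (mem_over.1 hη).2⟩)
  have h18 := (Ind_irr_char hPS h1).irr_degree_le h14 h16
  refine (Ind_mem_Irr_iff hPS hn h1).1 ((Ind_irr_char hPS h1).eq_irr_of_degree h14 h16 ?_ ▸ h14)
  rw [Ind_one hPS, hi, ← deg_cast h1, ← deg_cast h14, h17] at h18 ⊢
  exact_mod_cast h13.antisymm (by exact_mod_cast h18)

end

theorem fr_of [Z.Normal] {χ : IrrCharacter G} (h : ∃ (θ : IrrCharacter Z) (e : ℕ), e ^ 2 = Z.index ∧
    ∀ z : Z, (χ : G → ℂ) z = (e : ℂ) * (θ : Z → ℂ) z) : ∃ θ, FR ⊤ Z θ χ := by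
  obtain ⟨θ, e, h1, h2⟩ := h
  refine ⟨_, le_top, ext0_irr θ, mem_Irr_top.2 χ.2, e, by rwa [relIndex_top_right], funext fun x => ?_⟩
  by_cases hx : x ∈ Z
  · rw [Res_of_mem _ hx, Pi.smul_apply, ext0_of_mem _ hx, smul_eq_mul, ← h2 ⟨x, hx⟩]
  · rw [Res_of_not_mem _ hx, Pi.smul_apply, ext0_of_not_mem _ hx, smul_zero]

end H21
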