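import Cfsg.Agent.H19.BrChar
import Cfsg.Agent.H25.Prim
import Cfsg.Agent.H15.Syl

/-! Integral operators of a representation over a valuation ring of `ℂ`; small representations and
trivial-intersection Sylow subgroups. -/

set_option autoImplicit false
set_option linter.unusedSectionVars false

open Cfsg H15 Subgroup Module

namespace H21

variable {G : Type*} [Group G] [Finite G] {M : Type*} [AddCommGroup M] [Module ℂ M]
  {O : ValuationSubring ℂ} {σ : Representation ℂ G M}

/-- the `O`-algebra generated by the operators of the representation -/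
noncomputable def opAlg (O : ValuationSubring ℂ) (σ : Representation ℂ G M) : Subalgebra O (End ℂ M) :=
  Algebra.adjoin O (Set.range σ)

theorem rep_mem_opAlg (g : G) : σ g ∈ opAlg O σ := Algebra.subset_adjoin ⟨g, rfl⟩

theorem smul_mem_opAlg {c : ℂ} (hc : c ∈ O) {T : End ℂ M} (h : T ∈ opAlg O σ) : c • T ∈ opAlg O σ :=
  (opAlg O σ).smul_mem h ⟨c, hc⟩

theorem eig_mem {T : End ℂ M} (h : T ∈ opAlg O σ) {m : M} (hm : m ≠ 0) {c : ℂ} (e : T m = c • m) : c ∈ O := by
  have h1 : IsIntegral O T := IsIntegral.of_mem_of_fg (opAlg O σ) (by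
    rw [opAlg, Algebra.adjoin_eq_span, ← MonoidHom.coe_mrange, Submonoid.closure_eq]
    exact Submodule.fg_span (Set.finite_range _)) T h
  obtain ⟨f, hf, h2⟩ := h1
  refine H19.mem_of_isIntegral_O ⟨f, hf, ?_⟩
  have := End.aeval_apply_of_hasEigenvector (f := T) (p := f.map (algebraMap O ℂ))
    ⟨End.mem_eigenspace_iff.2 e, hm⟩
  rw [Polynomial.aeval_map_algebraMap, Polynomial.aeval_def, h2, Polynomial.eval_map] at this
  exact (smul_eq_zero.1 this.symm).resolve_right hm

theorem eig_mem_nonunits {ι : Type*} [Fintype ι] {T : ι → End ℂ M} (h : ∀ i, T i ∈ opAlg O σ) {d : ι → ℂ}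
    (hd : ∀ i, d i ∈ O.nonunits) {m : M} (hm : m ≠ 0) {c : ℂ} (e : ∑ i, d i • T i m = c • m) :
    c ∈ O.nonunits := by
  by_cases h0 : ∀ i, d i = 0
  · simp only [h0, zero_smul, Finset.sum_const_zero] at e
    rw [(smul_eq_zero.1 e.symm).resolve_right hm]
    exact zero_mem _
  obtain ⟨j, hj⟩ := not_forall.1 h0
  obtain ⟨i, -, hi⟩ := Finset.exists_max_image Finset.univ (fun i => O.valuation (d i)) ⟨j, Finset.mem_univ _⟩
  have h1 : d i ≠ 0 := fun e => hj (by simpa [e] using hi j (Finset.mem_univ _))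
  have := eig_mem (c := c / d i) (sum_mem fun j (_ : j ∈ Finset.univ) => smul_mem_opAlg
    ((H19.div_mem_iff_val h1).2 (hi j (Finset.mem_univ _))) (h j)) hm (by
      simp only [LinearMap.sum_apply, LinearMap.smul_apply, div_eq_inv_mul, mul_smul, ← Finset.smul_sum, e])
  rw [← div_mul_cancel₀ c h1]
  exact H19.nonunits_mul_left this (hd i)

/-- a dependence among the translates of a vector by a `p`-group gives one with all coefficients congruent
to the same unit -/
theorem exists_const_rel {p : ℕ} [Fact p.Prime] [CharP (H19.kk O) p] [Fintype G] (hG : IsPGroup p G) {m : M}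
    (h : ¬ LinearIndependent ℂ fun y => σ y m) :
    ∃ d : G → ℂ, d 1 ∉ O.nonunits ∧ (∀ y, d y - d 1 ∈ O.nonunits) ∧ ∑ y, d y • σ y m = 0 := by
  obtain ⟨c, hc, j, hj⟩ := Fintype.not_linearIndependent_iff.1 h
  obtain ⟨i, -, hi⟩ := Finset.exists_max_image Finset.univ (fun i => O.valuation (c i)) ⟨j, Finset.mem_univ _⟩
  have h1 : c i ≠ 0 := fun e => hj (by simpa [e] using hi j (Finset.mem_univ _))
  letI : DistribMulAction G (G → H19.kk O) :=
    { smul := fun g w y => w (g⁻¹ * y)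
      one_smul := fun w => funext fun y => congrArg w (by simp)
      mul_smul := fun a b w => funext fun y => congrArg w (by simp [mul_assoc])
      smul_zero := fun _ => rfl
      smul_add := fun _ _ _ => rfl }
  let W : AddSubgroup (G → H19.kk O) :=
    { carrier := {w | ∃ d : G → ℂ, (∀ y, d y ∈ O) ∧ (∀ y, H19.res O (d y) = w y) ∧ ∑ y, d y • σ y m = 0}
      zero_mem' := ⟨0, fun _ => zero_mem _, fun _ => H19.res_zero, by simp⟩
      add_mem' := by
        rintro _ _ ⟨a, a1, a2, a3⟩ ⟨b, b1, b2, b3⟩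
        exact ⟨a + b, fun y => add_mem (a1 y) (b1 y), fun y => by
          rw [Pi.add_apply, H19.res_add (a1 y) (b1 y), a2, b2, Pi.add_apply], by
          simp only [Pi.add_apply, add_smul, Finset.sum_add_distrib, a3, b3, add_zero]⟩
      neg_mem' := by
        rintro _ ⟨a, a1, a2, a3⟩
        exact ⟨-a, fun y => neg_mem (a1 y), fun y => by rw [Pi.neg_apply, H19.res_neg, a2, Pi.neg_apply], by
          simp only [Pi.neg_apply, neg_smul, Finset.sum_neg_distrib, a3, neg_zero]⟩ }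
  obtain ⟨v, ⟨d, d1, d2, d3⟩, hv, h2⟩ := H25.exists_fixed_vector hG (V := G → H19.kk O)
    (fun v => funext fun y => by simp) W (by
      rintro g _ ⟨a, a1, a2, a3⟩
      refine ⟨fun y => a (g⁻¹ * y), fun y => a1 _, fun y => a2 _, ?_⟩
      rw [← Equiv.sum_comp (Equiv.mulLeft g)]
      simpa [map_sum] using congrArg (σ g) a3)
    (w := fun y => H19.res O (c y / c i)) ⟨fun y => c y / c i, fun y => (H19.div_mem_iff_val h1).2
      (hi y (Finset.mem_univ _)), fun _ => rfl, by
      simp only [div_eq_inv_mul, mul_smul, ← Finset.smul_sum, hc, smul_zero]⟩ (fun e => by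
      simpa [h1, H19.res_one] using congrFun e i)
  have h3 : ∀ y, v y = v 1 := fun y => by
    rw [← congrFun (h2 y) y]
    exact congrArg v (inv_mul_cancel y)
  refine ⟨d, fun e => hv (funext fun y => ?_), fun y => (H19.res_eq_res_iff (d1 y) (d1 1)).1 (by rw [d2, d2, h3]), d3⟩
  rw [h3, ← d2, H19.res_eq_zero_of_nonunits e, Pi.zero_apply]

/-- an equivariant function summed over a set with a free action -/
theorem sum_free {X : Type*} [MulAction G X] [Fintype G] (F : X → M) (hF : ∀ (y : G) x, F (y • x) = σ y (F x))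
    (L : AddSubmonoid M) (hL : ∀ x, F x ∈ L) (S : Finset X) (hS : ∀ (y : G), ∀ x ∈ S, y • x ∈ S)
    (hf : ∀ (y : G), ∀ x ∈ S, y • x = x → y = 1) : ∃ m ∈ L, ∑ x ∈ S, F x = ∑ y, σ y m := by
  classical
  induction S using Finset.strongInduction with | _ S ih => ?_
  rcases S.eq_empty_or_nonempty with rfl | ⟨x, hx⟩
  · exact ⟨0, zero_mem _, by simp⟩
  have h1 : Finset.univ.image (fun y : G => y • x) ⊆ S := fun z hz => by
    obtain ⟨y, -, rfl⟩ := Finset.mem_image.1 hz
    exact hS y x hx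
  obtain ⟨m, hm, e⟩ := ih (S \ Finset.univ.image fun y : G => y • x) (Finset.sdiff_ssubset h1
    ⟨x, Finset.mem_image.2 ⟨1, Finset.mem_univ _, one_smul _ _⟩⟩) (fun y z hz => by
      obtain ⟨h2, h3⟩ := Finset.mem_sdiff.1 hz
      refine Finset.mem_sdiff.2 ⟨hS y z h2, fun h4 => h3 ?_⟩
      obtain ⟨w, -, h4⟩ := Finset.mem_image.1 h4
      exact Finset.mem_image.2 ⟨y⁻¹ * w, Finset.mem_univ _, by rw [mul_smul, h4, inv_smul_smul]⟩)
    fun y z hz => hf y z (Finset.mem_sdiff.1 hz).1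
  refine ⟨m + F x, add_mem hm (hL x), ?_⟩
  rw [← Finset.sum_sdiff h1, e, Finset.sum_image fun a _ b _ (h : a • x = b • x) =>
    (inv_mul_eq_one.1 (hf _ x hx (by rw [mul_smul, h, inv_smul_smul]))).symm]
  simp only [map_add, Finset.sum_add_distrib, hF]

theorem sum_out {A : Type*} [AddCommMonoid A] [Fintype G] (N : Subgroup G) [Fintype N] [Fintype (G ⧸ N)]
    (F : G → A) : ∑ x, F x = ∑ q : G ⧸ N, ∑ n : N, F (q.out * n) := by
  rw [← Fintype.sum_prod_type']
  refine (Function.Bijective.sum_comp (e := fun z : (G ⧸ N) × N => z.1.out * z.2) ⟨?_, fun x => ?_⟩ F).symm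
  · rintro ⟨a, n⟩ ⟨b, k⟩ (e : a.out * n = b.out * k)
    obtain rfl : a = b := by simpa using congrArg (QuotientGroup.mk : G → G ⧸ N) e
    rw [Subtype.ext (mul_left_cancel e)]
  · obtain ⟨n, hn⟩ := QuotientGroup.mk_out_eq_mul N x
    exact ⟨(x, n⁻¹), by simp [hn]⟩

theorem fix_of_TI [FiniteDimensional ℂ M] {p : ℕ} [Fact p.Prime] {P : Subgroup G} (hP : Syl(p, P, ⊤))
    (hTI : ∀ g, g ∉ 𝒩(P) → P ⊓ cj(g, P) = ⊥) (hd : finrank ℂ M ≤ Nat.card P) {m₀ : M} (h0 : m₀ ≠ 0)
    (h1 : ∀ g, σ g m₀ = m₀) {m : M} (hm : ∀ g ∈ 𝒩(P), σ g m = m) (g : G) : σ g m = m := by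
  classical
  have := Fintype.ofFinite G
  have := Fintype.ofFinite (G ⧸ 𝒩(P))
  obtain ⟨O, hO⟩ := H19.exists_val p
  set a := (Nat.card G : ℂ)⁻¹ • ∑ x, σ x m with ha
  have hG : (Nat.card G : ℂ) ≠ 0 := Nat.cast_ne_zero.2 Nat.card_pos.ne'
  have h2 : ∀ g, σ g a = a := fun g => by
    rw [ha, map_smul, map_sum, ← Equiv.sum_comp (Equiv.mulLeft g) fun x => σ x m]
    simp
  by_contra h3
  have h4 : m - a ≠ 0 := fun e => h3 (by rw [sub_eq_zero.1 e, h2])
  set f := m - a
  have h5 : ∀ g ∈ 𝒩(P), σ g f = f := fun g hg => by rw [map_sub, hm g hg, h2]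
  have h6 : ∑ x, σ x f = 0 := by
    simp only [f, map_sub, h2, Finset.sum_sub_distrib, Finset.sum_const, Finset.card_univ]
    rw [← Nat.card_eq_fintype_card, ← Nat.cast_smul_eq_nsmul ℂ, ha, smul_inv_smul₀ hG, sub_self]
  have h7 : ∀ x : G, σ (x : G ⧸ 𝒩(P)).out f = σ x f := fun x => by
    obtain ⟨n, hn⟩ := QuotientGroup.mk_out_eq_mul 𝒩(P) x
    rw [hn, map_mul, End.mul_apply, h5 _ n.2]
  have h8 : ∑ x : G ⧸ 𝒩(P), σ x.out f = 0 := by
    rw [sum_out 𝒩(P), Finset.sum_comm, Finset.sum_congr rfl (g := fun _ => ∑ x : G ⧸ 𝒩(P), σ x.out f)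
      fun n _ => Finset.sum_congr rfl fun x _ => by rw [map_mul, End.mul_apply, h5 _ n.2], Finset.sum_const,
      ← Nat.cast_smul_eq_nsmul ℂ] at h6
    exact (smul_eq_zero.1 h6).resolve_left (Nat.cast_ne_zero.2 Fintype.card_ne_zero)
  obtain ⟨w, ⟨T, hT, rfl⟩, e⟩ := sum_free (G := P) (σ := σ.comp P.subtype) (fun x : G ⧸ 𝒩(P) => σ x.out f)
    (fun y x => by
      obtain ⟨x, rfl⟩ := QuotientGroup.mk_surjective x
      exact (h7 (y * x)).trans (by simp [h7]))
    ((opAlg O σ).toSubsemiring.toAddSubmonoid.map (LinearMap.applyₗ (R := ℂ) f).toAddMonoidHom)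
    (fun x => ⟨_, rep_mem_opAlg _, rfl⟩) (Finset.univ.erase ((1 : G) : G ⧸ 𝒩(P))) (fun y x hx => by
      refine Finset.mem_erase.2 ⟨fun e => (Finset.mem_erase.1 hx).1 ?_, Finset.mem_univ _⟩
      rw [← inv_smul_smul y x, e]
      exact QuotientGroup.eq.2 (by simpa using le_norm_self P y.2)) (fun y x hx e => by
      obtain ⟨x, rfl⟩ := QuotientGroup.mk_surjective x
      have h9 : x⁻¹ * y * x ∈ 𝒩(P) := by
        simpa [mul_assoc] using inv_mem (QuotientGroup.eq.1 (show (((y : G) * x : G) : G ⧸ 𝒩(P)) = x from e))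
      have : (y : G) ∈ (⊥ : Subgroup G) := hTI x (fun hx' => (Finset.mem_erase.1 hx).1
        (QuotientGroup.eq.2 (by simpa using hx'))) ▸ ⟨y.2, mem_cj.2 (hP.le_of_norm (K := zpowers _)
          ((hP.cj_top x⁻¹).isPi.of_le (zpowers_le.2 (mem_cj.2 (by simp [mul_assoc])))) le_top (zpowers_le.2 h9)
          (mem_zpowers _))⟩
      exact Subtype.ext this)
  rw [← Finset.add_sum_erase _ _ (Finset.mem_univ ((1 : G) : G ⧸ 𝒩(P))), h7, map_one, End.one_apply, e] at h8
  replace h8 : ∑ y : P, σ y (T f) = -f := eq_neg_of_add_eq_zero_right h8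
  by_cases h9 : LinearIndependent ℂ fun y : P => σ y (T f)
  · obtain ⟨c, hc⟩ := (Submodule.mem_span_range_iff_exists_fun ℂ).1 ((h9.span_eq_top_of_card_eq_finrank
      (h9.fintype_card_le_finrank.antisymm (by rwa [← Nat.card_eq_fintype_card]))).ge (Submodule.mem_top (x := m₀)))
    have h10 : ∀ y, c y = c 1 := fun y => by
      have := congrArg (σ y) hc
      rw [h1, ← hc, map_sum, ← Equiv.sum_comp (Equiv.mulLeft y) fun z => c z • σ z (T f)] at this
      simp only [map_smul, Equiv.coe_mulLeft, coe_mul, map_mul, End.mul_apply] at this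
      have h11 := Fintype.linearIndependent_iff.1 (h9.map' (σ y) (LinearMap.ker_eq_bot.2 (σ.apply_bijective y).1))
        (fun z => c z - c (y * z)) (by simp only [sub_smul, Finset.sum_sub_distrib]; exact sub_eq_zero.2 this) 1
      rw [mul_one] at h11
      exact (sub_eq_zero.1 h11).symm
    simp only [h10, ← Finset.smul_sum, h8] at hc
    have h11 := congrArg (fun v => ∑ x, σ x v) hc
    simp only [map_smul, map_neg, ← Finset.smul_sum, Finset.sum_neg_distrib, h6, neg_zero, smul_zero, h1,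
      Finset.sum_const] at h11
    rw [← Nat.cast_smul_eq_nsmul ℂ] at h11
    exact h0 ((smul_eq_zero.1 h11.symm).resolve_left (Nat.cast_ne_zero.2 Fintype.card_ne_zero))
  obtain ⟨d, d1, d2, d3⟩ := exists_const_rel (O := O) (σ := σ.comp P.subtype) hP.isPGroup h9
  refine d1 (eig_mem_nonunits (σ := σ) (T := fun y : P => σ y * T) (fun y => mul_mem (rep_mem_opAlg _) hT) d2 h4 ?_)
  simp only [sub_smul, Finset.sum_sub_distrib, ← Finset.smul_sum, End.mul_apply, h8]
  rw [show ∑ y : P, d y • σ y (T f) = 0 from d3]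
  simp

end H21
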