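import Mathlib

/-! Local fusion graphs of symmetric groups: for two involutions with the same number of moved
points there is a third one whose products with both have odd order. -/

set_option autoImplicit false
set_option linter.unusedSectionVars false

namespace H21.Lf

open Equiv Equiv.Perm

variable {α : Type*} [Fintype α] [DecidableEq α]

def Sq (x : Perm α) : Prop := ∀ q, x (x q) = q
def Out (s : Finset α) (x : Perm α) : Prop := ∀ q, q ∉ s → x q = q
def Good (x z : Perm α) : Prop := ∀ f : α → ℤ, (∀ q, f (x q) = - f (z q)) → ∀ q, f q = 0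
def N (x : Perm α) : ℕ := x.support.card
def Sol (s : Finset α) (x y : Perm α) : Prop :=
  ∃ z, Sq z ∧ Out s z ∧ N z = N x ∧ Good x z ∧ Good y z
def Exc (s : Finset α) (x y : Perm α) : Prop :=
  s.card = 4 ∧ ∀ q ∈ s, x q ≠ q ∧ y q ≠ q ∧ x q ≠ y q
def H (T : Finset α) (x x' w : Perm α) : Prop :=
  (∀ q ∈ T, x' q = q) ∧ ∀ f : α → ℤ, (∀ q ∈ T, f (x q) = - f (w q)) →
    (∀ q, q ∉ T → f (x' q) = f (x q)) ∧ ((∀ q, q ∉ T → f q = 0) → ∀ q ∈ T, f q = 0)
def IH (s : Finset α) : Prop :=
  ∀ s' : Finset α, s'.card < s.card → ∀ x y : Perm α, Sq x → Sq y → Out s' x → Out s' y →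
    N x = N y → ¬ Exc s' x y → Sol s' x y

theorem notMem_of_fix {T : Finset α} {x : Perm α} (h : ∀ q ∈ T, x q = q) {q : α} (hq : q ∉ T) :
    x q ∉ T := fun hm => hq (by
  have := x.injective (h _ hm)
  rwa [this] at hm)

theorem mem_of_out {T : Finset α} {x : Perm α} (h : Out T x) {q : α} (hq : q ∈ T) :
    x q ∈ T := by
  by_contra hm
  have := x.injective (h _ hm)
  rw [this] at hm
  exact hm hq

theorem mem_of_ne {T : Finset α} {x : Perm α} (h : Out T x) {q : α} (hq : x q ≠ q) : q ∈ T := by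
  by_contra hm
  exact hq (h q hm)

theorem good_step {T : Finset α} {x x' z' w : Perm α} (hz : ∀ q ∈ T, z' q = q) (hw : Out T w)
    (hH : H T x x' w) (hg : Good x' z') : Good x (z' * w) := by
  intro f hf
  have e1 : ∀ q ∈ T, (z' * w) q = w q := fun q hq => by
    rw [Perm.mul_apply, hz _ (mem_of_out hw hq)]
  have e2 : ∀ q, q ∉ T → (z' * w) q = z' q := fun q hq => by
    rw [Perm.mul_apply, hw q hq]
  obtain ⟨h1, h2⟩ := hH.2 f (fun q hq => by rw [hf q, e1 q hq])
  have h3 := hg (fun q => if q ∈ T then 0 else f q) (fun q => by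
    by_cases hq : q ∈ T
    · simp [hH.1 q hq, hz q hq, hq]
    · simp only [notMem_of_fix hH.1 hq, notMem_of_fix hz hq, if_false]
      rw [h1 q hq, hf q, e2 q hq])
  have h4 : ∀ q, q ∉ T → f q = 0 := fun q hq => by simpa [hq] using h3 q
  intro q
  by_cases hq : q ∈ T
  · exact h2 h4 q hq
  · exact h4 q hq

theorem reduce {s T : Finset α} (ih : IH s) (hT : T ⊆ s) (hne : T.Nonempty) {x y : Perm α}
    (x' y' w : Perm α) (sx : Sq x') (sy : Sq y') (ox : Out s x') (oy : Out s y') (sw : Sq w)
    (ow : Out T w) (nx : N x = N x' + N w) (ny : N y = N y' + N w) (nxy : N x = N y)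
    (hx : H T x x' w) (hy : H T y y' w) (he : ¬ Exc (s \ T) x' y') : Sol s x y := by
  have o : ∀ u : Perm α, Out s u → (∀ q ∈ T, u q = q) → Out (s \ T) u := fun u h1 h2 q hq => by
    by_cases hqT : q ∈ T
    · exact h2 q hqT
    · exact h1 q fun h => hq (Finset.mem_sdiff.2 ⟨h, hqT⟩)
  obtain ⟨z', sz, oz, nz, gx, gy⟩ := ih (s \ T)
    (Finset.card_lt_card (Finset.sdiff_ssubset hT hne)) x' y' sx sy (o _ ox hx.1) (o _ oy hy.1)
    (by omega) he
  have hz : ∀ q ∈ T, z' q = q := fun q hq => oz q fun h => (Finset.mem_sdiff.1 h).2 hq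
  have e1 : ∀ q ∈ T, (z' * w) q = w q := fun q hq => by
    rw [Perm.mul_apply, hz _ (mem_of_out ow hq)]
  have e2 : ∀ q, q ∉ T → (z' * w) q = z' q := fun q hq => by
    rw [Perm.mul_apply, ow q hq]
  refine ⟨z' * w, fun q => ?_, fun q hq => ?_, ?_, good_step hz ow hx gx, good_step hz ow hy gy⟩
  · by_cases hq : q ∈ T
    · rw [e1 q hq, e1 _ (mem_of_out ow hq), sw]
    · rw [e2 q hq, e2 _ (notMem_of_fix hz hq), sz]
  · rw [e2 q fun h => hq (hT h), oz q fun h => hq (Finset.mem_sdiff.1 h).1]
  · have hd : Perm.Disjoint z' w := fun q => by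
      by_cases hq : q ∈ T
      · exact Or.inl (hz q hq)
      · exact Or.inr (ow q hq)
    have := hd.card_support_mul
    unfold N at *
    omega

theorem add {x : Perm α} (hx : Sq x) (a b : α) (ha : x a = a) (hb : x b = b) (hab : a ≠ b) :
    Sq (x * swap a b) ∧ N (x * swap a b) = N x + 2 := by
  have hd : Perm.Disjoint x (swap a b) := fun q => by
    by_cases h1 : q = a
    · exact Or.inl (h1 ▸ ha)
    by_cases h2 : q = b
    · exact Or.inl (h2 ▸ hb)
    · exact Or.inr (swap_apply_of_ne_of_ne h1 h2)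
  refine ⟨fun q => ?_, ?_⟩
  · have h1 : x * x = 1 := Equiv.ext hx
    have : (x * swap a b) * (x * swap a b) = 1 := by
      rw [mul_assoc, ← mul_assoc (swap a b), ← hd.commute.eq, mul_assoc, swap_mul_self, mul_one, h1]
    exact congrArg (fun u : Perm α => u q) this
  · unfold N
    rw [hd.card_support_mul, card_support_swap hab]

theorem kill {x : Perm α} (hx : Sq x) (a b : α) (h : x a = b) (hab : a ≠ b) :
    Sq (x * swap a b) ∧ N x = N (x * swap a b) + 2 := by
  have hb : x b = a := by rw [← h, hx]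
  have hs : Sq (x * swap a b) := fun q => by
    by_cases h1 : q = a
    · subst h1; simp [hb]
    by_cases h2 : q = b
    · subst h2; simp [h]
    have h3 : x q ≠ a := fun e => h2 (by rw [← hx q, e, h])
    have h4 : x q ≠ b := fun e => h1 (by rw [← hx q, e, hb])
    simp only [Perm.mul_apply, swap_apply_of_ne_of_ne h1 h2, swap_apply_of_ne_of_ne h3 h4, hx q]
  refine ⟨hs, ?_⟩
  have := (add hs a b (by simp [hb]) (by simp [h]) hab).2
  rwa [mul_assoc, swap_mul_self, mul_one] at this

theorem out_swap {s : Finset α} {x : Perm α} (h : Out s x) {a b : α} (ha : a ∈ s) (hb : b ∈ s) :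
    Out s (x * swap a b) := fun q hq => by
  have h1 : q ≠ a := fun e => hq (by rw [e]; exact ha)
  have h2 : q ≠ b := fun e => hq (by rw [e]; exact hb)
  rw [Perm.mul_apply, swap_apply_of_ne_of_ne h1 h2, h q hq]

theorem sq_one : Sq (1 : Perm α) := fun _ => rfl
theorem out_one (s : Finset α) : Out s (1 : Perm α) := fun _ _ => rfl
theorem N_one : N (1 : Perm α) = 0 := by simp [N]

theorem Sol.symm {s : Finset α} {x y : Perm α} (h : Sol s x y) (n : N x = N y) : Sol s y x := by
  obtain ⟨z, h1, h2, h3, h4, h5⟩ := h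
  exact ⟨z, h1, h2, h3.trans n, h5, h4⟩

attribute [local grind =] Equiv.Perm.mul_apply Equiv.Perm.one_apply

/-- path end -/
theorem R1 {s : Finset α} (ih : IH s) {x y : Perm α} (sx : Sq x) (sy : Sq y) (ox : Out s x)
    (oy : Out s y) (n : N x = N y) (a b c : α) (h1 : y a = a) (h2 : x a = b) (h3 : y b = c)
    (hab : a ≠ b) (hbc : b ≠ c) : Sol s x y := by
  have h2' : x b = a := by rw [← h2, sx]
  have h3' : y c = b := by rw [← h3, sy]
  have hac : a ≠ c := by grind
  have ha : a ∈ s := mem_of_ne ox (by grind)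
  have hb : b ∈ s := mem_of_ne ox (by grind)
  have hc : c ∈ s := mem_of_ne oy (by grind)
  obtain ⟨s1, n1⟩ := kill sx a b h2 hab
  obtain ⟨s2, n2⟩ := kill sy b c h3 hbc
  obtain ⟨s3, n3⟩ := add sq_one a b rfl rfl hab
  refine reduce (T := {a, b}) ih (by grind) (by simp) _ _ _ s1 s2 (out_swap ox ha hb)
    (out_swap oy hb hc) s3 (out_swap (out_one _) (by simp) (by simp))
    (by rw [n3, N_one]; omega) (by rw [n3, N_one]; omega) n ⟨?_, fun f hf => ?_⟩
    ⟨?_, fun f hf => ?_⟩ fun he => ?_
  · grind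
  · have := hf a (by simp)
    have := hf b (by simp)
    grind
  · grind
  · have := hf a (by simp)
    have := hf b (by simp)
    grind
  · have := he.2 c (by grind)
    grind

/-- two isolated edges -/
theorem R2 {s : Finset α} (ih : IH s) {x y : Perm α} (sx : Sq x) (sy : Sq y) (ox : Out s x)
    (oy : Out s y) (n : N x = N y) (a b c d : α) (h1 : x a = b) (h2 : y a = a) (h3 : y b = b)
    (h4 : y c = d) (h5 : x c = c) (h6 : x d = d) (hab : a ≠ b) (hcd : c ≠ d) : Sol s x y := by
  have h1' : x b = a := by rw [← h1, sx]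
  have h4' : y d = c := by rw [← h4, sy]
  have hac : a ≠ c := by grind
  have had : a ≠ d := by grind
  have hbc : b ≠ c := by grind
  have hbd : b ≠ d := by grind
  have ha : a ∈ s := mem_of_ne ox (by grind)
  have hb : b ∈ s := mem_of_ne ox (by grind)
  have hc : c ∈ s := mem_of_ne oy (by grind)
  have hd : d ∈ s := mem_of_ne oy (by grind)
  obtain ⟨s1, n1⟩ := kill sx a b h1 hab
  obtain ⟨s2, n2⟩ := kill sy c d h4 hcd
  obtain ⟨s3, n3⟩ := add sq_one b c rfl rfl hbc
  refine reduce (T := {b, c}) ih (by grind) (by simp) _ _ _ s1 s2 (out_swap ox ha hb)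
    (out_swap oy hc hd) s3 (out_swap (out_one _) (by simp) (by simp))
    (by rw [n3, N_one]; omega) (by rw [n3, N_one]; omega) n ⟨?_, fun f hf => ?_⟩
    ⟨?_, fun f hf => ?_⟩ fun he => ?_
  · grind
  · have := hf b (by simp)
    have := hf c (by simp)
    grind
  · grind
  · have := hf b (by simp)
    have := hf c (by simp)
    grind
  · have := he.2 a (by grind)
    grind

/-- a four-cycle and a common fixed point -/
theorem R5 {s : Finset α} (ih : IH s) {x y : Perm α} (sx : Sq x) (sy : Sq y) (ox : Out s x)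
    (oy : Out s y) (n : N x = N y) (a b c d p : α) (h1 : x a = b) (h2 : x c = d) (h3 : y a = d)
    (h4 : y b = c) (h5 : x p = p) (h6 : y p = p) (hp : p ∈ s) (hnd : [a, b, c, d, p].Nodup) :
    Sol s x y := by
  have h1' : x b = a := by rw [← h1, sx]
  have h2' : x d = c := by rw [← h2, sx]
  have h3' : y d = a := by rw [← h3, sy]
  have h4' : y c = b := by rw [← h4, sy]
  simp only [List.nodup_cons, List.mem_cons, not_or, List.not_mem_nil, not_false_eq_true,
    List.nodup_nil, and_true] at hnd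
  have ha : a ∈ s := mem_of_ne ox (by grind)
  have hb : b ∈ s := mem_of_ne ox (by grind)
  have hc : c ∈ s := mem_of_ne ox (by grind)
  have hd : d ∈ s := mem_of_ne ox (by grind)
  obtain ⟨s1, n1⟩ := kill sx a b h1 (by grind)
  obtain ⟨s1', n1'⟩ := kill s1 c d (by grind) (by grind)
  obtain ⟨s2, n2⟩ := kill sy a d h3 (by grind)
  obtain ⟨s2', n2'⟩ := kill s2 b c (by grind) (by grind)
  obtain ⟨s3, n3⟩ := add sq_one a b rfl rfl (by grind)
  obtain ⟨s3', n3'⟩ := add s3 c p (by grind) (by grind) (by grind)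
  refine reduce (T := {a, b, c, p}) ih (by grind) (by simp) _ _ _ s1' s2'
    (out_swap (out_swap ox ha hb) hc hd) (out_swap (out_swap oy ha hd) hb hc) s3'
    (out_swap (out_swap (out_one _) (by simp) (by simp)) (by simp) (by simp))
    (by rw [n3', n3, N_one]; omega) (by rw [n3', n3, N_one]; omega) n ⟨?_, fun f hf => ?_⟩
    ⟨?_, fun f hf => ?_⟩ fun he => ?_
  · grind
  · have := hf a (by simp)
    have := hf b (by simp)
    have := hf c (by simp)
    have := hf p (by simp)
    grind
  · grind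
  · have := hf a (by simp)
    have := hf b (by simp)
    have := hf c (by simp)
    have := hf p (by simp)
    grind
  · have := he.2 d (by grind)
    grind

end H21.Lf
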