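import Cfsg.Agent.H21.Lf1

/-! Local fusion graphs of symmetric groups: reductions for cycles. -/

set_option autoImplicit false
set_option linter.unusedSectionVars false

namespace H21.Lf

open Equiv Equiv.Perm

variable {α : Type*} [Fintype α] [DecidableEq α]

attribute [local grind =] Equiv.Perm.mul_apply Equiv.Perm.one_apply

/-- a long alternating path -/
theorem R4 {s : Finset α} (ih : IH s) {x y : Perm α} (sx : Sq x) (sy : Sq y) (ox : Out s x)
    (oy : Out s y) (n : N x = N y) (a b c d e g : α)
    (x0 : x b = c) (x1 : x d = e)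
    (y0 : y a = b) (y1 : y c = d) (y2 : y e = g)
    (hnd : [a, b, c, d, e, g].Nodup) 
    (he : ¬ Exc (s \ {b, c, d, e}) (x * swap b c * swap d e)
      (y * swap a b * swap c d * swap e g * swap a g)) :
    Sol s x y := by
  have x0' : x c = b := by rw [← x0, sx]
  have x1' : x e = d := by rw [← x1, sx]
  have y0' : y b = a := by rw [← y0, sy]
  have y1' : y d = c := by rw [← y1, sy]
  have y2' : y g = e := by rw [← y2, sy]
  simp only [List.nodup_cons, List.mem_cons, not_or, List.not_mem_nil, not_false_eq_true,
    List.nodup_nil, and_true] at hnd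
  have ma : a ∈ s := mem_of_ne oy (by grind)
  have mb : b ∈ s := mem_of_ne oy (by grind)
  have mc : c ∈ s := mem_of_ne oy (by grind)
  have md : d ∈ s := mem_of_ne oy (by grind)
  have me : e ∈ s := mem_of_ne oy (by grind)
  have mg : g ∈ s := mem_of_ne oy (by grind)
  obtain ⟨sx0, nx0⟩ := kill sx b c (by grind (gen := 30) (ematch := 30)) (by grind (gen := 30) (ematch := 30))
  obtain ⟨sx1, nx1⟩ := kill sx0 d e (by grind (gen := 30) (ematch := 30)) (by grind (gen := 30) (ematch := 30))
  obtain ⟨sy0, ny0⟩ := kill sy a b (by grind (gen := 30) (ematch := 30)) (by grind (gen := 30) (ematch := 30))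
  obtain ⟨sy1, ny1⟩ := kill sy0 c d (by grind (gen := 30) (ematch := 30)) (by grind (gen := 30) (ematch := 30))
  obtain ⟨sy2, ny2⟩ := kill sy1 e g (by grind (gen := 30) (ematch := 30)) (by grind (gen := 30) (ematch := 30))
  obtain ⟨sy3, ny3⟩ := add sy2 a g (by grind (gen := 30) (ematch := 30)) (by grind (gen := 30) (ematch := 30)) (by grind)
  obtain ⟨sw0, nw0⟩ := add sq_one b c (by grind (gen := 30) (ematch := 30)) (by grind (gen := 30) (ematch := 30)) (by grind)
  obtain ⟨sw1, nw1⟩ := add sw0 d e (by grind (gen := 30) (ematch := 30)) (by grind (gen := 30) (ematch := 30)) (by grind)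
  have n0 := N_one (α := α)
  refine reduce (T := {b, c, d, e}) ih (by simp only [Finset.insert_subset_iff, Finset.singleton_subset_iff]; simp only [*, and_self]) (by simp) _ _ _ sx1 sy3
    (out_swap (out_swap ox mb mc) md me)
    (out_swap (out_swap (out_swap (out_swap oy ma mb) mc md) me mg) ma mg) sw1
    (out_swap (out_swap (out_one _) (by simp) (by simp)) (by simp) (by simp))
    (by omega) (by omega) n ⟨?_, fun f0 hf => ?_⟩
    ⟨?_, fun f0 hf => ?_⟩ ?_
  · clear * - hnd x0 x0' x1 x1'
    intro q hq
    simp only [Finset.mem_insert, Finset.mem_singleton] at hq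
    rcases hq with rfl | rfl | rfl | rfl <;> grind (gen := 30) (ematch := 30)
  · have eb := hf b (by simp)
    have ec := hf c (by simp)
    have ed := hf d (by simp)
    have ee := hf e (by simp)
    clear * - hnd x0 x0' x1 x1' eb ec ed ee
    refine ⟨fun q hq => ?_, fun h0 q hq => ?_⟩
    · simp only [Finset.mem_insert, Finset.mem_singleton, not_or] at hq
      grind (gen := 30) (ematch := 30)
    · have za := h0 a (by simp only [Finset.mem_insert, Finset.mem_singleton, not_or]; grind)
      have zg := h0 g (by simp only [Finset.mem_insert, Finset.mem_singleton, not_or]; grind)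
      simp only [Finset.mem_insert, Finset.mem_singleton] at hq
      rcases hq with rfl | rfl | rfl | rfl <;> grind (gen := 30) (ematch := 30)
  · clear * - hnd y0 y0' y1 y1' y2 y2'
    intro q hq
    simp only [Finset.mem_insert, Finset.mem_singleton] at hq
    rcases hq with rfl | rfl | rfl | rfl <;> grind (gen := 30) (ematch := 30)
  · have eb := hf b (by simp)
    have ec := hf c (by simp)
    have ed := hf d (by simp)
    have ee := hf e (by simp)
    clear * - hnd y0 y0' y1 y1' y2 y2' eb ec ed ee
    refine ⟨fun q hq => ?_, fun h0 q hq => ?_⟩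
    · simp only [Finset.mem_insert, Finset.mem_singleton, not_or] at hq
      grind (gen := 30) (ematch := 30)
    · have za := h0 a (by simp only [Finset.mem_insert, Finset.mem_singleton, not_or]; grind)
      have zg := h0 g (by simp only [Finset.mem_insert, Finset.mem_singleton, not_or]; grind)
      simp only [Finset.mem_insert, Finset.mem_singleton] at hq
      rcases hq with rfl | rfl | rfl | rfl <;> grind (gen := 30) (ematch := 30)
  · exact he

/-- two four-cycles -/
theorem R6 {s : Finset α} (ih : IH s) {x y : Perm α} (sx : Sq x) (sy : Sq y) (ox : Out s x)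
    (oy : Out s y) (n : N x = N y) (a b c d e g h k : α)
    (x0 : x a = b) (x1 : x e = g) (x2 : x h = k)
    (y0 : y a = d) (y1 : y b = c) (y2 : y e = k) (y3 : y g = h)
    (hnd : [a, b, c, d, e, g, h, k].Nodup) (xc : x c = d) :
    Sol s x y := by
  have x0' : x b = a := by rw [← x0, sx]
  have x1' : x g = e := by rw [← x1, sx]
  have x2' : x k = h := by rw [← x2, sx]
  have y0' : y d = a := by rw [← y0, sy]
  have y1' : y c = b := by rw [← y1, sy]
  have y2' : y k = e := by rw [← y2, sy]
  have y3' : y h = g := by rw [← y3, sy]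
  simp only [List.nodup_cons, List.mem_cons, not_or, List.not_mem_nil, not_false_eq_true,
    List.nodup_nil, and_true] at hnd
  have ma : a ∈ s := mem_of_ne oy (by grind)
  have mb : b ∈ s := mem_of_ne oy (by grind)
  have mc : c ∈ s := mem_of_ne oy (by grind)
  have md : d ∈ s := mem_of_ne oy (by grind)
  have me : e ∈ s := mem_of_ne oy (by grind)
  have mg : g ∈ s := mem_of_ne oy (by grind)
  have mh : h ∈ s := mem_of_ne oy (by grind)
  have mk : k ∈ s := mem_of_ne oy (by grind)
  obtain ⟨sx0, nx0⟩ := kill sx a b (by grind (gen := 30) (ematch := 30)) (by grind (gen := 30) (ematch := 30))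
  obtain ⟨sx1, nx1⟩ := kill sx0 e g (by grind (gen := 30) (ematch := 30)) (by grind (gen := 30) (ematch := 30))
  obtain ⟨sx2, nx2⟩ := kill sx1 h k (by grind (gen := 30) (ematch := 30)) (by grind (gen := 30) (ematch := 30))
  obtain ⟨sy0, ny0⟩ := kill sy a d (by grind (gen := 30) (ematch := 30)) (by grind (gen := 30) (ematch := 30))
  obtain ⟨sy1, ny1⟩ := kill sy0 b c (by grind (gen := 30) (ematch := 30)) (by grind (gen := 30) (ematch := 30))
  obtain ⟨sy2, ny2⟩ := kill sy1 e k (by grind (gen := 30) (ematch := 30)) (by grind (gen := 30) (ematch := 30))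
  obtain ⟨sy3, ny3⟩ := kill sy2 g h (by grind (gen := 30) (ematch := 30)) (by grind (gen := 30) (ematch := 30))
  obtain ⟨sy4, ny4⟩ := add sy3 c d (by grind (gen := 30) (ematch := 30)) (by grind (gen := 30) (ematch := 30)) (by grind)
  obtain ⟨sw0, nw0⟩ := add sq_one a e (by grind (gen := 30) (ematch := 30)) (by grind (gen := 30) (ematch := 30)) (by grind)
  obtain ⟨sw1, nw1⟩ := add sw0 k b (by grind (gen := 30) (ematch := 30)) (by grind (gen := 30) (ematch := 30)) (by grind)
  obtain ⟨sw2, nw2⟩ := add sw1 g h (by grind (gen := 30) (ematch := 30)) (by grind (gen := 30) (ematch := 30)) (by grind)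
  have n0 := N_one (α := α)
  refine reduce (T := {a, b, e, g, h, k}) ih (by simp only [Finset.insert_subset_iff, Finset.singleton_subset_iff]; simp only [*, and_self]) (by simp) _ _ _ sx2 sy4
    (out_swap (out_swap (out_swap ox ma mb) me mg) mh mk)
    (out_swap (out_swap (out_swap (out_swap (out_swap oy ma md) mb mc) me mk) mg mh) mc md) sw2
    (out_swap (out_swap (out_swap (out_one _) (by simp) (by simp)) (by simp) (by simp)) (by simp) (by simp))
    (by omega) (by omega) n ⟨?_, fun f0 hf => ?_⟩
    ⟨?_, fun f0 hf => ?_⟩ ?_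
  · clear * - hnd x0 x0' x1 x1' x2 x2'
    intro q hq
    simp only [Finset.mem_insert, Finset.mem_singleton] at hq
    rcases hq with rfl | rfl | rfl | rfl | rfl | rfl <;> grind (gen := 30) (ematch := 30)
  · have ea := hf a (by simp)
    have eb := hf b (by simp)
    have ee := hf e (by simp)
    have eg := hf g (by simp)
    have eh := hf h (by simp)
    have ek := hf k (by simp)
    clear * - hnd x0 x0' x1 x1' x2 x2' ea eb ee eg eh ek
    refine ⟨fun q hq => ?_, fun h0 q hq => ?_⟩
    · simp only [Finset.mem_insert, Finset.mem_singleton, not_or] at hq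
      grind (gen := 30) (ematch := 30)
    · have zc := h0 c (by simp only [Finset.mem_insert, Finset.mem_singleton, not_or]; grind)
      have zd := h0 d (by simp only [Finset.mem_insert, Finset.mem_singleton, not_or]; grind)
      simp only [Finset.mem_insert, Finset.mem_singleton] at hq
      rcases hq with rfl | rfl | rfl | rfl | rfl | rfl <;> grind (gen := 30) (ematch := 30)
  · clear * - hnd y0 y0' y1 y1' y2 y2' y3 y3'
    intro q hq
    simp only [Finset.mem_insert, Finset.mem_singleton] at hq
    rcases hq with rfl | rfl | rfl | rfl | rfl | rfl <;> grind (gen := 30) (ematch := 30)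
  · have ea := hf a (by simp)
    have eb := hf b (by simp)
    have ee := hf e (by simp)
    have eg := hf g (by simp)
    have eh := hf h (by simp)
    have ek := hf k (by simp)
    clear * - hnd y0 y0' y1 y1' y2 y2' y3 y3' ea eb ee eg eh ek
    refine ⟨fun q hq => ?_, fun h0 q hq => ?_⟩
    · simp only [Finset.mem_insert, Finset.mem_singleton, not_or] at hq
      grind (gen := 30) (ematch := 30)
    · have zc := h0 c (by simp only [Finset.mem_insert, Finset.mem_singleton, not_or]; grind)
      have zd := h0 d (by simp only [Finset.mem_insert, Finset.mem_singleton, not_or]; grind)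
      simp only [Finset.mem_insert, Finset.mem_singleton] at hq
      rcases hq with rfl | rfl | rfl | rfl | rfl | rfl <;> grind (gen := 30) (ematch := 30)
  · intro he
    have := he.2 c (by grind)
    grind (gen := 30) (ematch := 30)

/-- a four-cycle and a double edge -/
theorem R7 {s : Finset α} (ih : IH s) {x y : Perm α} (sx : Sq x) (sy : Sq y) (ox : Out s x)
    (oy : Out s y) (n : N x = N y) (a b c d e g : α)
    (x0 : x a = b) (x1 : x c = d) (x2 : x e = g)
    (y0 : y a = d) (y1 : y b = c) (y2 : y e = g)
    (hnd : [a, b, c, d, e, g].Nodup)  :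
    Sol s x y := by
  have x0' : x b = a := by rw [← x0, sx]
  have x1' : x d = c := by rw [← x1, sx]
  have x2' : x g = e := by rw [← x2, sx]
  have y0' : y d = a := by rw [← y0, sy]
  have y1' : y c = b := by rw [← y1, sy]
  have y2' : y g = e := by rw [← y2, sy]
  simp only [List.nodup_cons, List.mem_cons, not_or, List.not_mem_nil, not_false_eq_true,
    List.nodup_nil, and_true] at hnd
  have ma : a ∈ s := mem_of_ne oy (by grind)
  have mb : b ∈ s := mem_of_ne oy (by grind)
  have mc : c ∈ s := mem_of_ne oy (by grind)
  have md : d ∈ s := mem_of_ne oy (by grind)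
  have me : e ∈ s := mem_of_ne oy (by grind)
  have mg : g ∈ s := mem_of_ne oy (by grind)
  obtain ⟨sx0, nx0⟩ := kill sx a b (by grind (gen := 30) (ematch := 30)) (by grind (gen := 30) (ematch := 30))
  obtain ⟨sx1, nx1⟩ := kill sx0 c d (by grind (gen := 30) (ematch := 30)) (by grind (gen := 30) (ematch := 30))
  obtain ⟨sx2, nx2⟩ := kill sx1 e g (by grind (gen := 30) (ematch := 30)) (by grind (gen := 30) (ematch := 30))
  obtain ⟨sx3, nx3⟩ := add sx2 a e (by grind (gen := 30) (ematch := 30)) (by grind (gen := 30) (ematch := 30)) (by grind)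
  obtain ⟨sy0, ny0⟩ := kill sy a d (by grind (gen := 30) (ematch := 30)) (by grind (gen := 30) (ematch := 30))
  obtain ⟨sy1, ny1⟩ := kill sy0 b c (by grind (gen := 30) (ematch := 30)) (by grind (gen := 30) (ematch := 30))
  obtain ⟨sy2, ny2⟩ := kill sy1 e g (by grind (gen := 30) (ematch := 30)) (by grind (gen := 30) (ematch := 30))
  obtain ⟨sy3, ny3⟩ := add sy2 a e (by grind (gen := 30) (ematch := 30)) (by grind (gen := 30) (ematch := 30)) (by grind)
  obtain ⟨sw0, nw0⟩ := add sq_one b d (by grind (gen := 30) (ematch := 30)) (by grind (gen := 30) (ematch := 30)) (by grind)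
  obtain ⟨sw1, nw1⟩ := add sw0 c g (by grind (gen := 30) (ematch := 30)) (by grind (gen := 30) (ematch := 30)) (by grind)
  have n0 := N_one (α := α)
  refine reduce (T := {b, c, d, g}) ih (by simp only [Finset.insert_subset_iff, Finset.singleton_subset_iff]; simp only [*, and_self]) (by simp) _ _ _ sx3 sy3
    (out_swap (out_swap (out_swap (out_swap ox ma mb) mc md) me mg) ma me)
    (out_swap (out_swap (out_swap (out_swap oy ma md) mb mc) me mg) ma me) sw1
    (out_swap (out_swap (out_one _) (by simp) (by simp)) (by simp) (by simp))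
    (by omega) (by omega) n ⟨?_, fun f0 hf => ?_⟩
    ⟨?_, fun f0 hf => ?_⟩ ?_
  · clear * - hnd x0 x0' x1 x1' x2 x2'
    intro q hq
    simp only [Finset.mem_insert, Finset.mem_singleton] at hq
    rcases hq with rfl | rfl | rfl | rfl <;> grind (gen := 30) (ematch := 30)
  · have eb := hf b (by simp)
    have ec := hf c (by simp)
    have ed := hf d (by simp)
    have eg := hf g (by simp)
    clear * - hnd x0 x0' x1 x1' x2 x2' eb ec ed eg
    refine ⟨fun q hq => ?_, fun h0 q hq => ?_⟩
    · simp only [Finset.mem_insert, Finset.mem_singleton, not_or] at hq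
      grind (gen := 30) (ematch := 30)
    · have za := h0 a (by simp only [Finset.mem_insert, Finset.mem_singleton, not_or]; grind)
      have ze := h0 e (by simp only [Finset.mem_insert, Finset.mem_singleton, not_or]; grind)
      simp only [Finset.mem_insert, Finset.mem_singleton] at hq
      rcases hq with rfl | rfl | rfl | rfl <;> grind (gen := 30) (ematch := 30)
  · clear * - hnd y0 y0' y1 y1' y2 y2'
    intro q hq
    simp only [Finset.mem_insert, Finset.mem_singleton] at hq
    rcases hq with rfl | rfl | rfl | rfl <;> grind (gen := 30) (ematch := 30)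
  · have eb := hf b (by simp)
    have ec := hf c (by simp)
    have ed := hf d (by simp)
    have eg := hf g (by simp)
    clear * - hnd y0 y0' y1 y1' y2 y2' eb ec ed eg
    refine ⟨fun q hq => ?_, fun h0 q hq => ?_⟩
    · simp only [Finset.mem_insert, Finset.mem_singleton, not_or] at hq
      grind (gen := 30) (ematch := 30)
    · have za := h0 a (by simp only [Finset.mem_insert, Finset.mem_singleton, not_or]; grind)
      have ze := h0 e (by simp only [Finset.mem_insert, Finset.mem_singleton, not_or]; grind)
      simp only [Finset.mem_insert, Finset.mem_singleton] at hq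
      rcases hq with rfl | rfl | rfl | rfl <;> grind (gen := 30) (ematch := 30)
  · intro he
    have := he.2 a (by grind)
    grind (gen := 30) (ematch := 30)

/-- an eight-cycle -/
theorem B2 {s : Finset α} (ih : IH s) {x y : Perm α} (sx : Sq x) (sy : Sq y) (ox : Out s x)
    (oy : Out s y) (n : N x = N y) (a b c d e g h k : α)
    (x0 : x b = c) (x1 : x d = e) (x2 : x g = h) (x3 : x k = a)
    (y0 : y a = b) (y1 : y c = d) (y2 : y e = g) (y3 : y h = k)
    (hnd : [a, b, c, d, e, g, h, k].Nodup) (h8 : s ⊆ {a, b, c, d, e, g, h, k}) :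
    Sol s x y := by
  have x0' : x c = b := by rw [← x0, sx]
  have x1' : x e = d := by rw [← x1, sx]
  have x2' : x h = g := by rw [← x2, sx]
  have x3' : x a = k := by rw [← x3, sx]
  have y0' : y b = a := by rw [← y0, sy]
  have y1' : y d = c := by rw [← y1, sy]
  have y2' : y g = e := by rw [← y2, sy]
  have y3' : y k = h := by rw [← y3, sy]
  simp only [List.nodup_cons, List.mem_cons, not_or, List.not_mem_nil, not_false_eq_true,
    List.nodup_nil, and_true] at hnd
  have ma : a ∈ s := mem_of_ne oy (by grind)
  have mb : b ∈ s := mem_of_ne oy (by grind)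
  have mc : c ∈ s := mem_of_ne oy (by grind)
  have md : d ∈ s := mem_of_ne oy (by grind)
  have me : e ∈ s := mem_of_ne oy (by grind)
  have mg : g ∈ s := mem_of_ne oy (by grind)
  have mh : h ∈ s := mem_of_ne oy (by grind)
  have mk : k ∈ s := mem_of_ne oy (by grind)
  obtain ⟨sx0, nx0⟩ := kill sx b c (by grind (gen := 30) (ematch := 30)) (by grind (gen := 30) (ematch := 30))
  obtain ⟨sx1, nx1⟩ := kill sx0 d e (by grind (gen := 30) (ematch := 30)) (by grind (gen := 30) (ematch := 30))
  obtain ⟨sx2, nx2⟩ := kill sx1 g h (by grind (gen := 30) (ematch := 30)) (by grind (gen := 30) (ematch := 30))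
  obtain ⟨sx3, nx3⟩ := kill sx2 k a (by grind (gen := 30) (ematch := 30)) (by grind (gen := 30) (ematch := 30))
  obtain ⟨sy0, ny0⟩ := kill sy a b (by grind (gen := 30) (ematch := 30)) (by grind (gen := 30) (ematch := 30))
  obtain ⟨sy1, ny1⟩ := kill sy0 c d (by grind (gen := 30) (ematch := 30)) (by grind (gen := 30) (ematch := 30))
  obtain ⟨sy2, ny2⟩ := kill sy1 e g (by grind (gen := 30) (ematch := 30)) (by grind (gen := 30) (ematch := 30))
  obtain ⟨sy3, ny3⟩ := kill sy2 h k (by grind (gen := 30) (ematch := 30)) (by grind (gen := 30) (ematch := 30))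
  obtain ⟨sw0, nw0⟩ := add sq_one k a (by grind (gen := 30) (ematch := 30)) (by grind (gen := 30) (ematch := 30)) (by grind)
  obtain ⟨sw1, nw1⟩ := add sw0 c d (by grind (gen := 30) (ematch := 30)) (by grind (gen := 30) (ematch := 30)) (by grind)
  obtain ⟨sw2, nw2⟩ := add sw1 b g (by grind (gen := 30) (ematch := 30)) (by grind (gen := 30) (ematch := 30)) (by grind)
  obtain ⟨sw3, nw3⟩ := add sw2 e h (by grind (gen := 30) (ematch := 30)) (by grind (gen := 30) (ematch := 30)) (by grind)
  have n0 := N_one (α := α)
  refine reduce (T := {a, b, c, d, e, g, h, k}) ih (by simp only [Finset.insert_subset_iff, Finset.singleton_subset_iff]; simp only [*, and_self]) (by simp) _ _ _ sx3 sy3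
    (out_swap (out_swap (out_swap (out_swap ox mb mc) md me) mg mh) mk ma)
    (out_swap (out_swap (out_swap (out_swap oy ma mb) mc md) me mg) mh mk) sw3
    (out_swap (out_swap (out_swap (out_swap (out_one _) (by simp) (by simp)) (by simp) (by simp)) (by simp) (by simp)) (by simp) (by simp))
    (by omega) (by omega) n ⟨?_, fun f0 hf => ?_⟩
    ⟨?_, fun f0 hf => ?_⟩ ?_
  · clear * - hnd x0 x0' x1 x1' x2 x2' x3 x3'
    intro q hq
    simp only [Finset.mem_insert, Finset.mem_singleton] at hq
    rcases hq with rfl | rfl | rfl | rfl | rfl | rfl | rfl | rfl <;> grind (gen := 30) (ematch := 30)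
  · have ea := hf a (by simp)
    have eb := hf b (by simp)
    have ec := hf c (by simp)
    have ed := hf d (by simp)
    have ee := hf e (by simp)
    have eg := hf g (by simp)
    have eh := hf h (by simp)
    have ek := hf k (by simp)
    clear * - hnd x0 x0' x1 x1' x2 x2' x3 x3' ea eb ec ed ee eg eh ek
    refine ⟨fun q hq => ?_, fun h0 q hq => ?_⟩
    · simp only [Finset.mem_insert, Finset.mem_singleton, not_or] at hq
      grind (gen := 30) (ematch := 30)
    · simp only [Finset.mem_insert, Finset.mem_singleton] at hq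
      rcases hq with rfl | rfl | rfl | rfl | rfl | rfl | rfl | rfl <;> grind (gen := 30) (ematch := 30)
  · clear * - hnd y0 y0' y1 y1' y2 y2' y3 y3'
    intro q hq
    simp only [Finset.mem_insert, Finset.mem_singleton] at hq
    rcases hq with rfl | rfl | rfl | rfl | rfl | rfl | rfl | rfl <;> grind (gen := 30) (ematch := 30)
  · have ea := hf a (by simp)
    have eb := hf b (by simp)
    have ec := hf c (by simp)
    have ed := hf d (by simp)
    have ee := hf e (by simp)
    have eg := hf g (by simp)
    have eh := hf h (by simp)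
    have ek := hf k (by simp)
    clear * - hnd y0 y0' y1 y1' y2 y2' y3 y3' ea eb ec ed ee eg eh ek
    refine ⟨fun q hq => ?_, fun h0 q hq => ?_⟩
    · simp only [Finset.mem_insert, Finset.mem_singleton, not_or] at hq
      grind (gen := 30) (ematch := 30)
    · simp only [Finset.mem_insert, Finset.mem_singleton] at hq
      rcases hq with rfl | rfl | rfl | rfl | rfl | rfl | rfl | rfl <;> grind (gen := 30) (ematch := 30)
  · intro he
    have := he.1
    rw [Finset.sdiff_eq_empty_iff_subset.2 h8] at this
    simp at this

end H21.Lf
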