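import Cfsg.Agent.H21.Lf2

/-! Local fusion graphs of symmetric groups: the main induction. -/

set_option autoImplicit false
set_option linter.unusedSectionVars false

namespace H21.Lf

open Equiv Equiv.Perm

variable {α : Type*} [Fintype α] [DecidableEq α]

attribute [local grind =] Equiv.Perm.mul_apply Equiv.Perm.one_apply

theorem eq_four {s : Finset α} (h4 : s.card = 4) {a b c d : α} (ha : a ∈ s) (hb : b ∈ s)
    (hc : c ∈ s) (hd : d ∈ s) (hnd : [a, b, c, d].Nodup) : s = {a, b, c, d} := by
  symm
  apply Finset.eq_of_subset_of_card_le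
  · simp only [Finset.insert_subset_iff, Finset.singleton_subset_iff]; simp only [*, and_self]
  · have := List.toFinset_card_of_nodup hnd
    simp only [List.toFinset_cons, List.toFinset_nil, insert_empty_eq, List.length_cons,
      List.length_nil] at this
    omega

theorem long {s : Finset α} (ih : IH s) {x y : Perm α} (sx : Sq x) (sy : Sq y) (ox : Out s x)
    (oy : Out s y) (n : N x = N y) (hs : ∀ q, x q = q ↔ y q = q) (a : α) (h1 : y a ≠ a)
    (h2 : x a ≠ y a) (h3 : x (y (x (y a))) ≠ a) : Sol s x y := by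
  obtain ⟨b, hb⟩ : ∃ b, y a = b := ⟨_, rfl⟩
  obtain ⟨c, hc⟩ : ∃ c, x b = c := ⟨_, rfl⟩
  obtain ⟨d, hd⟩ : ∃ d, y c = d := ⟨_, rfl⟩
  obtain ⟨e, he⟩ : ∃ e, x d = e := ⟨_, rfl⟩
  obtain ⟨g, hg⟩ : ∃ g, y e = g := ⟨_, rfl⟩
  obtain ⟨h, hh⟩ : ∃ h, x g = h := ⟨_, rfl⟩
  obtain ⟨k, hk⟩ : ∃ k, x a = k := ⟨_, rfl⟩
  have hb' : y b = a := by rw [← hb, sy]
  have hc' : x c = b := by rw [← hc, sx]
  have hd' : y d = c := by rw [← hd, sy]
  have he' : x e = d := by rw [← he, sx]
  have hg' : y g = e := by rw [← hg, sy]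
  have hh' : x h = g := by rw [← hh, sx]
  have hk' : x k = a := by rw [← hk, sx]
  have sa := hs a
  have sb := hs b
  have sc := hs c
  have sd := hs d
  have se := hs e
  have sg := hs g
  have hnd : [a, b, c, d, e, g].Nodup := by
    simp only [List.nodup_cons, List.mem_cons, not_or, List.not_mem_nil, not_false_eq_true,
      List.nodup_nil, and_true]
    clear ih hs ox oy n sx sy
    grind
  by_cases hE : Exc (s \ {b, c, d, e}) (x * swap b c * swap d e)
      (y * swap a b * swap c d * swap e g * swap a g)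
  swap
  · exact R4 ih sx sy ox oy n a b c d e g hc he hb hd hg hnd hE
  simp only [List.nodup_cons, List.mem_cons, not_or, List.not_mem_nil, not_false_eq_true,
    List.nodup_nil, and_true] at hnd
  have ma : a ∈ s \ {b, c, d, e} := by
    have := mem_of_ne oy h1
    grind
  have mg : g ∈ s \ {b, c, d, e} := by
    have := mem_of_ne oy (q := g) (by grind)
    grind
  have ea := hE.2 a ma
  have eg := hE.2 g mg
  have hnd2 : [a, b, c, d, e, g, h, k].Nodup := by
    simp only [List.nodup_cons, List.mem_cons, not_or, List.not_mem_nil, not_false_eq_true,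
      List.nodup_nil, and_true]
    clear ih hs ox oy n sx sy hE ma mg
    grind (gen := 30) (ematch := 30)
  have hnd3 := hnd2
  simp only [List.nodup_cons, List.mem_cons, not_or, List.not_mem_nil, not_false_eq_true,
    List.nodup_nil, and_true] at hnd3
  have mh : h ∈ s \ {b, c, d, e} := by
    have := mem_of_ne ox (q := h) (by grind)
    grind
  have mk : k ∈ s \ {b, c, d, e} := by
    have := mem_of_ne ox (q := k) (by grind)
    grind
  have e4 := eq_four hE.1 ma mg mh mk (by
    simp only [List.nodup_cons, List.mem_cons, not_or, List.not_mem_nil, not_false_eq_true,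
      List.nodup_nil, and_true]
    grind)
  have h8 : s ⊆ {a, b, c, d, e, g, h, k} := fun q hq => by
    by_cases hq2 : q ∈ s \ {b, c, d, e}
    · rw [e4] at hq2
      grind
    · grind
  have eh := hE.2 h mh
  have hyh : y h = k := by
    have m1 := h8 (mem_of_out oy (Finset.mem_sdiff.1 mh).1)
    have := sy h
    simp only [Finset.mem_insert, Finset.mem_singleton] at m1
    clear ih hs ox oy n sx sy hE ma mg mh mk e4 h8
    grind (gen := 30) (ematch := 30)
  exact B2 ih sx sy ox oy n a b c d e g h k hc he hh hk' hb hd hg hyh hnd2 h8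

theorem short {s : Finset α} (ih : IH s) {x y : Perm α} (sx : Sq x) (sy : Sq y) (ox : Out s x)
    (oy : Out s y) (n : N x = N y) (hs : ∀ q, x q = q ↔ y q = q) (hE : ¬ Exc s x y)
    (hl : ∀ a, y a ≠ a → x a ≠ y a → x (y (x (y a))) = a) (a : α) (h2 : x a ≠ y a) :
    Sol s x y := by
  obtain ⟨b, hb⟩ : ∃ b, x a = b := ⟨_, rfl⟩
  obtain ⟨d, hd⟩ : ∃ d, y a = d := ⟨_, rfl⟩
  obtain ⟨c, hc⟩ : ∃ c, x d = c := ⟨_, rfl⟩
  have sa := hs a
  have sb := hs b
  have sc := hs c
  have sd := hs d
  have h1 : y a ≠ a := by grind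
  have la := hl a h1 h2
  have hb' : x b = a := by rw [← hb, sx]
  have hd' : y d = a := by rw [← hd, sy]
  have hc' : x c = d := by rw [← hc, sx]
  have hyc : y c = b := by
    have := sx (y c)
    grind
  have hyb : y b = c := by rw [← hyc, sy]
  have hnd : [a, b, c, d].Nodup := by
    simp only [List.nodup_cons, List.mem_cons, not_or, List.not_mem_nil, not_false_eq_true,
      List.nodup_nil, and_true]
    clear ih hs ox oy n sx sy hl hE
    grind
  have hnd3 := hnd
  simp only [List.nodup_cons, List.mem_cons, not_or, List.not_mem_nil, not_false_eq_true,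
    List.nodup_nil, and_true] at hnd3
  obtain ⟨e, me, hne⟩ : ∃ e ∈ s, e ∉ ({a, b, c, d} : Finset α) := by
    by_contra hcon
    push Not at hcon
    apply hE
    have ma : a ∈ s := mem_of_ne ox (by grind)
    have mb : b ∈ s := mem_of_ne ox (by grind)
    have mc : c ∈ s := mem_of_ne ox (by grind)
    have md : d ∈ s := mem_of_ne ox (by grind)
    have e4 : s = {a, b, c, d} := Finset.Subset.antisymm hcon (by
      simp only [Finset.insert_subset_iff, Finset.singleton_subset_iff]; simp only [*, and_self])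
    refine ⟨?_, fun q hq => ?_⟩
    · have := List.toFinset_card_of_nodup hnd
      simp only [List.toFinset_cons, List.toFinset_nil, insert_empty_eq, List.length_cons,
        List.length_nil] at this
      rw [e4]; omega
    · have := hcon q hq
      simp only [Finset.mem_insert, Finset.mem_singleton] at this
      clear ih hs ox oy n sx sy hl hE hcon e4
      grind
  simp only [Finset.mem_insert, Finset.mem_singleton, not_or] at hne
  by_cases hxe : x e = e
  · refine R5 ih sx sy ox oy n a b c d e hb hc' hd hyb hxe ((hs e).1 hxe) me ?_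
    simp only [List.nodup_cons, List.mem_cons, not_or, List.not_mem_nil, not_false_eq_true,
      List.nodup_nil, and_true]
    clear ih hs ox oy n sx sy hl hE
    grind
  obtain ⟨g, hg⟩ : ∃ g, x e = g := ⟨_, rfl⟩
  have hg' : x g = e := by rw [← hg, sx]
  by_cases hxy : x e = y e
  · refine R7 ih sx sy ox oy n a b c d e g hb hc' hg hd hyb (by rw [← hxy, hg]) ?_
    simp only [List.nodup_cons, List.mem_cons, not_or, List.not_mem_nil, not_false_eq_true,
      List.nodup_nil, and_true]
    clear ih hs ox oy n sx sy hl hE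
    grind
  obtain ⟨k, hk⟩ : ∃ k, y e = k := ⟨_, rfl⟩
  obtain ⟨h, hh⟩ : ∃ h, x k = h := ⟨_, rfl⟩
  have hk' : y k = e := by rw [← hk, sy]
  have hh' : x h = k := by rw [← hh, sx]
  have se := hs e
  have sg := hs g
  have sh := hs h
  have sk := hs k
  have le := hl e (by grind) hxy
  have hyh : y h = g := by
    have := sx (y h)
    grind
  have hyg : y g = h := by rw [← hyh, sy]
  refine R6 ih sx sy ox oy n a b c d e g h k hb hg hh' hd hyb hk hyg ?_ hc'
  simp only [List.nodup_cons, List.mem_cons, not_or, List.not_mem_nil, not_false_eq_true,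
    List.nodup_nil, and_true]
  clear ih hs ox oy n sx sy hl hE
  grind (splits := 40)

theorem main (s : Finset α) : ∀ x y : Perm α, Sq x → Sq y → Out s x → Out s y →
    N x = N y → ¬ Exc s x y → Sol s x y := by
  induction' hn : s.card using Nat.strong_induction_on with m ihm generalizing s
  intro x y sx sy ox oy n hE
  have ih : IH s := fun s' hs' => ihm s'.card (hn ▸ hs') s' rfl
  by_cases hA : ∃ a, y a = a ∧ x a ≠ a ∧ y (x a) ≠ x a
  · obtain ⟨a, h1, h2, h3⟩ := hA
    exact R1 ih sx sy ox oy n a _ _ h1 rfl rfl h2.symm h3.symm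
  by_cases hB : ∃ a, x a = a ∧ y a ≠ a ∧ x (y a) ≠ y a
  · obtain ⟨a, h1, h2, h3⟩ := hB
    exact (R1 ih sy sx oy ox n.symm a _ _ h1 rfl rfl h2.symm h3.symm).symm n.symm
  push Not at hA hB
  by_cases hS : x.support = y.support
  swap
  · have h1 : ¬ x.support ⊆ y.support := fun h => hS (Finset.eq_of_subset_of_card_le h n.ge)
    have h2 : ¬ y.support ⊆ x.support := fun h => hS (Finset.eq_of_subset_of_card_le h n.le).symm
    obtain ⟨a, ha, ha'⟩ := Finset.not_subset.1 h1
    obtain ⟨c, hc, hc'⟩ := Finset.not_subset.1 h2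
    rw [mem_support] at ha hc
    rw [notMem_support] at ha' hc'
    exact R2 ih sx sy ox oy n a _ c _ rfl ha' (hA a ha' ha) rfl hc' (hB c hc' hc) ha.symm hc.symm
  have hs : ∀ q, x q = q ↔ y q = q := fun q => by rw [← notMem_support, ← notMem_support, hS]
  by_cases hxy : ∀ a, x a = y a
  · have : x = y := Equiv.ext hxy
    subst this
    have hg : Good x x := fun f hf q => by
      have := hf (x q)
      rw [sx] at this
      omega
    exact ⟨x, sx, ox, rfl, hg, hg⟩
  obtain ⟨a, ha⟩ := not_forall.1 hxy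
  by_cases hl : ∃ a, y a ≠ a ∧ x a ≠ y a ∧ x (y (x (y a))) ≠ a
  · obtain ⟨a, h1, h2, h3⟩ := hl
    exact long ih sx sy ox oy n hs a h1 h2 h3
  push Not at hl
  exact short ih sx sy ox oy n hs hE hl a ha

theorem odd_of_good {x z : Perm α} (sz : Sq z) (h : Good x z) : Odd (orderOf (x * z)) := by
  set g := x * z with hg
  by_contra hodd
  rw [Nat.not_odd_iff_even] at hodd
  obtain ⟨p, hp⟩ : ∃ p, ∀ i : ℕ, (g ^ i) p = p → Even i := by
    by_contra hcon
    push Not at hcon
    choose m hm1 hm2 using hcon
    have h1 : g ^ (∏ q, m q) = 1 := Equiv.ext fun q => by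
      obtain ⟨k, hk⟩ := Finset.dvd_prod_of_mem m (Finset.mem_univ q)
      rw [hk, pow_mul]
      exact pow_apply_eq_self_of_apply_eq_self (hm1 q) k
    have h2 : Odd (∏ q, m q) := Finset.prod_induction m Odd (fun _ _ h1 h2 => h1.mul h2) odd_one
      fun q _ => Nat.not_even_iff_odd.1 (hm2 q)
    exact (Nat.not_even_iff_odd.2 (h2.of_dvd_nat (orderOf_dvd_of_pow_eq_one h1))) hodd
  let t : α → ℕ → ℤ := fun q i => (-1) ^ i * if (g ^ i) q = p then 1 else 0
  let f : α → ℤ := fun q => ∑ i ∈ Finset.range (orderOf g), t q i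
  have hf : ∀ q, f (g q) = - f q := fun q => by
    have h1 := Finset.sum_range_succ (t q) (orderOf g)
    have h2 := Finset.sum_range_succ' (t q) (orderOf g)
    have h3 : t q (orderOf g) = t q 0 := by
      simp only [t, pow_orderOf_eq_one, pow_zero, hodd.neg_one_pow]
    have h4 : ∑ i ∈ Finset.range (orderOf g), t q (i + 1) = - f (g q) := by
      simp only [f, ← Finset.sum_neg_distrib]
      refine Finset.sum_congr rfl fun i _ => ?_
      simp only [t, pow_succ, Perm.mul_apply]
      ring
    have : f q = ∑ i ∈ Finset.range (orderOf g), t q i := rfl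
    omega
  have h0 := h f (fun q => by
    have := hf (z q)
    rwa [hg, Perm.mul_apply, sz] at this) p
  have hpos : 0 < f p := by
    refine Finset.sum_pos' (fun i _ => ?_) ⟨0, Finset.mem_range.2 (orderOf_pos g), by simp [t]⟩
    by_cases hi : (g ^ i) p = p
    · simp [t, hi, (hp i hi).neg_one_pow]
    · simp [t, hi]
  omega

theorem isConj_of_N {x z : Perm α} (sx : Sq x) (sz : Sq z) (n : N z = N x) : IsConj x z := by
  have h : ∀ u : Perm α, Sq u → u.cycleType = Multiset.replicate (N u / 2) 2 := fun u su => by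
    have h1 : u ^ 2 = 1 := by rw [pow_two]; exact Equiv.ext su
    have h2 := cycleType_of_pow_prime_eq_one h1
    have h3 := sum_cycleType u
    rw [h2, Multiset.sum_replicate, smul_eq_mul] at h3
    rw [h2]
    congr 1
    unfold N
    omega
  rw [isConj_iff_cycleType_eq, h x sx, h z sz, n]

theorem sq_of_isConj {t x : Perm α} (st : Sq t) (h : IsConj t x) : Sq x ∧ N x = N t := by
  obtain ⟨g, rfl⟩ := isConj_iff.1 h
  refine ⟨fun q => ?_, card_support_conj⟩
  simp [Perm.mul_apply, st (g.symm q)]

theorem exists_even (h5 : 5 ≤ Fintype.card α) {t : Perm α} (st : Sq t) (h1 : t ≠ 1) :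
    ∃ y, IsConj t y ∧ t ≠ y ∧ ∀ q, t (y q) = y (t q) := by
  obtain ⟨a, ha⟩ : ∃ a, t a ≠ a := by
    by_contra h
    push Not at h
    exact h1 (Equiv.ext h)
  obtain ⟨b, hb⟩ : ∃ b, t a = b := ⟨_, rfl⟩
  have hb' : t b = a := by rw [← hb, st]
  by_cases hc : ∃ c, c ≠ a ∧ c ≠ b ∧ t c ≠ c
  · obtain ⟨c, h2, h3, h4⟩ := hc
    obtain ⟨d, hd⟩ : ∃ d, t c = d := ⟨_, rfl⟩
    have hd' : t d = c := by rw [← hd, st]
    refine ⟨swap b c * t * swap b c, isConj_iff.2 ⟨swap b c, by rw [swap_inv]⟩, fun h => ?_,
      fun q => ?_⟩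
    · have := congrArg (fun u : Perm α => u a) h
      grind
    · have := st q
      have := st (t q)
      grind (gen := 30) (ematch := 30)
  · push Not at hc
    obtain ⟨c, d, h2, h3, h4⟩ := Finset.one_lt_card_iff.1
      (show 1 < (Finset.univ \ ({a, b} : Finset α)).card by
        rw [Finset.card_sdiff_of_subset (Finset.subset_univ _), Finset.card_univ]
        have := Finset.card_le_two (a := a) (b := b)
        omega)
    simp only [Finset.mem_sdiff, Finset.mem_univ, true_and, Finset.mem_insert,
      Finset.mem_singleton, not_or] at h2 h3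
    have := hc c h2.1 h2.2
    have := hc d h3.1 h3.2
    refine ⟨swap a c * swap b d * t * (swap b d * swap a c),
      isConj_iff.2 ⟨swap a c * swap b d, by rw [mul_inv_rev, swap_inv, swap_inv]⟩, fun h => ?_,
      fun q => ?_⟩
    · have := congrArg (fun u : Perm α => u a) h
      grind (gen := 30) (ematch := 30)
    · have := hc q
      grind (gen := 30) (ematch := 30)

end H21.Lf
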