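/-
Real characters of odd degree of solvable groups and the normalizer of a Sylow `2`-subgroup.
-/
import Cfsg.Agent.H21.MK5
import Cfsg.Agent.H21.Sig
import Cfsg.Agent.H21.CD3
import Cfsg.Agent.H1.Frattini

set_option autoImplicit false
set_option linter.unusedSectionVars false
open H17 Cfsg H15 CF Subgroup
open scoped ComplexConjugate Classical

namespace H21

universe u
variable {G : Type u} [Group G] [Finite G] {K H S T X L : Subgroup G} {θ χ ψ ν : G → ℂ}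

theorem star_mem_over (hr : star θ = θ) (h : χ ∈ IrrO X K θ) : star χ ∈ IrrO X K θ :=
  mem_over.2 ⟨star_mem_Irr (mem_over.1 h).1, by
    rw [← hr, dot_star_star']; exact (map_ne_zero _).2 (mem_over.1 h).2⟩

theorem real_of_inv (hK : K ≤ X) (hn : X ≤ 𝒩(K)) (hS : Syl(2, S, X)) (hθ : θ ∈ Irr K)
    (hs : S ≤ stab θ) (hχ : χ ∈ IrrO X K θ) (hr : star χ = χ) : star θ = θ := by
  obtain ⟨a, b⟩ := mem_over.1 hχ
  obtain ⟨g, hg, e⟩ := mem_orb.1 (clifford_mem_orb hK hn a hθ (star_mem_Irr hθ) b (by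
    rw [← hr, dot_star_star']; exact (map_ne_zero _).2 b))
  obtain ⟨n, c, d⟩ := mem_orb.1 (exists_norm_cfj' hS hg hs (by rw [e, stab_star]; exact hs))
  rw [e] at d
  have h1 : n ^ 2 ∈ stab θ := by rw [mem_stab, sq, cfj_mul, d, cfj_star, d, star_star]
  have h2 := hs (pow_relIndex_mem (N := S) inf_le_right c)
  obtain ⟨k, hk⟩ : Odd (S.relIndex (X ⊓ 𝒩(S))) := Nat.not_even_iff_odd.1 fun h =>
    (hS.of_le (le_inf hS.le (le_norm_self S)) inf_le_left).not_dvd_idx Nat.prime_two rfl h.two_dvd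
  rw [hk, pow_succ, pow_mul, mul_mem_cancel_left (pow_mem h1 k), mem_stab] at h2
  rw [← d, h2]

/-- real of odd degree -/
def RO (χ : G → ℂ) : Prop := star χ = χ ∧ ¬ 2 ∣ charDegree χ

theorem ro_all (hG : Group.IsSolvable G) (n : ℕ) : ∀ (H L : Subgroup G) (ν : G → ℂ), L ≤ H →
    H ≤ 𝒩(L) → Syl(2, S, H) → ν ∈ Irr L → star ν = ν → S ≤ stab ν → L.relIndex H = n →
    ((IrrO H L ν).filter RO).card = ((IrrO (L ⊔ H ⊓ 𝒩(S)) L ν).filter RO).card := by
  induction n using Nat.strong_induction_on with | _ n ih => ?_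
  intro H L ν hL hn hS hν hr hs e
  by_cases h0 : H ≤ stab ν
  swap
  · have h1 : L ≤ H ⊓ stab ν := le_inf hL (CF.le_stab (irr_cf hν))
    refine red_cliff _ hL hn hν hS.le (fun X a b c ψ d => and_congr ⟨fun h => ?_, fun h => ?_⟩
      (not_dvd_Ind inf_le_left (hS.of_le c a) (le_inf c hs) (mem_over.1 d).1)) (ih _ (e ▸
        relIndex_lt_of_lt h1 (lt_of_le_of_ne inf_le_left fun h => h0 (h ▸ inf_le_right))) _ L ν h1
        (inf_le_left.trans hn) (hS.of_le (le_inf hS.le hs) inf_le_left) hν hr hs rfl)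
    · exact Ind_injOn_over b (a.trans hn) hν rfl (star_mem_over hr d) d ((Ind_star ψ).trans h)
    · rw [← Ind_star, h]
  have h1 : L ⊔ H ⊓ 𝒩(S) ≤ H := sup_le hL inf_le_left
  have hSN : S ≤ H ⊓ 𝒩(S) := le_inf hS.le (le_norm_self S)
  rcases hL.eq_or_lt with h2 | h2
  · rw [le_antisymm h1 (h2.ge.trans le_sup_left)]
  obtain ⟨K, ⟨k1, k2, k3⟩, -, k4⟩ := H1.exists_minimal_le
    (fun K => L < K ∧ K ≤ H ∧ H ≤ 𝒩(K)) ⟨h2, le_rfl, le_norm_self H⟩
  have k5 : ⁅K, K⁆ ≤ L := by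
    by_contra h
    have h3 : ⁅K, K⁆ ⊔ L ≤ K := sup_le (H16.der_le K) k1.le
    exact H18.sol_not_le_der_sup (H16.sol_of_le (K := ⊤) inferInstance le_top) (k2.trans hn) k1
      (k4 _ ⟨lt_of_le_of_ne le_sup_right fun a => h (le_sup_left.trans a.ge), h3.trans k2,
        le_norm_sup (H1.le_normalizer_commutator k3 k3) hn⟩ h3).ge
  have h3 : K ⊔ H ⊓ 𝒩(S) ≤ H := sup_le k2 inf_le_left
  have e1 := red_norm RO k1.le k2 hn k3 hν h0 hS (fun _ h => h.2) fun θ a _ => by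
    obtain ⟨b, c⟩ := mem_IrrS.1 a
    by_cases d : star θ = θ
    · exact ih _ (e ▸ relIndex_lt_of_lt' k1 k2) H K θ k2 k3 hS b d c rfl
    have : ∀ X, K ≤ X → X ≤ H → S ≤ X → (IrrO X K θ).filter RO = ∅ := fun X x y z =>
      Finset.filter_eq_empty_iff.2 fun χ f h => d (real_of_inv x (y.trans k3) (hS.of_le z y) b c f h.1)
    rw [this H k2 le_rfl hS.le, this _ le_sup_left h3 (hSN.trans le_sup_right)]
  rcases h3.eq_or_lt with h4 | h4
  swap
  · have h5 := k1.le.trans (le_sup_left : K ≤ K ⊔ H ⊓ 𝒩(S))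
    have := ih _ (e ▸ relIndex_lt_of_lt h5 h4) _ L ν h5 (h3.trans hn)
      (hS.of_le (hSN.trans le_sup_right) h3) hν hr hs rfl
    rwa [show (K ⊔ H ⊓ 𝒩(S)) ⊓ 𝒩(S) = H ⊓ 𝒩(S) from
      le_antisymm (inf_le_inf_right _ h3) (le_inf le_sup_right inf_le_right), ← e1] at this
  have h5 : L ≤ K ⊓ (L ⊔ H ⊓ 𝒩(S)) := le_inf k1.le le_sup_left
  rcases h5.eq_or_lt with h6 | h6
  swap
  · have := k4 _ ⟨h6, inf_le_left.trans k2, h4.ge.trans (sup_le
      (H16.norm_of_der_le (k5.trans h5) inf_le_left) (le_norm_inf (inf_le_left.trans k3)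
        (le_norm_of_le le_sup_right)))⟩ inf_le_left
    rw [le_antisymm h1 (h4.ge.trans (sup_le (this.ge.trans inf_le_right) le_sup_right))]
  have ho : Odd (L.relIndex K) := Nat.not_even_iff_odd.1 fun h =>
    ((hS.inf_normal' k2 (hS.le.trans k3)).idx_of_le
      ((inf_le_inf_left K (hSN.trans le_sup_right)).trans h6.ge)) 2 Nat.prime_two h.two_dvd rfl
  obtain ⟨θ, t1, t2, t3, -, t4⟩ := real_over_odd k1.le (k2.trans hn) ho hν hr
  have t5 : dot L θ ν ≠ 0 := t3 ▸ one_ne_zero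
  have t6 : H ≤ stab θ := fun g hg => t4 _ (mem_over.2 ⟨cfj_mem_Irr_norm (k3 hg) t1, by
    rwa [← mem_stab.1 (h0 hg), dot_cfj_norm (hn hg)]⟩) (by rw [← cfj_star, t2])
  have t7 : Res (L : Set G) θ = ν := by
    rw [clifford k1.le (k2.trans hn) t1 hν t5, orb_of_le_stab (k2.trans h0), t3, one_smul,
      Finset.sum_singleton]
  have h7 : K ⊔ (L ⊔ H ⊓ 𝒩(S)) = H := by rw [← sup_assoc, sup_eq_left.2 k1.le, h4]
  rw [← rb_card h7 k3 t1 t6 h6.symm hν t7 RO RO fun χ a => and_congr ⟨fun h => ?_, fun h => ?_⟩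
    (by rw [deg_congr (ψ := χ) (Res_of_mem χ (one_mem (L ⊔ H ⊓ 𝒩(S))))])]
  · congr 1
    ext χ
    simp only [Finset.mem_filter, mem_over]
    refine and_congr_left fun a => and_congr_right fun b => ⟨fun c => ?_, fun c => ?_⟩
    · obtain ⟨ψ, d, f⟩ := exists_inv_under k2 k3 hS b a.2
      obtain ⟨d1, d2⟩ := mem_IrrS.1 d
      rwa [← t4 ψ (mem_over.2 ⟨d1, (over_iff k1.le k2 hn hν h0 b d1 f).1 c⟩)
        (real_of_inv k2 k3 hS d1 d2 (mem_over.2 ⟨b, f⟩) a.1)]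
    · exact (over_iff k1.le k2 hn hν h0 b t1 c).2 t5
  · rw [← Res_star, h]
  · exact rb_inj h7 k3 t1 t6 h6.symm hν t7 (star_mem_over t2 a) a ((Res_star _ χ).trans h)

theorem over_bot (H : Subgroup G) : IrrO H ⊥ (one ⊥) = Irr H := by
  rw [over_one bot_le (le_top.trans (top_le_norm ⊥)), IrrQ_bot]

theorem ro_card (hG : Group.IsSolvable G) (hS : Syl(2, S, ⊤)) :
    ((Irr (⊤ : Subgroup G)).filter RO).card = ((Irr 𝒩(S)).filter RO).card := by
  have := ro_all hG _ ⊤ ⊥ (one ⊥) bot_le (top_le_norm ⊥) hS (isLin_one ⊥).mem_Irr (star_one' ⊥)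
    ((le_top.trans (top_le_norm ⊥)).trans (norm_le_stab_one ⊥)) rfl
  rwa [bot_sup_eq, top_inf_eq, over_bot, over_bot] at this

theorem ro_iff (hG : Group.IsSolvable G) (hS : Syl(2, S, ⊤)) :
    (∀ χ ∈ Irr (⊤ : Subgroup G), ¬ 2 ∣ charDegree χ → star χ = χ) ↔
      ∀ χ ∈ Irr 𝒩(S), ¬ 2 ∣ charDegree χ → star χ = χ := by
  have key : ∀ X : Subgroup G, (∀ χ ∈ Irr X, ¬ 2 ∣ charDegree χ → star χ = χ) ↔
      (IrP 2 X ⊥ (one ⊥)).card ≤ ((Irr X).filter RO).card := fun X => by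
    rw [IrP, over_bot]
    refine ⟨fun h => Finset.card_le_card fun χ a => ?_, fun h χ a b => ?_⟩
    · obtain ⟨b, c⟩ := Finset.mem_filter.1 a
      exact Finset.mem_filter.2 ⟨b, h χ b c, c⟩
    · exact (Finset.mem_filter.1 ((Finset.eq_of_subset_of_card_le (Finset.monotone_filter_right _
        fun _ _ h => h.2) h).ge (Finset.mem_filter.2 ⟨a, b⟩))).2.1
  have := mckay_rel (H1.isPSolvable_of_isSolvable 2 hG) bot_le (top_le_norm ⊥) hS
    (isLin_one ⊥).mem_Irr ((le_top.trans (top_le_norm ⊥)).trans (norm_le_stab_one ⊥))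
  rw [bot_sup_eq, top_inf_eq] at this
  rw [key, key, ro_card hG hS, this]

theorem ro_norm_iff (hS : Syl(2, S, ⊤)) : (∀ χ ∈ Irr 𝒩(S), ¬ 2 ∣ charDegree χ → star χ = χ) ↔
    commutator S = frattini S ∧ 𝒩(S) = S := by
  have hp : IsPGroup 2 S := hS.isPGroup
  haveI := hp.isNilpotent
  have hd : ∀ x : S, x ∈ commutator S ↔ (x : G) ∈ ⁅S, S⁆ := fun x => by
    rw [← map_subtype_commutator]; exact (mem_map_iff_mem S.subtype_injective).symm
  have hl : ∀ χ : G → ℂ, IsLin S χ → (star χ = χ ↔ ∀ x ∈ S, χ (x ^ 2) = 1) := fun χ h => by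
    refine ⟨fun a x hx => ?_, fun a => funext fun x => ?_⟩
    · rw [h.map_pow hx, ← h.mul_conj hx, sq]
      exact congrArg _ (congrFun a x).symm
    · by_cases hx : x ∈ S
      · exact mul_left_cancel₀ (h.ne_zero hx) ((h.mul_conj hx).trans (by
          rw [← sq, ← h.map_pow hx, a x hx]))
      · simp [cf_le_supp _ h.cf x hx]
  constructor
  · intro h
    have ho : ¬ 2 ∣ S.relIndex 𝒩(S) :=
      (hS.of_le (le_norm_self S) le_top).not_dvd_idx Nat.prime_two rfl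
    have e : 𝒩(S) = S := le_antisymm (fun g hg => mem_of_forall_IrrQ (le_norm_self S) le_rfl
      fun χ a => by
        obtain ⟨m, b, c⟩ := deg_over (le_norm_self S) le_rfl (isLin_one S).mem_Irr
          ((over_one (le_norm_self S) le_rfl).ge a)
        rw [deg_lin (isLin_one S), mul_one] at c
        rw [IrrQ_eq_one_of_real (le_norm_self S) le_rfl (Nat.not_even_iff_odd.1 fun d => ho d.two_dvd)
          a (h χ (irrQ_irr a) fun d => ho ((c ▸ d).trans b)), one_of_mem hg, one_of_mem (one_mem _)])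
      (le_norm_self S)
    rw [e] at h
    refine ⟨le_antisymm H3.commutator_le_frattini (H3.frattini_le_of (p := 2) le_rfl fun x =>
      (hd _).2 (mem_of_forall_IrrQ (H16.der_le S) (H16.norm_of_der_le le_rfl (H16.der_le S))
        fun χ a => ?_)), e⟩
    have b := isLin_of_IrrQ le_rfl a
    rw [b.one_apply]
    exact (hl χ b).1 (h χ b.mem_Irr (by rw [deg_lin b]; decide)) x x.2
  · rintro ⟨a, e⟩
    rw [e]
    intro χ b c
    obtain ⟨k, hk⟩ := hp.exists_card_eq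
    have d := lin_of_deg b ((Nat.coprime_self _).1 ?_)
    · exact (hl χ d).2 fun x hx => d.mem_cfker.1 (d.commutator_le
        ((hd (⟨x, hx⟩ ^ 2)).1 (a ▸ H3.pow_mem_frattini hp _)))
    · exact (((Nat.prime_two.coprime_iff_not_dvd.2 c).pow_left k).symm).coprime_dvd_right
        (hk ▸ deg_dvd_card b)

end H21
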