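/-
Derived length of Sylow subgroups of `p`-solvable groups and characters of degree divisible by `p`.
-/
import Cfsg.Agent.H21.MS3
import Cfsg.Agent.H21.CD8
import Cfsg.Agent.H21.RC2
import Cfsg.Agent.H21.Isa1

set_option autoImplicit false
set_option linter.unusedSectionVars false
open H17 Cfsg H15 CF
open scoped ComplexConjugate commutatorElement

namespace H21

universe u
variable {G : Type u} [Group G] [Finite G] {P Q H K T N : Subgroup G} {χ ψ θ l η : G → ℂ}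
  {p n : ℕ}

theorem exists_ext_syl [hp : Fact p.Prime] (hHQ : H ≤ Q) (hQ : Syl(p, Q, T)) (hn : T ≤ 𝒩(H))
    (hl : IsLin H l) (hs : T ≤ stab l) (hη : IsChar Q η) (e : Res (H : Set G) η = l) :
    ∃ χ ∈ Irr T, Res (H : Set G) χ = l := by
  refine amb_ext (hHQ.trans hQ.le) hn hl.mem_Irr hs fun h1 h2 => ext_of_primes h1 h2 (d := 1)
    (by simpa using hl.one_apply) fun q hq _ h3 => ?_
  obtain ⟨k, hk⟩ := IsPGroup.iff_card.1 (hQ.isPGroup.to_le hHQ)
  rw [mul_one] at h3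
  have h4 := h3.trans (detOrder_dvd_card h1.isCharacter)
  rw [H1.card_subgroupOf_of_le (hHQ.trans hQ.le), hk] at h4
  obtain rfl := (Nat.prime_dvd_prime_iff_eq hq hp.out).1 (hq.dvd_of_dvd_pow h4)
  refine ⟨Q.subgroupOf T, Subgroup.subgroupOf_mono T hHQ, fun x => η x, (syl_iff.1 hQ).2.2,
    hη.2.comp (Subgroup.subgroupOfEquivOfLe hQ.le).toMonoidHom, fun n => ?_⟩
  rw [← e]
  exact (Res_of_mem η (A := H) n.2).symm

theorem ito_top [hp : Fact p.Prime] (hs : IsPSolvable p G) [N.Normal]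
    (h : ∀ β ∈ IrrQ ⊤ N, ¬ p ∣ charDegree β) (hP : IsPGroup p P) : ⁅P, P⁆ ≤ N := by
  have h1 := degP_quot (Q := (¬ p ∣ ·)) h
  obtain ⟨R, _, a1, a2, a3⟩ := (pc_of_psolvable (H1.IsPSolvable.quotient hs N) h1).comm h1
  have h4 : Syl(p, R, ⊤) := syl_iff.2 ⟨le_top, a2, by rwa [Subgroup.relIndex_top_right]⟩
  have h5 := h4.le_of_normal (top_le_norm R)
    (H1.isPiNat_card_singleton_iff.2 (hP.map (QuotientGroup.mk' N))) le_top
  have h6 := H16.der_eq_bot.2 (H16.comm_of_le (H1.isMulCommutative_iff'.2 a1) h5)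
  rwa [← Subgroup.map_commutator, Subgroup.map_eq_bot_iff, QuotientGroup.ker_mk'] at h6

theorem ito_amb [hp : Fact p.Prime] (hs : IsPSolvable p T) (hNT : N ≤ T) (hn : T ≤ 𝒩(N))
    (h : ∀ β ∈ IrrQ T N, ¬ p ∣ charDegree β) (hP : IsPGroup p P) (hPT : P ≤ T) : ⁅P, P⁆ ≤ N := by
  have := normal_subgroupOf hn
  have h1 := ito_top hs (N := N.subgroupOf T) (fun β hβ => by
    obtain ⟨a1, a2⟩ := mem_IrrQ.1 hβ
    have a3 := ext0_mem_Irr.2 (mem_Irr_top.1 a1)
    have := h _ (mem_IrrQ.2 ⟨a3, fun x hx => (irr_mem_cfker a3).2 (by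
      exact (congrFun (res_ext0 T β) ⟨x, hNT hx⟩).trans ((cfker_apply (a2 hx)).trans
        (congrFun (res_ext0 T β) 1).symm))⟩)
    rwa [deg_congr (φ := extendByZero T β) (congrFun (res_ext0 T β) 1)] at this)
    (hP.comap_subtype (K := T))
  change ⁅P.subgroupOf T, P.subgroupOf T⁆ ≤ _ at h1
  rwa [← subgroupOf_comm hPT hPT, subgroupOf_le_iff ((H16.der_le P).trans hPT)] at h1

theorem der_le_of_rel [hp : Fact p.Prime] (hs : IsPSolvable p G) [N.Normal] (hN : IsPGroup p N)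
    (hc : IsMulCommutative N) (h0 : N ≠ ⊥) (h : ∀ χ ∈ Irr ⊤, ¬ N ≤ cfker χ → ¬ p ∣ charDegree χ)
    (hP : Syl(p, P, ⊤)) : ⁅P, P⁆ ≤ N := by
  obtain ⟨l, a1, a2⟩ := exists_Irr_not_le (H := N) h0
  have hl := isLin_of_comm hc a1
  have hn := top_le_norm N
  have key : ∀ ψ ∈ IrrO (stab l) N l, ¬ p ∣ (stab l).index * charDegree ψ := fun ψ hψ => by
    obtain ⟨b1, b2⟩ := mem_over.1 (Ind_mem_over le_top hn a1 (top_inf_eq _).symm hψ)
    have := h _ b1 fun h => a2 (le_cfker_of_under le_top le_rfl (irr_char b1) a1 b2 h)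
    rwa [deg_Ind le_top (mem_over.1 hψ).1, Subgroup.relIndex_top_right] at this
  have hNT : N ≤ stab l := le_stab hl.cf
  obtain ⟨ψ, hψ⟩ := over_nonempty hNT a1
  obtain ⟨Q, hQ⟩ := exists_syl p (stab l)
  have hNQ : N ≤ Q := hQ.le_of_norm' (H1.isPiNat_card_singleton_iff.2 hN) hNT (le_top.trans hn)
  obtain ⟨η, b1, b2, b3⟩ := exists_under_not_dvd hQ.le (mem_over.1 hψ).1
    fun h => key ψ hψ (h.mul_left _)
  obtain ⟨k, hk⟩ := IsPGroup.iff_card.1 hQ.isPGroup
  have b4 : charDegree η = 1 := Nat.eq_one_of_dvd_coprimes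
    (((Nat.Prime.coprime_iff_not_dvd hp.out).2 b3).pow_left k) (hk ▸ deg_dvd_card b1) dvd_rfl
  have b5 := over_of_under hNQ hQ.le (le_top.trans hn) a1 le_rfl hψ b1 b2
  obtain ⟨ξ, c1, c2⟩ := exists_ext_syl hNQ hQ (le_top.trans hn) hl le_rfl (irr_char b1)
    (Res_eq_of_deg hNQ a1 b5 (by rw [b4, deg_lin hl]))
  have h1 : ⁅Q, Q⁆ ≤ N := ito_amb (H1.IsPSolvable.subgroup hs _) hNT (le_top.trans hn)
    (fun β hβ hd => key (β * ξ) (c2 ▸ (gall1_mem hNT (le_top.trans hn) (irr_char c1) (c2 ▸ a1)).2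
      ⟨β, hβ, rfl⟩) (by
        rw [deg_mul (mem_IrrQ.1 hβ).1 c1]; exact (hd.mul_right _).mul_left _)) hQ.isPGroup hQ.le
  have h2 : Syl(p, Q, ⊤) := hQ.trans_idx le_top ((H1.isPiNat_compl_singleton_iff hp.out).2 (by
    rw [Subgroup.relIndex_top_right]
    exact (hp.out.coprime_iff_not_dvd.2 fun h => key ψ hψ (h.mul_right _)).symm))
  obtain ⟨m, -, rfl⟩ := h2.exists_cj_eq hP
  rw [← cj_comm]
  exact cj_le_of_mem_norm (hn trivial) h1

theorem ds_map {G' : Type*} [Group G'] (f : G →* G') (P : Subgroup G) (k : ℕ) :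
    ((derivedSeries (P.map f) k).map (P.map f).subtype) = (ds P k).map f := by
  induction k with
  | zero => rw [ds_zero, derivedSeries_zero, ← MonoidHom.range_eq_map, Subgroup.range_subtype]
  | succ k ih => rw [ds_succ, Subgroup.map_commutator, ← ih, derivedSeries_succ, Subgroup.map_commutator]

theorem ds_anti (P : Subgroup G) {i j : ℕ} (h : i ≤ j) : ds P j ≤ ds P i :=
  Subgroup.map_mono (derivedSeries_antitone P h)

open Classical in
theorem dl_aux [hp : Fact p.Prime] (n : ℕ) : ∀ (G : Type u) [Group G] [Finite G],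
    Nat.card G = n → IsPSolvable p G → ∀ P : Subgroup G, Syl(p, P, ⊤) →
    ds P (((Irr (⊤ : Subgroup G)).filter fun χ => p ∣ charDegree χ).card + 1) = ⊥ := by
  induction n using Nat.strong_induction_on with
  | _ n ih =>
  intro G _ _ hn hs P hP
  set S := (Irr (⊤ : Subgroup G)).filter fun χ => p ∣ charDegree χ
  by_cases h0 : S.card = 0
  · rw [h0, zero_add, ds_one, eq_bot_iff]
    refine ito_top hs (fun β hβ hd => ?_) hP.isPGroup
    exact Finset.notMem_empty β (Finset.card_eq_zero.1 h0 ▸ Finset.mem_filter.2 ⟨(mem_IrrQ.1 hβ).1, hd⟩)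
  have h1 : (⊤ : Subgroup G) ≠ ⊥ := fun h => by
    obtain ⟨χ, hχ⟩ := Finset.card_ne_zero.1 h0
    obtain ⟨a1, a2⟩ := Finset.mem_filter.1 hχ
    have := a2.trans (deg_dvd_card a1)
    rw [h, Subgroup.card_bot] at this
    exact hp.out.one_lt.ne' (Nat.dvd_one.1 this)
  obtain ⟨N, hN, h2, -, h3⟩ := H1.exists_minimal_normal_le (⊤ : Subgroup G) h1
  have h4 := hP.map (QuotientGroup.mk' N)
  rw [← MonoidHom.range_eq_map, QuotientGroup.range_mk'] at h4
  have h5 := ih _ (hn ▸ H1.card_quotient_lt h2) _ rfl (H1.IsPSolvable.quotient hs N) _ h4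
  set S' := (Irr (⊤ : Subgroup (G ⧸ N))).filter fun χ => p ∣ charDegree χ
  rw [ds, ds_map, Subgroup.map_eq_bot_iff, QuotientGroup.ker_mk'] at h5
  have h6 : S'.card ≤ (S.filter fun χ => N ≤ cfker χ).card := by
    refine Finset.card_le_card_of_injOn (fun ψ g => ψ g) (fun ψ hψ => ?_) fun a _ b _ e => ?_
    · obtain ⟨a1, a2⟩ := Finset.mem_filter.1 (Finset.mem_coe.1 hψ)
      exact Finset.mem_coe.2 (Finset.mem_filter.2 ⟨Finset.mem_filter.2
        ⟨mem_Irr_top.2 (mem_Irr_top.1 a1).inflate, a2⟩, le_charKer_inflate ψ⟩)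
    · funext x
      obtain ⟨g, rfl⟩ := QuotientGroup.mk_surjective x
      exact congrFun e g
  have h7 := Finset.card_filter_le S fun χ => N ≤ cfker χ
  rcases H1.IsPSolvable.minimal_normal (H1.IsPSolvable.subgroup hs N) h3 with h8 | h8
  swap
  · refine eq_bot_iff.2 ((ds_anti P (i := S'.card + 1) (by omega)).trans ?_)
    rw [← H1.inf_eq_bot_of_isPGroup_of_coprime hP.isPGroup h8]
    exact le_inf (Subgroup.map_subtype_le _) h5
  have h9 := (H1.elementary_of_minimal_normal N (H16.sol_of_nil h8.isNilpotent) h2 h3).1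
  have h10 : ∀ k, ds P k ≤ N → k ≤ S.card → ds P (S.card + 1) = ⊥ := fun k a b =>
    eq_bot_iff.2 ((ds_anti P (Nat.succ_le_succ b)).trans (by
      rw [ds_succ, ← H16.der_eq_bot.2 h9]; exact H16.der_mono a))
  by_cases h11 : S'.card < S.card
  · exact h10 _ h5 h11
  have h12 := Finset.eq_of_subset_of_card_le (Finset.filter_subset (fun χ => N ≤ cfker χ) S)
    (by omega)
  refine h10 1 (ds_one P ▸ der_le_of_rel hs h8 h9 h2 (fun χ a b c => b ?_) hP) (by omega)
  have d : χ ∈ S := Finset.mem_filter.2 ⟨a, c⟩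
  rw [← h12] at d
  exact (Finset.mem_filter.1 d).2

end H21
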