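import Cfsg.Agent.H17.Deg
import Cfsg.Agent.H1.HallTop
import Cfsg.Agent.H1.PSolv
import Cfsg.Agent.H1.Solvable
import Cfsg.Agent.H10.SylowIn

set_option autoImplicit false
set_option linter.unusedSectionVars false
open Cfsg H17 Subgroup
open scoped ComplexConjugate commutatorElement Pointwise

namespace H21

variable {G : Type*} [Group G] [Finite G]

theorem card_le_deg_of_inj [Fintype G] {χ : G → ℂ} (hχ : IsCharacter G χ) {n : ℕ} (hn : χ 1 = n)
    {ι : Type*} [Finite ι] (f : ι → IrrCharacter G) (hf : Function.Injective f)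
    (h : ∀ i, classInner χ (f i) ≠ 0) : Nat.card ι ≤ n := by
  classical
  have := Fintype.ofFinite ι
  obtain ⟨m, hm, e⟩ := hχ.exists_coeff
  choose d hd0 hd using fun ψ : IrrCharacter G => ψ.2.exists_pos_one
  have h1 : n = ∑ ψ, m ψ * d ψ := by
    have := congrFun e 1
    rw [hn, Finset.sum_apply] at this
    simp only [Pi.smul_apply, smul_eq_mul, hd] at this
    exact_mod_cast this
  rw [h1, Nat.card_eq_fintype_card, ← Finset.card_univ, ← Finset.card_image_of_injective _ hf,
    Finset.card_eq_sum_ones]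
  refine (Finset.sum_le_sum fun ψ hψ => ?_).trans
    (Finset.sum_le_sum_of_subset (Finset.subset_univ _))
  obtain ⟨i, -, rfl⟩ := Finset.mem_image.1 hψ
  have h2 : m (f i) ≠ 0 := fun h0 => h i (by rw [hm, h0, Nat.cast_zero])
  exact Nat.mul_pos (Nat.pos_of_ne_zero h2) (hd0 _)

/-- conjugation by an element of the normalizer -/
def cjh {Q : Subgroup G} {y : G} (hy : y ∈ normalizer (Q : Set G)) : Q ≃* Q :=
  Q.normalizerMonoidHom ⟨y, hy⟩

theorem coe_cjh {Q : Subgroup G} {y : G} (hy : y ∈ normalizer (Q : Set G)) (q : Q) :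
    (cjh hy q : G) = y * q * y⁻¹ := rfl

variable {p : ℕ} [hp : Fact p.Prime]

theorem exists_crit {P N : Subgroup G} (hP : IsPGroup p P) (hN : (Nat.card N).Coprime p)
    (hPN : P ≤ normalizer (N : Set G)) (hne : ¬ N ≤ centralizer (P : Set G)) :
    ∃ Q, Q ≤ N ∧ P ≤ normalizer (Q : Set G) ∧ ¬ Q ≤ centralizer (P : Set G) ∧
      (∀ R, R < Q → P ≤ normalizer (R : Set G) → R ≤ centralizer (P : Set G)) ∧ ⁅Q, P⁆ = Q ∧
      ⁅Q, Q⁆ ≤ centralizer (P : Set G) ∧
      Q ⊓ centralizer (P : Set G) ≤ centralizer (Q : Set G) := by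
  obtain ⟨Q, ⟨h1, h2⟩, h3, h4⟩ := H1.exists_minimal_le
    (fun Q : Subgroup G => P ≤ normalizer (Q : Set G) ∧ ¬ Q ≤ centralizer (P : Set G)) ⟨hPN, hne⟩
  have hmin : ∀ R, R < Q → P ≤ normalizer (R : Set G) → R ≤ centralizer (P : Set G) :=
    fun R hR hn => by_contra fun hc => hR.ne (h4 R ⟨hn, hc⟩ hR.le)
  have hcop : (Nat.card P).Coprime (Nat.card Q) :=
    (H1.IsPGroup.coprime_card hP hN).coprime_dvd_right (card_dvd_of_le h3)
  have hsP : Group.IsSolvable P := by have := hP.isNilpotent; infer_instance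
  have hQ0 : Q ≠ ⊥ := fun h => h2 (h ▸ bot_le)
  have hsQ : Group.IsSolvable Q := by
    have h5 : (Q ⊓ centralizer (P : Set G)).relIndex Q ≠ 1 := fun h =>
      h2 ((relIndex_eq_one.1 h).trans inf_le_right)
    obtain ⟨q, hq, hd⟩ := Nat.exists_prime_and_dvd h5
    have : Fact q.Prime := ⟨hq⟩
    obtain ⟨R, hR, hPR⟩ := H1.exists_invariant_sylowOf q h1 hcop (Or.inl hsP)
    obtain ⟨r1, r2, r3⟩ := H1.isPiHallOf_singleton_iff.1 hR
    rcases eq_or_lt_of_le r1 with rfl | h6
    · have := r2.isNilpotent; infer_instance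
    · exact absurd (hd.trans (relIndex_dvd_of_le_left _ (le_inf r1 (hmin R h6 hPR)))) r3
  have hQP : ⁅Q, P⁆ = Q := by
    by_contra h
    have h5 := hmin _ (lt_of_le_of_ne (H10.comm_le_left h1) h)
      (H1.le_normalizer_commutator h1 le_normalizer)
    exact h2 (le_centralizer_iff.1 (H1.le_centralizer_of_commutator_commutator_eq_bot h1 hcop
      (commutator_eq_bot_iff_le_centralizer.2 h5)))
  have hQQ : ⁅Q, Q⁆ ≤ centralizer (P : Set G) :=
    hmin _ (H1.commutator_self_lt hsQ hQ0) (H1.le_normalizer_commutator h1 h1)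
  refine ⟨Q, h3, h1, h2, hmin, hQP, hQQ, ?_⟩
  rw [le_centralizer_iff, ← commutator_eq_bot_iff_le_centralizer]
  nth_rewrite 1 [← hQP]
  refine commutator_commutator_eq_bot_of_rotate ?_ ?_
  · rw [commutator_eq_bot_iff_le_centralizer.2 (le_centralizer_iff.1 inf_le_right),
      commutator_bot_left]
  · exact commutator_eq_bot_iff_le_centralizer.2 ((commutator_mono inf_le_left le_rfl).trans hQQ)

theorem lin_eq_one_of_cent {P Q : Subgroup G} (hPQ : P ≤ normalizer (Q : Set G))
    (hcop : (Nat.card P).Coprime (Nat.card Q)) (h : ⁅Q, P⁆ = Q) (l : Q →* ℂˣ) {c : Q}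
    (hc : (c : G) ∈ centralizer (P : Set G)) : l c = 1 := by
  classical
  have := Fintype.ofFinite P
  let μ : Q →* ℂˣ := ∏ y : P, l.comp (cjh (hPQ y.2)).toMonoidHom
  have hμ : ∀ q, μ q = ∏ y : P, l (cjh (hPQ y.2) q) := fun q => by
    simp [μ, MonoidHom.finsetProd_apply]
  have h1 : ∀ (x : P) (q : Q), μ (cjh (hPQ x.2) q) = μ q := fun x q => by
    rw [hμ, hμ, ← Equiv.prod_comp (Equiv.mulRight x) fun y : P => l (cjh (hPQ y.2) q)]
    refine Finset.prod_congr rfl fun y _ => congrArg l (Subtype.ext ?_)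
    simp only [coe_cjh, Equiv.coe_mulRight, coe_mul]
    group
  have h2 : Q ≤ μ.ker.map Q.subtype := by
    nth_rewrite 1 [← h]
    rw [commutator_le]
    intro q hq y hy
    refine ⟨⟨q, hq⟩ * cjh (hPQ hy) ⟨q, hq⟩⁻¹, ?_, ?_⟩
    · change μ _ = 1
      rw [map_mul, h1 ⟨y, hy⟩, ← map_mul, mul_inv_cancel, map_one]
    · simp only [coe_subtype, coe_mul, coe_cjh, commutatorElement_def, coe_inv]
      group
  obtain ⟨c', hc', e⟩ := h2 c.2
  have e' : c' = c := Subtype.ext e
  rw [e'] at hc'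
  have h3 : μ c = l c ^ Nat.card P := by
    rw [hμ, Finset.prod_congr rfl fun y _ => congrArg l (show cjh (hPQ y.2) c = c from
      Subtype.ext (by rw [coe_cjh, hc y y.2]; group)), Finset.prod_const, Finset.card_univ,
      Nat.card_eq_fintype_card]
  have h4 : l c ^ Nat.card P = 1 := h3.symm.trans hc'
  have h5 : l c ^ Nat.card Q = 1 := by rw [← map_pow, pow_card_eq_one', map_one]
  rw [← pow_one (l c), ← hcop.gcd_eq_one]
  exact pow_gcd_eq_one.2 ⟨h4, h5⟩

theorem not_sq_le_of_fpf {P N : Subgroup G} (hP : IsPGroup p P) (hN : (Nat.card N).Coprime p)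
    (hPN : P ≤ normalizer (N : Set G)) (hne : ¬ N ≤ centralizer (P : Set G))
    (hfp : ∀ x ∈ P, x ≠ 1 → ∀ n ∈ N, Commute n x → n ∈ centralizer (P : Set G))
    {χ : G → ℂ} (hχ : IsCharacter G χ) (hf : ∀ g, χ g = χ 1 → g = 1) {d : ℕ} (hd : χ 1 = d) :
    Nat.card P < d ^ 2 := by
  classical
  obtain ⟨Q, hQN, hPQ, hQC, hmin, hQP, hQQ, hZ⟩ := exists_crit hP hN hPN hne
  have := Fintype.ofFinite Q
  have hcop : (Nat.card P).Coprime (Nat.card Q) :=
    (H1.IsPGroup.coprime_card hP hN).coprime_dvd_right (card_dvd_of_le hQN)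
  have hsP : ∀ A : Subgroup G, A ≤ P → Group.IsSolvable A := fun A hA => by
    have := (hP.to_le hA).isNilpotent; infer_instance
  obtain ⟨g, hgQ, hgC⟩ := SetLike.not_le_iff_exists.1 hQC
  have hP1 : 1 < Nat.card P := by
    rw [one_lt_card_iff_ne_bot]
    rintro rfl
    exact hgC (by simp [mem_centralizer_iff])
  have hχQ := hχ.restrict Q
  have hg1 : (⟨g, hgQ⟩ : Q) ∉ charKer (fun q : Q => χ q) := fun h => by
    have h1 := hf g (apply_eq_of_mem_charKer (χ := fun q : Q => χ q) h)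
    exact hgC (h1 ▸ one_mem _)
  rw [hχQ.mem_charKer_iff_forall] at hg1
  push Not at hg1
  obtain ⟨θ, hθ, hin, hgθ⟩ := hg1
  by_cases hlin : commutator Q ≤ charKer θ
  · obtain ⟨l, rfl⟩ := hθ.isCharacter.exists_linear (hθ.one_eq_one_iff.2 hlin)
    have h1 := card_le_deg_of_inj hχQ (n := d) hd (ι := P)
      (fun y => ⟨_, isIrr_linear (l.comp (cjh (hPQ y.2)).toMonoidHom)⟩) (fun x y hxy => ?_)
      (fun y => ?_)
    · nlinarith
    · by_contra hne
      have hw : (x : G) * (y : G)⁻¹ ∈ P := P.mul_mem x.2 (P.inv_mem y.2)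
      have hw1 : (x : G) * (y : G)⁻¹ ≠ 1 := fun h => hne (Subtype.ext (mul_inv_eq_one.1 h))
      have h2 : ∀ q : Q, l (cjh (hPQ hw) q) = l q := fun q => by
        have h3 := congrFun (congrArg Subtype.val hxy) ((cjh (hPQ y.2)).symm q)
        simp only [MonoidHom.comp_apply, MulEquiv.coe_toMonoidHom, MulEquiv.apply_symm_apply,
          Units.val_inj] at h3
        rw [← h3]
        refine congrArg l (Subtype.ext ?_)
        nth_rewrite 1 [← (cjh (hPQ y.2)).apply_symm_apply q]
        simp only [coe_cjh]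
        group
      have h3 : ⁅Q, zpowers ((x : G) * (y : G)⁻¹)⁆ ≤ l.ker.map Q.subtype := by
        have h4 : zpowers ((x : G) * (y : G)⁻¹) ≤ (⟨⟨⟨{w | ∃ hw : w ∈ P, ∀ q : Q,
            l (cjh (hPQ hw) q) = l q}, ?_⟩, ?_⟩, ?_⟩ : Subgroup G) := zpowers_le.2 ⟨hw, h2⟩
        · rw [commutator_le]
          intro q hq w hw'
          obtain ⟨w1, w2⟩ := h4 hw'
          refine ⟨⟨q, hq⟩ * cjh (hPQ w1) ⟨q, hq⟩⁻¹, ?_, ?_⟩
          · change l _ = 1
            rw [map_mul, w2, ← map_mul, mul_inv_cancel, map_one]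
          · simp only [coe_subtype, coe_mul, coe_cjh, commutatorElement_def, coe_inv]
            group
        · rintro a b ⟨a1, a2⟩ ⟨b1, b2⟩
          refine ⟨P.mul_mem a1 b1, fun q => ?_⟩
          rw [← b2 q, ← a2 (cjh (hPQ b1) q)]
          refine congrArg l (Subtype.ext ?_)
          simp only [coe_cjh]
          group
        · exact ⟨P.one_mem, fun q => congrArg l (Subtype.ext (by simp [coe_cjh]))⟩
        · rintro a ⟨a1, a2⟩
          refine ⟨P.inv_mem a1, fun q => ?_⟩
          rw [← a2]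
          refine congrArg l (Subtype.ext ?_)
          simp only [coe_cjh]
          group
      obtain ⟨c, hc, z, hz, e⟩ := H1.exists_centralizer_mul_commutator
        ((zpowers_le.2 hw).trans hPQ) (hcop.coprime_dvd_left (card_dvd_of_le (zpowers_le.2 hw)))
        (Or.inl (hsP _ (zpowers_le.2 hw))) hgQ
      obtain ⟨z', hz', rfl⟩ := h3 hz
      have h5 := lin_eq_one_of_cent hPQ hcop hQP l (c := ⟨c, hc.1⟩)
        (hfp _ hw hw1 c (hQN hc.1) (hc.2 _ (mem_zpowers _)).symm)
      apply hgθ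
      rw [hθ.mem_charKer, show (⟨g, hgQ⟩ : Q) = ⟨c, hc.1⟩ * z' from Subtype.ext e, map_mul, h5,
        one_mul, (MonoidHom.mem_ker.1 hz' : l z' = 1), map_one]
    · have h2 := classInner_comp_equiv (cjh (hPQ y.2)) (fun q : Q => χ q) (fun q => (l q : ℂ))
      have h3 : (fun q : Q => χ (cjh (hPQ y.2) q)) = fun q : Q => χ q := funext fun q => by
        rw [coe_cjh, hχ.isClassFunction]
      rw [h3] at h2
      exact fun h => hin (h2.symm.trans h)
  · obtain ⟨n, hn0, hn⟩ := hθ.exists_pos_one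
    have hnd : n ≤ d := by
      have := hχQ.irr_degree_le hθ hin
      simp only [OneMemClass.coe_one, hd, hn, Complex.natCast_re] at this
      exact_mod_cast this
    set C := Q ⊓ centralizer (P : Set G) with hC
    have hcm : ∀ a b : Q, ((⁅a, b⁆ : Q) : G) ∈ C := fun a b =>
      ⟨(⁅a, b⁆ : Q).2, hQQ (commutator_mem_commutator a.2 b.2)⟩
    have hZC : (charCenter θ).map Q.subtype ≤ centralizer (P : Set G) := by
      refine hmin _ (lt_of_le_of_ne (map_subtype_le _) fun h => hlin ?_) fun x hx => ?_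
      · rw [_root_.commutator_def, commutator_le]
        intro a _ b _
        obtain ⟨a', ha', e⟩ := h.ge a.2
        have e' : a' = a := Subtype.ext e
        rw [e'] at ha'
        exact hθ.mem_charCenter_iff.1 ha' b
      · refine mem_normalizer_fintype ?_
        rintro _ ⟨a, ha, rfl⟩
        refine ⟨cjh (hPQ hx) a, hθ.mem_charCenter_iff.2 fun b => ?_, rfl⟩
        have h1 := hθ.mem_charCenter_iff.1 ha ((cjh (hPQ hx)).symm b)
        have h2 : cjh (hPQ hx) ⁅a, (cjh (hPQ hx)).symm b⁆ = ⁅a, (cjh (hPQ hx)).symm b⁆ :=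
          Subtype.ext (by rw [coe_cjh, (hcm _ _).2 x hx]; group)
        rw [map_commutatorElement, MulEquiv.apply_symm_apply] at h2
        rw [← commutatorElement_def, h2]
        exact h1
    have hvan : ∀ a : Q, (a : G) ∉ C → θ a = 0 := fun a ha => by
      have h1 : a ∉ charCenter θ := fun h => ha ⟨a.2, hZC ⟨a, h, rfl⟩⟩
      rw [hθ.mem_charCenter_iff] at h1
      push Not at h1
      obtain ⟨b, hb⟩ := h1
      have h2 : ⁅a, b⁆ ∈ center Q := mem_center_iff.2 fun y =>
        Subtype.ext ((hZ (hcm a b)) y y.2)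
      obtain ⟨ω, hω⟩ := mem_charCenter_def.1 (hθ.center_le_charCenter h2)
      have h3 := hω (b * a * b⁻¹)
      have h4 : ⁅a, b⁆ * (b * a * b⁻¹) = a * b * b⁻¹ := by rw [commutatorElement_def]; group
      rw [h4, mul_inv_cancel_right, hθ.isClassFunction] at h3
      by_contra h0
      have h5 : (ω : ℂ) = 1 := mul_right_cancel₀ h0 (by rw [← h3, one_mul])
      exact hb fun x => by rw [← commutatorElement_def, hω, h5, one_mul]
    have h1 : (Nat.card Q : ℝ) ≤ Nat.card (C.subgroupOf Q) * n ^ 2 := by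
      rw [← hθ.sum_norm_sq, ← Finset.sum_filter_add_sum_filter_not Finset.univ
        (fun a : Q => a ∈ C.subgroupOf Q), Finset.sum_eq_zero (s := Finset.univ.filter
          fun a : Q => ¬ a ∈ C.subgroupOf Q) (fun a ha => by
            rw [hvan a (Finset.mem_filter.1 ha).2]; simp), add_zero, Nat.card_eq_fintype_card,
        Fintype.card_subtype, ← nsmul_eq_mul]
      refine Finset.sum_le_card_nsmul _ _ _ fun a _ => ?_
      have := hθ.isCharacter.norm_le a
      rw [hn, Complex.natCast_re] at this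
      exact pow_le_pow_left₀ (norm_nonneg _) this 2
    have h2 : (C.subgroupOf Q).index ≤ n ^ 2 := by
      rw [← (C.subgroupOf Q).card_mul_index] at h1
      have h3 : (0 : ℝ) < Nat.card (C.subgroupOf Q) := Nat.cast_pos.2 Nat.card_pos
      push_cast at h1
      exact_mod_cast le_of_mul_le_mul_left h1 h3
    have h3 : Nat.card P < (C.subgroupOf Q).index := by
      have := Fintype.ofFinite P
      have := Fintype.ofFinite (Q ⧸ C.subgroupOf Q)
      rw [index, Nat.card_eq_fintype_card, Nat.card_eq_fintype_card]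
      refine Fintype.card_lt_of_injective_of_notMem
        (fun x : P => (QuotientGroup.mk (cjh (hPQ x.2) ⟨g, hgQ⟩) : Q ⧸ C.subgroupOf Q))
        (fun x y hxy => ?_) (b := QuotientGroup.mk 1) ?_
      · by_contra hne
        have hw : (x : G)⁻¹ * y ∈ P := P.mul_mem (P.inv_mem x.2) y.2
        have hw1 : (x : G)⁻¹ * y ≠ 1 := fun h => hne (Subtype.ext (inv_mul_eq_one.1 h))
        have h4 : ((x : G) * g * (x : G)⁻¹)⁻¹ * (y * g * (y : G)⁻¹) ∈ C :=
          (QuotientGroup.eq (s := C.subgroupOf Q)).1 hxy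
        have h5 : ⁅g⁻¹, (x : G)⁻¹ * y⁆ =
            ((x : G) * g * (x : G)⁻¹)⁻¹ * (y * g * (y : G)⁻¹) := by
          have h6 := h4.2 x x.2
          calc ⁅g⁻¹, (x : G)⁻¹ * y⁆ = (x : G)⁻¹ *
                (((x : G) * g * (x : G)⁻¹)⁻¹ * (y * g * (y : G)⁻¹) * x) := by
                  rw [commutatorElement_def]; group
            _ = _ := by rw [← h6]; group
        rw [← h5] at h4
        have h6 := H1.commute_of_commutator_commute (h4.2 _ hw).symm
          ((hcop.coprime_dvd_left (orderOf_dvd_natCard _ hw)).coprime_dvd_right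
            (orderOf_dvd_natCard _ h4.1))
        exact hgC (hfp _ hw hw1 g (hQN hgQ) (Commute.inv_left_iff.1 h6))
      · rintro ⟨x, hx⟩
        have h4 : ((x : G) * g * (x : G)⁻¹)⁻¹ * 1 ∈ C := (QuotientGroup.eq (s := C.subgroupOf Q)).1 hx
        rw [mul_one, inv_mem_iff] at h4
        have h5 := h4.2 x x.2
        have h6 : (x : G) * g * (x : G)⁻¹ = g := by
          have : (x : G) * g * (x : G)⁻¹ * x = x * g := by group
          exact mul_left_cancel (h5.trans this)
        exact hgC (h6 ▸ h4.2)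
    exact h3.trans_le (h2.trans (Nat.pow_le_pow_left hnd 2))

theorem normal_of_TI_small (hs : IsPSolvable p G) (P : Sylow p G)
    (hTI : ∀ g : G, g ∉ normalizer ((P : Subgroup G) : Set G) →
      (P : Subgroup G) ⊓ (MulAut.conj g • (P : Subgroup G)) = ⊥)
    {χ : G → ℂ} (hχ : IsCharacter G χ) (hf : ∀ g, χ g = χ 1 → g = 1) {d : ℕ} (hd : χ 1 = d)
    (h : d ^ 2 ≤ Nat.card P) : (P : Subgroup G).Normal := by
  by_contra hn
  rw [← normalizer_eq_top_iff, eq_top_iff'] at hn
  push Not at hn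
  obtain ⟨g, hg⟩ := hn
  have h0 : pCore p G = ⊥ := by
    rw [eq_bot_iff, ← hTI g hg]
    exact le_inf (H1.pCore_le_sylow P) (H1.pCore_le_sylow (g • P))
  have h1 := H1.IsPSolvable.centralizer_pPrimeCore_le hs h0
  have h2 := H1.inf_eq_bot_of_coprime'
    (H1.IsPGroup.coprime_card P.isPGroup' (H1.coprime_card_pPrimeCore p))
  refine (not_sq_le_of_fpf P.isPGroup' (H1.coprime_card_pPrimeCore p) le_normalizer_of_normal
    (fun h3 => hg ?_) (fun x hx x1 n hn hc => ?_) hχ hf hd).not_ge h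
  · have h4 : (P : Subgroup G) = ⊥ := by
      rw [← h2]; exact (inf_eq_left.2 ((le_centralizer_iff.1 h3).trans h1)).symm
    rw [h4]
    exact le_normalizer_of_normal (mem_top g)
  · have h3 : n ∈ normalizer ((P : Subgroup G) : Set G) := by
      by_contra h4
      have h5 : x ∈ (P : Subgroup G) ⊓ (MulAut.conj n • (P : Subgroup G)) := ⟨hx, by
        have := H1.conj_mem_conj_smul (g := n) hx
        rwa [hc.eq, mul_inv_cancel_right] at this⟩
      rw [hTI n h4] at h5
      exact x1 h5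
    intro y hy
    have h4 : y * n * y⁻¹ * n⁻¹ ∈ (P : Subgroup G) ⊓ pPrimeCore p G := ⟨by
      have := P.1.mul_mem hy (H1.conj_mem_of_mem_normalizer h3 (P.1.inv_mem hy))
      simpa [mul_assoc] using this, (pPrimeCore p G).mul_mem
        ((inferInstance : (pPrimeCore p G).Normal).conj_mem n hn y) ((pPrimeCore p G).inv_mem hn)⟩
    rw [h2, mem_bot] at h4
    calc y * n = y * n * y⁻¹ * n⁻¹ * (n * y) := by group
      _ = _ := by rw [h4, one_mul]

end H21
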